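import Mathlib
import Cfsg.Agent.Hall.Hall
import Cfsg.Agent.Solv.MinNormal
import Cfsg.Agent.H50.PAut
import Cfsg.Agent.H67.SZ
import Cfsg.Agent.H67.Basic

set_option autoImplicit false

/-!
Solvable groups in which `p`-subgroups of the same order are conjugate and all but one type of Sylow
subgroups are cyclic: all subgroups of the same order are conjugate (S4022).
-/

namespace Cfsg.Agent.H67

open Subgroup
open scoped Pointwise

universe u

/-- For every prime, `p`-subgroups of equal order are conjugate. -/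
def PSubConj (G : Type u) [Group G] : Prop :=
  ∀ p : ℕ, p.Prime → ∀ H K : Subgroup G, IsPGroup p H → IsPGroup p K → Nat.card H = Nat.card K →
    ∃ g : G, MulAut.conj g • H = K

/-- Sylow subgroup of a preimage of a `p`-subgroup. -/
theorem exists_pgroup_lift {G : Type u} [Group G] [Finite G] (M : Subgroup G) [M.Normal] {p : ℕ}
    [hp : Fact p.Prime] (H : Subgroup (G ⧸ M)) (hH : IsPGroup p H) :
    ∃ H₀ : Subgroup G, IsPGroup p H₀ ∧ H₀.map (QuotientGroup.mk' M) = H ∧
      Nat.card H₀ = p ^ (Nat.card H * Nat.card M).factorization p := by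
  set A := H.comap (QuotientGroup.mk' M) with hA
  have hMA : M ≤ A := by
    intro x hx
    rw [hA, mem_comap]
    have : QuotientGroup.mk' M x = 1 := by
      rw [QuotientGroup.mk'_apply]
      exact (QuotientGroup.eq_one_iff x).mpr hx
    rw [this]; exact one_mem _
  have hmapA : A.map (QuotientGroup.mk' M) = H :=
    map_comap_eq_self_of_surjective (QuotientGroup.mk'_surjective M) H
  have hcardA : Nat.card A = Nat.card H * Nat.card M := by
    have h1 := natCard_mul_relIndex M A hMA
    have h2 : M.relIndex A = Nat.card H := by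
      rw [← hmapA, ← relIndex_ker, QuotientGroup.ker_mk']
    rw [← h1, h2, mul_comm]
  let S : Sylow p A := default
  let f : A →* A.map (QuotientGroup.mk' M) := (QuotientGroup.mk' M).subgroupMap A
  have hf : Function.Surjective f := (QuotientGroup.mk' M).subgroupMap_surjective A
  have hHp : IsPGroup p (A.map (QuotientGroup.mk' M)) := by rw [hmapA]; exact hH
  have htop : ((S.mapSurjective hf : Sylow p (A.map (QuotientGroup.mk' M))) :
      Subgroup (A.map (QuotientGroup.mk' M))) = ⊤ := by
    have h1 : IsPGroup p (⊤ : Subgroup (A.map (QuotientGroup.mk' M))) := hHp.to_subgroup _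
    exact ((S.mapSurjective hf).is_maximal' h1 le_top).symm
  refine ⟨(S : Subgroup A).map A.subtype, S.2.map _, ?_, ?_⟩
  · rw [Sylow.coe_mapSurjective] at htop
    have h2 : (((S : Subgroup A).map f).map (A.map (QuotientGroup.mk' M)).subtype) =
        ((S : Subgroup A).map A.subtype).map (QuotientGroup.mk' M) := by
      rw [Subgroup.map_map, Subgroup.map_map]
      rfl
    rw [← h2, htop, ← MonoidHom.range_eq_map, range_subtype, hmapA]
  · rw [card_map_of_injective A.subtype_injective]
    have := S.card_eq_multiplicity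
    rw [hcardA] at this
    exact this

theorem PSubConj.quotient {G : Type u} [Group G] [Finite G] (h : PSubConj G) (M : Subgroup G) [M.Normal] :
    PSubConj (G ⧸ M) := by
  intro p hp H K hH hK hHK
  haveI : Fact p.Prime := ⟨hp⟩
  obtain ⟨H₀, h1, h2, h3⟩ := exists_pgroup_lift M H hH
  obtain ⟨K₀, k1, k2, k3⟩ := exists_pgroup_lift M K hK
  obtain ⟨g, hg⟩ := h p hp H₀ K₀ h1 k1 (by rw [h3, k3, hHK])
  refine ⟨QuotientGroup.mk' M g, ?_⟩
  rw [← h2, ← Hall.map_conj_smul, hg, k2]

theorem isCyclic_sylow_quotient {G : Type u} [Group G] [Finite G] {p : ℕ} [Fact p.Prime]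
    (h : ∀ P : Sylow p G, IsCyclic P) (M : Subgroup G) [M.Normal] (P : Sylow p (G ⧸ M)) : IsCyclic P := by
  let Q : Sylow p G := default
  let Q' : Sylow p (G ⧸ M) := Q.mapSurjective (QuotientGroup.mk'_surjective M)
  haveI hQ : IsCyclic Q := h Q
  haveI hQ' : IsCyclic Q' := by
    have h1 : IsCyclic ((Q : Subgroup G).map (QuotientGroup.mk' M)) :=
      isCyclic_of_surjective ((QuotientGroup.mk' M).subgroupMap (Q : Subgroup G))
        ((QuotientGroup.mk' M).subgroupMap_surjective _)
    have h2 : ((Q' : Sylow p (G ⧸ M)) : Subgroup (G ⧸ M)) = (Q : Subgroup G).map (QuotientGroup.mk' M) :=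
      Sylow.coe_mapSurjective _ _
    have h3 : IsCyclic ((Q' : Sylow p (G ⧸ M)) : Subgroup (G ⧸ M)) := by rw [h2]; exact h1
    exact h3
  exact isCyclic_of_surjective (Sylow.equiv Q' P) (Sylow.equiv Q' P).surjective

theorem isCyclic_sylow_subgroup {G : Type u} [Group G] [Finite G] {p : ℕ} [Fact p.Prime]
    (h : ∀ P : Sylow p G, IsCyclic P) (R : Subgroup G) (P : Sylow p R) : IsCyclic P := by
  have h1 : IsPGroup p ((P : Subgroup R).map R.subtype) := P.2.map _
  obtain ⟨Q, hQ⟩ := h1.exists_le_sylow
  haveI : IsCyclic (Q : Subgroup G) := h Q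
  let f : (P : Subgroup R) →* (Q : Subgroup G) :=
    (inclusion hQ).comp (R.subtype.subgroupMap (P : Subgroup R))
  have hf : Function.Injective f := by
    intro a b hab
    have := congrArg Subtype.val hab
    exact Subtype.ext (Subtype.ext this)
  exact isCyclic_of_injective f hf

theorem psubConj_of_cyclic {G : Type u} [Group G] [Finite G]
    (h : ∀ p : ℕ, p.Prime → ∀ P : Sylow p G, IsCyclic P) : PSubConj G := by
  intro p hp H K hH hK hHK
  haveI : Fact p.Prime := ⟨hp⟩
  obtain ⟨P, hP⟩ := hH.exists_le_sylow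
  obtain ⟨Q, hQ⟩ := hK.exists_le_sylow
  obtain ⟨g, hg⟩ := MulAction.exists_smul_eq G P Q
  haveI : IsCyclic (Q : Subgroup G) := h p hp Q
  refine ⟨g, ?_⟩
  have h1 : MulAut.conj g • H ≤ (Q : Subgroup G) := by
    rw [← hg, Sylow.coe_subgroup_smul]
    exact Hall.conj_smul_mono hP
  have h2 : (MulAut.conj g • H).subgroupOf (Q : Subgroup G) = K.subgroupOf (Q : Subgroup G) := by
    apply H50.eq_of_card_eq_of_cyclic
    rw [Nat.card_congr (subgroupOfEquivOfLe h1).toEquiv, Nat.card_congr (subgroupOfEquivOfLe hQ).toEquiv,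
      Hall.card_conj_smul, hHK]
  rw [← Hall.map_subgroupOf_subtype h1, h2, Hall.map_subgroupOf_subtype hQ]

/-- correspondence for subgroups containing `M` -/
theorem eq_of_map_eq {G : Type u} [Group G] (M : Subgroup G) [M.Normal] {A B : Subgroup G} (hA : M ≤ A)
    (hB : M ≤ B) (h : A.map (QuotientGroup.mk' M) = B.map (QuotientGroup.mk' M)) : A = B := by
  have h1 := congrArg (Subgroup.comap (QuotientGroup.mk' M)) h
  rwa [comap_map_eq, comap_map_eq, QuotientGroup.ker_mk', sup_eq_left.mpr hA, sup_eq_left.mpr hB] at h1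

theorem natCard_map_mk {G : Type u} [Group G] (M : Subgroup G) [M.Normal] (A : Subgroup G) :
    Nat.card (A.map (QuotientGroup.mk' M)) = M.relIndex A := by
  rw [← relIndex_ker, QuotientGroup.ker_mk']

theorem conj_of_card_eq_aux (n : ℕ) : ∀ {G : Type u} [Group G] [Finite G], Group.IsSolvable G →
    Nat.card G = n → PSubConj G →
    ∀ r : ℕ, (∀ p : ℕ, p.Prime → p ≠ r → ∀ P : Sylow p G, IsCyclic P) →
    ∀ H K : Subgroup G, Nat.card H = Nat.card K → ∃ g : G, MulAut.conj g • H = K := by
  induction n using Nat.strong_induction_on with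
  | _ n ih =>
  intro G _ _ hsol hn hD r hcyc H K hHK
  haveI := hsol
  rcases subsingleton_or_nontrivial G with hsub | hnt
  · exact ⟨1, Subsingleton.elim _ _⟩
  -- minimal normal subgroup
  obtain ⟨M, hM⟩ := (Set.toFinite {N : Subgroup G | N.Normal ∧ N ≠ ⊥}).exists_minimal
    ⟨⊤, inferInstance, top_ne_bot⟩
  haveI hMn : M.Normal := hM.1.1
  have hMbot : M ≠ ⊥ := hM.1.2
  have hmin : ∀ N : Subgroup G, N.Normal → N ≤ M → N = ⊥ ∨ N = M := by
    intro N hN hNM
    by_cases h : N = ⊥
    · exact Or.inl h
    · right; exact le_antisymm hNM (hM.2 ⟨hN, h⟩ hNM)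
  have hMsol : Group.IsSolvable M := inferInstance
  obtain ⟨hMc, q, hq, hMq⟩ := Solv.minimal_normal_of_solvable M hMsol hMbot hmin
  haveI : Fact q.Prime := ⟨hq⟩
  have hMp : IsPGroup q M := fun x => ⟨1, by rw [pow_one]; exact Subtype.ext (hMq x x.2)⟩
  obtain ⟨m, hm⟩ := hMp.exists_card_eq
  have hM1 : 1 < Nat.card M := (one_lt_card_iff_ne_bot M).mpr hMbot
  have hm0 : m ≠ 0 := by
    rintro rfl
    rw [hm, pow_zero] at hM1
    omega
  have hqM : q ∣ Nat.card M := by rw [hm]; exact dvd_pow_self q hm0
  have hqG : q ∣ Nat.card G := hqM.trans (card_subgroup_dvd_card M)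
  have hlt : Nat.card (G ⧸ M) < n := by
    rw [← hn, card_eq_card_quotient_mul_card_subgroup M]
    exact lt_mul_of_one_lt_right Nat.card_pos hM1
  have huniq : ∀ A : Subgroup G, IsPGroup q A → Nat.card A ∣ Nat.card M → A ≤ M := by
    intro A hA hAM
    obtain ⟨a, ha⟩ := hA.exists_card_eq
    obtain ⟨T, hT⟩ := Sylow.exists_subgroup_card_pow_prime (G := M) q (n := a) (by rw [← ha]; exact hAM)
    have hTM : T.map M.subtype ≤ M := map_subtype_le T
    obtain ⟨g, hg⟩ := hD q hq (T.map M.subtype) A ((hMp.to_subgroup T).map _) hA (by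
      rw [card_map_of_injective M.subtype_injective, hT, ha])
    rw [← hg]
    have h1 := Hall.conj_smul_mono (g := g) hTM
    rwa [Hall.conj_smul_normal g M] at h1
  have huniq' : ∀ A : Subgroup G, Nat.card M ∣ Nat.card A → M ≤ A := by
    intro A hA
    obtain ⟨T, hT⟩ := Sylow.exists_subgroup_card_pow_prime (G := A) q (n := m) (by rw [← hm]; exact hA)
    have hTp : IsPGroup q T := IsPGroup.of_card hT
    have h1 : Nat.card (T.map A.subtype) = Nat.card M := by
      rw [card_map_of_injective A.subtype_injective, hT, hm]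
    have h2 : T.map A.subtype ≤ M := huniq _ (hTp.map _) (by rw [h1])
    have h3 : T.map A.subtype = M := eq_of_le_of_card_ge h2 h1.ge
    rw [← h3]
    exact map_subtype_le T
  -- induction hypothesis for the quotient
  have hquot : ∀ A B : Subgroup G, Nat.card (A.map (QuotientGroup.mk' M)) =
      Nat.card (B.map (QuotientGroup.mk' M)) →
      ∃ g : G, (MulAut.conj g • A).map (QuotientGroup.mk' M) = B.map (QuotientGroup.mk' M) := by
    intro A B hAB
    obtain ⟨g', hg'⟩ := ih _ hlt (G := G ⧸ M) inferInstance rfl (hD.quotient M) r (by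
      intro p hp hpr P
      haveI : Fact p.Prime := ⟨hp⟩
      exact isCyclic_sylow_quotient (hcyc p hp hpr) M P) _ _ hAB
    obtain ⟨g, rfl⟩ := QuotientGroup.mk'_surjective M g'
    exact ⟨g, by rw [Hall.map_conj_smul, hg']⟩
  by_cases hMH : Nat.card M ∣ Nat.card H
  · have h1 := huniq' H hMH
    have h2 := huniq' K (hHK ▸ hMH)
    obtain ⟨g, hg⟩ := hquot H K (by
      rw [natCard_map_mk, natCard_map_mk]
      have h3 := natCard_mul_relIndex M H h1
      have h4 := natCard_mul_relIndex M K h2
      rw [hHK, ← h4] at h3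
      exact Nat.eq_of_mul_eq_mul_left (by omega) h3)
    refine ⟨g, eq_of_map_eq M ?_ h2 hg⟩
    rw [← Hall.conj_smul_normal g M]
    exact Hall.conj_smul_mono h1
  have hMK : ¬ Nat.card M ∣ Nat.card K := hHK ▸ hMH
  by_cases hqr : q = r
  · -- `q = r`
    subst hqr
    have hinf : ∀ A : Subgroup G, ¬ Nat.card M ∣ Nat.card A →
        Nat.card (A ⊓ M : Subgroup G) = q ^ (Nat.card A).factorization q ∧
        ((A ⊓ M : Subgroup G).relIndex A).Coprime q := by
      intro A hA
      let S : Sylow q A := default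
      have hScard := S.card_eq_multiplicity
      have hle : (Nat.card A).factorization q ≤ m := by
        by_contra hcon
        push Not at hcon
        apply hA
        rw [hm]
        exact (pow_dvd_pow q hcon.le).trans (Nat.ordProj_dvd _ _)
      have h1 : Nat.card ((S : Subgroup A).map A.subtype) = q ^ (Nat.card A).factorization q := by
        rw [card_map_of_injective A.subtype_injective]; exact hScard
      have h2 : (S : Subgroup A).map A.subtype ≤ M := huniq _ (S.2.map _) (by
        rw [h1, hm]; exact pow_dvd_pow q hle)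
      have h3 : (S : Subgroup A).map A.subtype ≤ A ⊓ M := le_inf (map_subtype_le _) h2
      have h4 : IsPGroup q (A ⊓ M : Subgroup G) := hMp.to_le inf_le_right
      obtain ⟨j, hj⟩ := h4.exists_card_eq
      have h5 : Nat.card (A ⊓ M : Subgroup G) ∣ q ^ (Nat.card A).factorization q := by
        have h6 : Nat.card (A ⊓ M : Subgroup G) ∣ Nat.card A := card_dvd_of_le inf_le_left
        rw [hj] at h6 ⊢
        exact (hq.pow_dvd_iff_dvd_ordProj Nat.card_pos.ne').mp h6
      have h6 : Nat.card (A ⊓ M : Subgroup G) = q ^ (Nat.card A).factorization q :=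
        Nat.dvd_antisymm h5 (h1 ▸ card_dvd_of_le h3)
      refine ⟨h6, ?_⟩
      have h7 := natCard_mul_relIndex (A ⊓ M) A inf_le_left
      rw [h6] at h7
      have h8 : (A ⊓ M : Subgroup G).relIndex A = ordCompl[q] (Nat.card A) := by
        have h9 := Nat.ordProj_mul_ordCompl_eq_self (Nat.card A) q
        have h10 : 0 < q ^ (Nat.card A).factorization q := pow_pos hq.pos _
        exact Nat.eq_of_mul_eq_mul_left h10 (h7.trans h9.symm)
      rw [h8]
      exact (Nat.coprime_ordCompl hq Nat.card_pos.ne').symm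
    obtain ⟨hH1, hH2⟩ := hinf H hMH
    obtain ⟨hK1, hK2⟩ := hinf K hMK
    obtain ⟨g, hg⟩ := hD q hq (H ⊓ M) (K ⊓ M) (hMp.to_le inf_le_right) (hMp.to_le inf_le_right)
      (by rw [hH1, hK1, hHK])
    -- replace `H` by its conjugate
    set H1 := MulAut.conj g • H with hH1def
    have hH1M : H1 ⊓ M = K ⊓ M := by
      rw [← hg, hH1def]
      ext x
      rw [Hall.mem_conj_smul, mem_inf, mem_inf, Hall.mem_conj_smul]
      refine and_congr_right fun _ => ?_
      constructor
      · intro hx
        have := hMn.conj_mem x hx g⁻¹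
        simpa using this
      · intro hx
        have := hMn.conj_mem _ hx g
        have e : g * (g⁻¹ * x * g) * g⁻¹ = x := by group
        rwa [e] at this
    have hH1card : Nat.card H1 = Nat.card K := by rw [hH1def, Hall.card_conj_smul, hHK]
    suffices h : ∃ w : G, MulAut.conj w • H1 = K by
      obtain ⟨w, hw⟩ := h
      exact ⟨w * g, by rw [← Hall.conj_smul_conj_smul]; exact hw⟩
    set D := K ⊓ M with hDdef
    set N := normalizer (D : Set G) with hNdef
    have hnorm : ∀ A : Subgroup G, A ⊓ M = D → A ≤ N := by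
      intro A hA x hx
      rw [hNdef, mem_normalizer_iff_map_conj_eq]
      apply eq_of_le_of_card_ge
      · rintro y ⟨z, hz, rfl⟩
        rw [← hA] at hz ⊢
        exact ⟨A.mul_mem (A.mul_mem hx hz.1) (A.inv_mem hx), hMn.conj_mem z hz.2 x⟩
      · rw [card_map_of_injective (MulAut.conj x).injective]
    -- complements
    have hDcard : ∃ j, Nat.card D = q ^ j := (hMp.to_le (inf_le_right : D ≤ M)).exists_card_eq
    have hcompl : ∀ A : Subgroup G, A ⊓ M = D → (D.relIndex A).Coprime q →
        ∃ B : Subgroup G, B ≤ A ∧ Nat.card B = D.relIndex A ∧ D ⊔ B = A := by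
      intro A hA hcop
      have hDA : D ≤ A := by rw [← hA]; exact inf_le_left
      haveI : (D.subgroupOf A).Normal := normal_subgroupOf_of_le_normalizer (hnorm A hA)
      have hcardD : Nat.card (D.subgroupOf A) = Nat.card D :=
        Nat.card_congr (subgroupOfEquivOfLe hDA).toEquiv
      obtain ⟨j, hj⟩ := hDcard
      have hc : (Nat.card (D.subgroupOf A)).Coprime (D.subgroupOf A).index := by
        rw [hcardD, hj]
        exact (Nat.Coprime.pow_right j hcop).symm
      obtain ⟨B, hB⟩ := exists_right_complement'_of_coprime hc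
      refine ⟨B.map A.subtype, map_subtype_le _, ?_, ?_⟩
      · rw [card_map_of_injective A.subtype_injective]
        exact hB.symm.index_eq_card.symm
      · have h1 := hB.sup_eq_top
        have h2 := congrArg (Subgroup.map A.subtype) h1
        rw [Subgroup.map_sup, Hall.map_subgroupOf_subtype hDA, ← MonoidHom.range_eq_map,
          range_subtype] at h2
        exact h2
    have hH1rel : D.relIndex H1 = D.relIndex K := by
      have h1 := natCard_mul_relIndex D H1 (by rw [← hH1M]; exact inf_le_left)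
      have h2 := natCard_mul_relIndex D K inf_le_left
      rw [hH1card, ← h2] at h1
      exact Nat.eq_of_mul_eq_mul_left Nat.card_pos h1
    obtain ⟨B1, hB1, hB1c, hB1s⟩ := hcompl H1 hH1M (by rw [hH1rel]; exact hK2)
    obtain ⟨B2, hB2, hB2c, hB2s⟩ := hcompl K rfl hK2
    have hB1N : B1 ≤ N := hB1.trans (hnorm H1 hH1M)
    have hB2N : B2 ≤ N := hB2.trans (hnorm K rfl)
    -- Hall subgroup of `N`
    set s := (Nat.card N).factorization q with hs
    have hNfac : Nat.card N = ordCompl[q] (Nat.card N) * q ^ s := by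
      rw [mul_comm]; exact (Nat.ordProj_mul_ordCompl_eq_self (Nat.card N) q).symm
    have hcopN : (ordCompl[q] (Nat.card N)).Coprime (q ^ s) :=
      Nat.Coprime.pow_right s (Nat.coprime_ordCompl hq Nat.card_pos.ne').symm
    obtain ⟨R, hR⟩ := Hall.hall_exists (G := N) _ _ hNfac hcopN
    have hBR : ∀ B : Subgroup G, B ≤ N → (Nat.card B).Coprime q →
        ∃ x ∈ N, MulAut.conj x • B ≤ R.map N.subtype := by
      intro B hB hBq
      obtain ⟨x, hx⟩ := Hall.hall_le_conj (G := N) _ _ hNfac hcopN R (B.subgroupOf N) hR (by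
        rw [Nat.card_congr (subgroupOfEquivOfLe hB).toEquiv]
        exact Nat.Coprime.pow_right s hBq)
      refine ⟨(x : G)⁻¹, inv_mem x.2, ?_⟩
      have h1 := Subgroup.map_mono (f := N.subtype) hx
      rw [Hall.map_subgroupOf_subtype hB, Hall.map_conj_smul] at h1
      have h2 := Hall.conj_smul_mono (g := (x : G)⁻¹) h1
      rw [Hall.conj_smul_conj_smul] at h2
      have e : (x : G)⁻¹ * N.subtype x = 1 := by simp
      rw [e, map_one, one_smul] at h2
      exact h2
    obtain ⟨x1, hx1N, hx1⟩ := hBR B1 hB1N (by rw [hB1c, hH1rel]; exact hK2)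
    obtain ⟨x2, hx2N, hx2⟩ := hBR B2 hB2N (by rw [hB2c]; exact hK2)
    set R' := R.map N.subtype with hR'
    have hR'q : (Nat.card R').Coprime q := by
      rw [hR', card_map_of_injective N.subtype_injective, hR]
      exact (Nat.coprime_ordCompl hq Nat.card_pos.ne').symm
    have hR'lt : Nat.card R' < n := by
      rw [← hn]
      refine lt_of_le_of_ne (Nat.le_of_dvd Nat.card_pos (card_subgroup_dvd_card R')) ?_
      intro h
      rw [h] at hR'q
      exact hq.one_lt.ne' (Nat.eq_one_of_dvd_coprimes hR'q hqG dvd_rfl)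
    have hR'cyc : ∀ p : ℕ, p.Prime → ∀ P : Sylow p R', IsCyclic P := by
      intro p hp P
      haveI : Fact p.Prime := ⟨hp⟩
      by_cases hpq : p = q
      · subst hpq
        have h1 : Nat.card P = 1 := by
          obtain ⟨j, hj⟩ := P.2.exists_card_eq
          have h2 : Nat.card (P : Subgroup R') ∣ Nat.card R' := card_subgroup_dvd_card _
          have h3 : Nat.card (P : Subgroup R') ∣ p ^ j := by rw [hj]
          have h4 : (Nat.card R').Coprime (p ^ j) := Nat.Coprime.pow_right j hR'q
          exact Nat.eq_one_of_dvd_coprimes h4 h2 h3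
        haveI : Subsingleton (P : Subgroup R') := (Nat.card_eq_one_iff_unique.mp h1).1
        exact isCyclic_of_subsingleton
      · exact isCyclic_sylow_subgroup (hcyc p hp hpq) R' P
    obtain ⟨z, hz⟩ := ih _ hR'lt (G := R') inferInstance rfl (psubConj_of_cyclic hR'cyc) 0
      (fun p hp _ P => hR'cyc p hp P) ((MulAut.conj x1 • B1).subgroupOf R')
      ((MulAut.conj x2 • B2).subgroupOf R') (by
        rw [Nat.card_congr (subgroupOfEquivOfLe hx1).toEquiv,
          Nat.card_congr (subgroupOfEquivOfLe hx2).toEquiv, Hall.card_conj_smul, Hall.card_conj_smul,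
          hB1c, hB2c, hH1rel])
    have hz' := Hall.conj_of_subgroupOf hx1 hx2 z hz
    have hzN : (z : G) ∈ N := (map_subtype_le R) z.2
    refine ⟨x2⁻¹ * z * x1, ?_⟩
    set w := x2⁻¹ * z * x1 with hw
    have hwN : w ∈ N := mul_mem (mul_mem (inv_mem hx2N) hzN) hx1N
    have hwB : MulAut.conj w • B1 = B2 := by
      rw [hw, ← Hall.conj_smul_conj_smul, ← Hall.conj_smul_conj_smul, hz', Hall.conj_smul_conj_smul]
      simp
    have hwD : MulAut.conj w • D = D := by
      rw [hNdef, mem_normalizer_iff_map_conj_eq] at hwN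
      exact hwN
    rw [← hB1s, Hall.conj_smul_sup, hwB, hwD, hB2s]
  · -- `q ≠ r`: `M` has order `q`
    have hMcard : Nat.card M = q := by
      obtain ⟨Q, hQ⟩ := hMp.exists_le_sylow
      haveI : IsCyclic (Q : Subgroup G) := hcyc q hq hqr Q
      haveI : IsCyclic M := isCyclic_of_injective (inclusion hQ) (inclusion_injective hQ)
      obtain ⟨g, hg⟩ := IsCyclic.exists_ofOrder_eq_natCard (α := M)
      have h1 : orderOf g ∣ q := orderOf_dvd_of_pow_eq_one (Subtype.ext (hMq g g.2))
      rw [hg] at h1
      rcases (Nat.dvd_prime hq).mp h1 with h2 | h2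
      · omega
      · exact h2
    have hcopH : (Nat.card M).Coprime (Nat.card H) := by
      rw [hMcard, Nat.Prime.coprime_iff_not_dvd hq, ← hMcard]
      exact hMH
    have hcopK : (Nat.card M).Coprime (Nat.card K) := by rw [← hHK]; exact hcopH
    have hrel : ∀ A : Subgroup G, (Nat.card M).Coprime (Nat.card A) → M.relIndex A = Nat.card A := by
      intro A hA
      have h1 : M ⊓ A = ⊥ := by
        apply card_eq_one.mp
        exact Nat.eq_one_of_dvd_coprimes hA (card_dvd_of_le inf_le_left) (card_dvd_of_le inf_le_right)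
      rw [← inf_relIndex_right, h1, relIndex_bot_left]
    obtain ⟨g, hg⟩ := hquot H K (by rw [natCard_map_mk, natCard_map_mk, hrel H hcopH, hrel K hcopK, hHK])
    have hsup : M ⊔ MulAut.conj g • H = M ⊔ K := by
      apply eq_of_map_eq M le_sup_left le_sup_left
      rw [Subgroup.map_sup, Subgroup.map_sup, hg]
    obtain ⟨l, -, hl⟩ := conj_of_sup_eq' M (MulAut.conj g • H) K (by rw [Hall.card_conj_smul]; exact hcopH)
      hcopK hMsol hsup
    exact ⟨l * g, by rw [← Hall.conj_smul_conj_smul]; exact hl⟩

end Cfsg.Agent.H67
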