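import Mathlib
import Cfsg.Prelude.Def_Local
import Cfsg.Agent.Solv.Core
import Cfsg.Agent.H76.PSolvable
import Cfsg.Agent.H23.ExtLayer
import Cfsg.Agent.H67.SZ
import Cfsg.Agent.H67.SameIso

set_option autoImplicit false

/-!
`p`-subgroups of equal order conjugate, with a normal `p`-solvable subgroup (S4024).
-/

namespace Cfsg.Agent.H67

open Subgroup Cfsg

universe u

theorem pPrimePCore_characteristic {X : Type u} [Group X] (p : ℕ) : (pPrimePCore p X).Characteristic := by
  rw [characteristic_iff_le_comap]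
  intro φ x hx
  have hK : (pPrimeCore p X).map φ.toMonoidHom = pPrimeCore p X := Solv.map_pPrimeCore p φ
  let ψ : X ⧸ pPrimeCore p X ≃* X ⧸ pPrimeCore p X := QuotientGroup.congr _ _ φ hK
  have h1 : (pCore p (X ⧸ pPrimeCore p X)).map ψ.toMonoidHom = pCore p (X ⧸ pPrimeCore p X) :=
    Solv.map_pCore p ψ
  have h2 : QuotientGroup.mk' (pPrimeCore p X) x ∈ pCore p (X ⧸ pPrimeCore p X) := hx
  have h3 : ψ (QuotientGroup.mk' (pPrimeCore p X) x) ∈ pCore p (X ⧸ pPrimeCore p X) := by
    rw [← h1]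
    exact mem_map_of_mem _ h2
  exact h3

theorem pPrimeCore_ne_pPrimePCore {X : Type u} [Group X] [Finite X] {p : ℕ} [hp : Fact p.Prime]
    (h : IsPSolvable p X) (hdiv : p ∣ Nat.card X) : ¬ pPrimePCore p X ≤ pPrimeCore p X := by
  intro hle
  have h1 : pCore p (X ⧸ pPrimeCore p X) = ⊥ := by
    rw [eq_bot_iff]
    intro q hq
    obtain ⟨x, rfl⟩ := QuotientGroup.mk'_surjective _ q
    have h2 : x ∈ pPrimePCore p X := hq
    rw [mem_bot]
    exact (QuotientGroup.eq_one_iff x).mpr (hle h2)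
  have h2 := H76.centralizer_pCore_le (H76.isPSolvable_quotient (pPrimeCore p X) h)
    (Solv.pPrimeCore_quotient_pPrimeCore p)
  rw [h1] at h2
  have h3 : centralizer ((⊥ : Subgroup (X ⧸ pPrimeCore p X)) : Set (X ⧸ pPrimeCore p X)) = ⊤ := by
    rw [eq_top_iff]
    intro g _
    rw [mem_centralizer_iff]
    intro y hy
    have : y = 1 := hy
    rw [this]; simp
  rw [h3] at h2
  have h4 : pPrimeCore p X = ⊤ := by
    rw [eq_top_iff]
    intro x _
    have := h2 (mem_top (QuotientGroup.mk' (pPrimeCore p X) x))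
    rw [mem_bot] at this
    exact (QuotientGroup.eq_one_iff x).mp this
  have h5 := Solv.pPrimeCore_card_coprime (G := X) p
  rw [h4, card_top] at h5
  exact (Nat.Prime.coprime_iff_not_dvd hp.out).mp h5.symm hdiv

theorem abelian_and_le_of_normal_pSolvable {G : Type u} [Group G] [Finite G]
    {p : ℕ} [hp : Fact p.Prime] (hp2 : p ≠ 2)
    (hC : ∀ H K : Subgroup G, IsPGroup p H → IsPGroup p K → Nat.card H = Nat.card K →
      ∃ g : G, K = H.map (MulAut.conj g).toMonoidHom) (P : Sylow p G)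
    (H : Subgroup G) [hHn : H.Normal] (hsolv : Cfsg.IsPSolvable p H) (hdiv : p ∣ Nat.card H) :
    (∀ a ∈ P, ∀ b ∈ P, a * b = b * a) ∧ ((P : Subgroup G) ≤ H ∨ IsCyclic P) := by
  haveI := pPrimePCore_characteristic (X := H) p
  set K := (pPrimeCore p H).map H.subtype with hK
  set L := (pPrimePCore p H).map H.subtype with hL
  haveI hKn : K.Normal := inferInstance
  haveI hLn : L.Normal := inferInstance
  have hLH : L ≤ H := map_subtype_le _
  have hKcard : (Nat.card K).Coprime p := by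
    rw [hK, card_map_of_injective H.subtype_injective]
    exact Solv.pPrimeCore_card_coprime p
  have hLK : ¬ L ≤ K := by
    rw [hL, hK, map_le_map_iff_of_injective H.subtype_injective]
    exact pPrimeCore_ne_pPrimePCore hsolv hdiv
  obtain ⟨k, hk⟩ := H23.relIndex_pPrimeCore_pPrimePCore (X := H) p
  set V := L.map (QuotientGroup.mk' K) with hV
  have hVcard : Nat.card V = p ^ k := by
    rw [hV, ← relIndex_ker, QuotientGroup.ker_mk', hK, hL, relIndex_map_map_of_injective _ _ H.subtype_injective, hk]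
  have hVp : IsPGroup p V := IsPGroup.of_card hVcard
  haveI hVn : V.Normal := hLn.map _ (QuotientGroup.mk'_surjective K)
  have hVbot : V ≠ ⊥ := by
    intro h
    apply hLK
    rw [hV, Subgroup.map_eq_bot_iff, QuotientGroup.ker_mk'] at h
    exact h
  set W := (center V).map V.subtype with hW
  haveI hWn : W.Normal := inferInstance
  have hWV : W ≤ V := map_subtype_le _
  have hWcomm : ∀ a ∈ W, ∀ b ∈ W, a * b = b * a := by
    rintro _ ⟨a, ha, rfl⟩ _ ⟨b, hb, rfl⟩
    exact congrArg Subtype.val (mem_center_iff.mp hb a)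
  haveI : Nontrivial V := (nontrivial_iff_ne_bot V).mpr hVbot
  haveI := hVp.center_nontrivial
  have hpc : p ∣ Nat.card (center V) := by
    obtain ⟨c, hc⟩ := (hVp.to_subgroup (center V)).exists_card_eq
    have h1 : 1 < Nat.card (center V) := Finite.one_lt_card
    rw [hc] at h1 ⊢
    apply dvd_pow_self
    rintro rfl
    simp at h1
  obtain ⟨⟨⟨w, hwV⟩, hwc⟩, hw⟩ := exists_prime_orderOf_dvd_card' (G := center V) p hpc
  rw [orderOf_mk, orderOf_mk] at hw
  have hwW : w ∈ W := ⟨⟨w, hwV⟩, hwc, rfl⟩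
  obtain ⟨v, hv, hvo⟩ := exists_lift_orderOf_eq K w (by rw [hw]; exact hKcard.symm)
  rw [hw] at hvo
  -- elements of order `p` of `P` are mapped into `W`
  have hmem : ∀ x : G, x ^ p = 1 → QuotientGroup.mk' K x ∈ W := by
    intro x hx
    by_cases hx1 : x = 1
    · rw [hx1, map_one]; exact one_mem _
    have hxo : orderOf x = p := orderOf_eq_prime hx hx1
    obtain ⟨g, hg⟩ := hC (zpowers v) (zpowers x)
      (IsPGroup.of_card (n := 1) (by rw [Nat.card_zpowers, hvo, pow_one]))
      (IsPGroup.of_card (n := 1) (by rw [Nat.card_zpowers, hxo, pow_one]))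
      (by rw [Nat.card_zpowers, Nat.card_zpowers, hvo, hxo])
    have h1 : x ∈ (zpowers v).map (MulAut.conj g).toMonoidHom := by
      rw [← hg]; exact mem_zpowers x
    obtain ⟨u, ⟨i, rfl⟩, hu⟩ := h1
    have h2 : g * v ^ i * g⁻¹ = x := hu
    rw [← h2, map_mul, map_mul, map_inv]
    apply hWn.conj_mem
    rw [map_zpow, hv]
    exact zpow_mem hwW i
  -- the exponent `p` case
  have hexpcase : (∀ x : (P : Subgroup G), x ^ p = 1) →
      (∀ a ∈ P, ∀ b ∈ P, a * b = b * a) ∧ (P : Subgroup G) ≤ H := by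
    intro hexp
    have hexp' : ∀ x ∈ P, x ^ p = 1 := fun x hx => congrArg Subtype.val (hexp ⟨x, hx⟩)
    constructor
    · intro a ha b hb
      have h1 := hWcomm _ (hmem a (hexp' a ha)) _ (hmem b (hexp' b hb))
      rw [← map_mul, ← map_mul] at h1
      have h2 : (b * a)⁻¹ * (a * b) ∈ K := QuotientGroup.eq.mp h1.symm
      have h3 : (b * a)⁻¹ * (a * b) ∈ (P : Subgroup G) := by
        exact mul_mem (inv_mem (mul_mem hb ha)) (mul_mem ha hb)
      have h4 : orderOf ((b * a)⁻¹ * (a * b)) ∣ Nat.card K := by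
        have := orderOf_dvd_natCard (⟨_, h2⟩ : K)
        rwa [orderOf_mk] at this
      have h5 : orderOf ((b * a)⁻¹ * (a * b)) ∣ p := orderOf_dvd_of_pow_eq_one (hexp' _ h3)
      have h6 := Nat.eq_one_of_dvd_coprimes hKcard h4 h5
      rw [orderOf_eq_one_iff, inv_mul_eq_one] at h6
      exact h6.symm
    · intro a ha
      have h1 := hWV (hmem a (hexp' a ha))
      obtain ⟨l, hl, hla⟩ := h1
      have h2 : l⁻¹ * a ∈ K := QuotientGroup.eq.mp hla
      have h3 : a = l * (l⁻¹ * a) := by group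
      rw [h3]
      exact mul_mem (hLH hl) (map_subtype_le _ h2)
  have hI := same_iso_of_conj hC (P : Subgroup G) P.2
  rcases same_iso_classification P.2 hI with h | ⟨h1, h2⟩ | ⟨h1, -⟩ | ⟨-, -, -, h4⟩
  · refine ⟨?_, Or.inr h⟩
    intro a ha b hb
    have := IsCyclic.commGroup (α := (P : Subgroup G)) |>.mul_comm ⟨a, ha⟩ ⟨b, hb⟩
    exact congrArg Subtype.val this
  · obtain ⟨h3, h4⟩ := hexpcase h2
    exact ⟨h3, Or.inl h4⟩
  · exact absurd h1 hp2
  · obtain ⟨h5, h6⟩ := hexpcase h4
    exact ⟨h5, Or.inl h6⟩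

end Cfsg.Agent.H67
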