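import Cfsg.Agent.H67.Elem
import Cfsg.Agent.H67.ClassTwo
import Cfsg.Agent.H72.ClassSize
import Cfsg.Agent.H63.Omega
import Cfsg.Agent.H23.MaxNormalElab
import Cfsg.Agent.Transfer.Frobenius

set_option autoImplicit false

/-!
# Minimal `p`-elements with classes of `p`-power size (helper67)
-/

namespace Cfsg.Agent.H67.MinPow

open Subgroup
open scoped commutatorElement Pointwise

universe u

variable {G : Type u} [Group G] [Finite G] {p : ℕ} [hp : Fact p.Prime]

/-- All `p'`-elements centralise `Q`. -/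
def PPCent (p : ℕ) (Q : Subgroup G) : Prop := ∀ g : G, ¬ p ∣ orderOf g → ∀ v ∈ Q, g * v = v * g

theorem comm_of_comm {Q : Subgroup G} (hQn : Q.Normal) (hQp : IsPGroup p Q) {g : G} (hg : ¬ p ∣ orderOf g)
    {v : G} (hv : v ∈ Q) (h : g * (v⁻¹ * (g * v * g⁻¹)) = (v⁻¹ * (g * v * g⁻¹)) * g) : g * v = v * g := by
  set w := v⁻¹ * (g * v * g⁻¹) with hw
  have hwQ : w ∈ Q := mul_mem (inv_mem hv) (hQn.conj_mem v hv g)
  have hk : ∀ k : ℕ, g ^ k * v * (g ^ k)⁻¹ = v * w ^ k := by
    intro k
    induction k with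
    | zero => simp
    | succ k ih =>
      have e : g ^ (k + 1) * v * (g ^ (k + 1))⁻¹ = g * (g ^ k * v * (g ^ k)⁻¹) * g⁻¹ := by
        rw [pow_succ']; group
      have hc : g * w ^ k = w ^ k * g := (Commute.pow_right (show Commute g w from h) k).eq
      rw [e, ih]
      calc g * (v * w ^ k) * g⁻¹ = g * v * g⁻¹ * (g * w ^ k * g⁻¹) := by group
        _ = g * v * g⁻¹ * w ^ k := by rw [hc]; group
        _ = v * w * w ^ k := by rw [hw]; group
        _ = v * w ^ (k + 1) := by rw [pow_succ', mul_assoc]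
  have h1 := hk (orderOf g)
  rw [pow_orderOf_eq_one] at h1
  have h2 : w ^ orderOf g = 1 := by
    have : v * 1 = v * w ^ orderOf g := by rw [← h1]; group
    exact (mul_left_cancel this).symm
  obtain ⟨j, hj⟩ := hQp ⟨w, hwQ⟩
  have h3 : w ^ p ^ j = 1 := by simpa using congrArg Subtype.val hj
  have hw1 : w = 1 := by
    rw [← orderOf_eq_one_iff, ← Nat.dvd_one]
    have h4 : (orderOf g).Coprime (p ^ j) :=
      (Nat.Coprime.pow_left j ((Nat.Prime.coprime_iff_not_dvd hp.out).mpr hg)).symm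
    rw [← h4]
    exact Nat.dvd_gcd (orderOf_dvd_of_pow_eq_one h2) (orderOf_dvd_of_pow_eq_one h3)
  have h5 : g * v * g⁻¹ = v := by
    have : v * w = g * v * g⁻¹ := by rw [hw]; group
    rw [← this, hw1, mul_one]
  calc g * v = g * v * g⁻¹ * g := by group
    _ = v * g := by rw [h5]

/-- the hypothesis on elements of order `p` (or `4`) -/
def Hyp (p : ℕ) (G : Type u) [Group G] : Prop :=
  ∀ x : G, (orderOf x = p ∨ (p = 2 ∧ orderOf x = 4)) →
    ∃ a : ℕ, (Subgroup.centralizer ({x} : Set G)).index = p ^ a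

/-- the commutator subgroup with the `p'`-elements -/
def cP (p : ℕ) (Q : Subgroup G) : Subgroup G :=
  closure {w | ∃ v ∈ Q, ∃ g : G, ¬ p ∣ orderOf g ∧ w = v⁻¹ * (g * v * g⁻¹)}

theorem cP_le {Q : Subgroup G} (hQn : Q.Normal) : cP p Q ≤ Q := by
  rw [cP, closure_le]
  rintro w ⟨v, hv, g, -, rfl⟩
  exact mul_mem (inv_mem hv) (hQn.conj_mem v hv g)

theorem normal_of_closure {T : Set G} (hT : ∀ t ∈ T, ∀ h : G, h * t * h⁻¹ ∈ T) : (closure T).Normal := by
  constructor
  intro n hn h
  induction hn using closure_induction with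
  | mem x hx => exact subset_closure (hT x hx h)
  | one => simpa using one_mem (closure T)
  | mul x y _ _ hx hy =>
    have : h * (x * y) * h⁻¹ = (h * x * h⁻¹) * (h * y * h⁻¹) := by group
    rw [this]; exact mul_mem hx hy
  | inv x _ hx =>
    have : h * x⁻¹ * h⁻¹ = (h * x * h⁻¹)⁻¹ := by group
    rw [this]; exact inv_mem hx

theorem cP_normal {Q : Subgroup G} (hQn : Q.Normal) : (cP p Q).Normal := by
  apply normal_of_closure
  rintro w ⟨v, hv, g, hg, rfl⟩ h
  refine ⟨h * v * h⁻¹, hQn.conj_mem v hv h, h * g * h⁻¹, ?_, by group⟩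
  rwa [orderOf_conj_eq]

theorem ppcent_aux (H : Hyp p G) (n : ℕ) : ∀ Q : Subgroup G, Q.Normal → IsPGroup p Q → Nat.card Q = n →
    PPCent p Q := by
  induction n using Nat.strong_induction_on with
  | _ n ih =>
  intro Q hQn hQp hQc
  have ih' : ∀ U : Subgroup G, U.Normal → U < Q → PPCent p U := by
    intro U hU hlt
    refine ih _ ?_ U hU (hQp.to_le hlt.le) rfl
    rw [← hQc]
    exact Set.Finite.card_lt_card (Set.toFinite _) hlt
  by_contra hbad
  -- Q is the commutator
  have hW : cP p Q = Q := by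
    by_contra hne
    have hlt : cP p Q < Q := lt_of_le_of_ne (cP_le hQn) hne
    have h1 := ih' _ (cP_normal hQn) hlt
    apply hbad
    intro g hg v hv
    exact comm_of_comm hQn hQp hg hv (h1 g hg _ (subset_closure ⟨v, hv, g, hg, rfl⟩))
  -- proper normal subgroups are central in Q
  have hcen : ∀ U : Subgroup G, U.Normal → U < Q → ∀ y ∈ U, ∀ q ∈ Q, q * y = y * q := by
    intro U hU hlt y hy q hq
    have h1 := ih' U hU hlt
    rw [← hW] at hq
    have key : cP p Q ≤ centralizer ((U : Subgroup G) : Set G) := by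
      rw [cP, closure_le]
      rintro w ⟨v, hv, g, hg, rfl⟩
      rw [SetLike.mem_coe, mem_centralizer_iff]
      intro y hy
      have hy' : y ∈ U := hy
      -- g⁻¹ commutes with y, g commutes with v y v⁻¹
      have e1 : g * (v * y * v⁻¹) = (v * y * v⁻¹) * g := h1 g hg _ (hU.conj_mem y hy' v)
      have e2 : g * y = y * g := h1 g hg y hy'
      have e3 : g⁻¹ * y = y * g⁻¹ := by
        calc g⁻¹ * y = g⁻¹ * (y * g) * g⁻¹ := by group
          _ = g⁻¹ * (g * y) * g⁻¹ := by rw [e2]
          _ = y * g⁻¹ := by group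
      symm
      calc v⁻¹ * (g * v * g⁻¹) * y = v⁻¹ * (g * v) * (g⁻¹ * y) := by group
        _ = v⁻¹ * (g * v) * (y * g⁻¹) := by rw [e3]
        _ = v⁻¹ * (g * (v * y * v⁻¹)) * v * g⁻¹ := by group
        _ = v⁻¹ * ((v * y * v⁻¹) * g) * v * g⁻¹ := by rw [e1]
        _ = y * (v⁻¹ * (g * v * g⁻¹)) := by group
    have := mem_centralizer_iff.mp (key hq) y hy
    exact this.symm
  -- the set of minimal elements generates Q
  have hΩ : closure {x | x ∈ Q ∧ (orderOf x = p ∨ (p = 2 ∧ orderOf x = 4))} = Q := by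
    set T := {x | x ∈ Q ∧ (orderOf x = p ∨ (p = 2 ∧ orderOf x = 4))} with hT
    have hle : closure T ≤ Q := by
      rw [closure_le]; exact fun x hx => hx.1
    by_contra hne
    have hn : (closure T).Normal := by
      apply normal_of_closure
      rintro t ⟨h1, h2⟩ h
      refine ⟨hQn.conj_mem t h1 h, ?_⟩
      rwa [orderOf_conj_eq]
    have h1 := ih' _ hn (lt_of_le_of_ne hle hne)
    apply hbad
    intro g hg v hv
    have hA : (Nat.card (zpowers g)).Coprime p := by
      rw [Nat.card_zpowers]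
      exact ((Nat.Prime.coprime_iff_not_dvd hp.out).mpr hg).symm
    have hz : ∀ x : G, g * x = x * g → x ∈ centralizer ((zpowers g : Subgroup G) : Set G) := by
      intro x hx
      rw [mem_centralizer_iff]
      rintro _ ⟨k, rfl⟩
      exact ((show Commute g x from hx).zpow_left k).eq
    have h2 := H63.le_centralizer_of_omega (zpowers g) Q hQp
      (by rw [normalizer_eq_top]; exact le_top) hA ?_ ?_
    · exact (mem_centralizer_iff.mp (h2 (mem_zpowers g)) v hv).symm
    · intro x hx hxp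
      by_cases hx1 : x = 1
      · subst hx1; exact one_mem _
      · have := orderOf_eq_prime hxp hx1
        exact hz x (h1 g hg x (subset_closure ⟨hx, Or.inl this⟩))
    · intro hp2 x hx hx4
      by_cases hx1 : x = 1
      · subst hx1; exact one_mem _
      · have h5 : orderOf x ∣ 2 ^ 2 := orderOf_dvd_of_pow_eq_one hx4
        obtain ⟨k, hk, hk'⟩ := (Nat.dvd_prime_pow Nat.prime_two).mp h5
        apply hz x (h1 g hg x (subset_closure ⟨hx, ?_⟩))
        interval_cases k
        · rw [pow_zero, orderOf_eq_one_iff] at hk'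
          exact absurd hk' hx1
        · left; rw [hk', hp2]; rfl
        · right; exact ⟨hp2, by rw [hk']; rfl⟩
  have hQ1 : Q ≠ ⊥ := by
    rintro rfl
    apply hbad
    intro g _ v hv
    rw [mem_bot] at hv
    subst hv; simp
  -- the Frattini subgroup
  have hnt : Nontrivial Q := (nontrivial_iff_ne_bot Q).mpr hQ1
  have hFlt : (frattini Q).map Q.subtype < Q := by
    refine lt_of_le_of_ne (map_subtype_le _) ?_
    intro h
    have h1 : frattini Q = ⊤ := by
      apply map_injective Q.subtype_injective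
      rw [h, ← MonoidHom.range_eq_map, range_subtype]
    obtain ⟨M, hM, -⟩ := (eq_top_or_exists_le_coatom (⊥ : Subgroup Q)).resolve_left bot_ne_top
    have h2 : frattini Q ≤ M := frattini_le_coatom hM
    rw [h1, top_le_iff] at h2
    exact hM.1 h2
  have hFn : ((frattini Q).map Q.subtype).Normal := by
    have : (frattini Q).Characteristic := frattini_characteristic
    exact ConjAct.normal_of_characteristic_of_normal
  have hcl : ∀ x y : Q, ⁅x, y⁆ ∈ center Q := by
    intro x y
    rw [mem_center_iff]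
    intro q
    apply Subtype.ext
    have h1 : (⁅x, y⁆ : Q) ∈ frattini Q :=
      Solv.commutator_le_frattini_of_pGroup hQp (commutator_mem_commutator (mem_top x) (mem_top y))
    exact hcen _ hFn hFlt _ ⟨_, h1, rfl⟩ q q.2
  have hpow : ∀ x : Q, x ^ p ∈ center Q := by
    intro x
    rw [mem_center_iff]
    intro q
    apply Subtype.ext
    have h1 : (x ^ p : Q) ∈ frattini Q := Solv.pow_mem_frattini_of_pGroup hQp x
    exact hcen _ hFn hFlt _ ⟨_, h1, rfl⟩ q q.2
  have hcomp : ∀ x y : Q, (⁅x, y⁆ : Q) ^ p = 1 := by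
    intro x y
    rw [← commutatorElement_pow_left hcl, commutatorElement_eq_one_iff_commute]
    exact (mem_center_iff.mp (hpow x) y).symm
  -- exponent
  obtain ⟨n, hn1, hn2, hn3⟩ : ∃ n : ℕ, (∀ x : G, (orderOf x = p ∨ (p = 2 ∧ orderOf x = 4)) → x ^ n = 1) ∧
      p ∣ n * (n - 1) / 2 ∧ ∀ x : G, x ≠ 1 → x ^ n = 1 → (orderOf x = p ∨ (p = 2 ∧ orderOf x = 4)) := by
    by_cases hp2 : p = 2
    · refine ⟨4, ?_, ?_, ?_⟩
      · rintro x (h | ⟨-, h⟩)
        · apply orderOf_dvd_iff_pow_eq_one.mp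
          rw [h, hp2]; norm_num
        · rw [← h, pow_orderOf_eq_one]
      · subst hp2; norm_num
      · intro x hx1 hx4
        have h5 : orderOf x ∣ 2 ^ 2 := orderOf_dvd_of_pow_eq_one hx4
        obtain ⟨k, hk, hk'⟩ := (Nat.dvd_prime_pow Nat.prime_two).mp h5
        interval_cases k
        · rw [pow_zero, orderOf_eq_one_iff] at hk'
          exact absurd hk' hx1
        · left; rw [hk', hp2]; rfl
        · right; exact ⟨hp2, by rw [hk']; rfl⟩
    · refine ⟨p, ?_, ?_, ?_⟩
      · rintro x (h | ⟨h, -⟩)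
        · rw [← h, pow_orderOf_eq_one]
        · exact absurd h hp2
      · have hodd : Odd p := hp.out.odd_of_ne_two hp2
        obtain ⟨m, hm⟩ := hodd
        have : p * (p - 1) / 2 = p * m := by
          have : p - 1 = 2 * m := by omega
          rw [this]
          have : p * (2 * m) = 2 * (p * m) := by ring
          rw [this, Nat.mul_div_cancel_left _ (by norm_num)]
        rw [this]
        exact dvd_mul_right p m
      · intro x hx1 hxp
        exact Or.inl (orderOf_eq_prime hxp hx1)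
  have hexp : ∀ x ∈ Q, x ^ n = 1 := by
    intro x hx
    have hx' : x ∈ closure {x | x ∈ Q ∧ (orderOf x = p ∨ (p = 2 ∧ orderOf x = 4))} := by rw [hΩ]; exact hx
    have key : ∀ y ∈ closure {x | x ∈ Q ∧ (orderOf x = p ∨ (p = 2 ∧ orderOf x = 4))},
        ∃ h : y ∈ Q, (⟨y, h⟩ : Q) ^ n = 1 := by
      intro y hy
      induction hy using closure_induction with
      | mem x hx => exact ⟨hx.1, Subtype.ext (by simpa using hn1 x hx.2)⟩
      | one => exact ⟨one_mem _, Subtype.ext (by simp)⟩
      | mul x y _ _ hx hy =>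
        obtain ⟨hx1, hx2⟩ := hx
        obtain ⟨hy1, hy2⟩ := hy
        refine ⟨mul_mem hx1 hy1, ?_⟩
        have h1 := mul_pow_of_central hcl (⟨x, hx1⟩ : Q) ⟨y, hy1⟩ n
        have h2 : (⁅(⟨y, hy1⟩ : Q), ⟨x, hx1⟩⁆ : Q) ^ (n * (n - 1) / 2) = 1 := by
          obtain ⟨c, hc⟩ := hn2
          rw [hc, pow_mul, hcomp, one_pow]
        rw [hx2, hy2, h2] at h1
        simpa using h1
      | inv x _ hx =>
        obtain ⟨hx1, hx2⟩ := hx
        refine ⟨inv_mem hx1, ?_⟩
        have : (⟨x⁻¹, inv_mem hx1⟩ : Q) = (⟨x, hx1⟩ : Q)⁻¹ := rfl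
        rw [this, inv_pow, hx2, inv_one]
    obtain ⟨h, h1⟩ := key x hx'
    simpa using congrArg Subtype.val h1
  -- a maximal proper normal subgroup
  obtain ⟨U, hU⟩ := (Set.toFinite {U : Subgroup G | U.Normal ∧ U < Q}).exists_maximal
    ⟨⊥, inferInstance, bot_lt_iff_ne_bot.mpr hQ1⟩
  obtain ⟨hUn, hUQ⟩ := hU.prop
  -- a Sylow subgroup
  obtain ⟨S⟩ : Nonempty (Sylow p G) := inferInstance
  have hQS : Q ≤ S := hQp.le_sylow_of_normal S
  -- a minimal S-invariant subgroup of Q not in U
  obtain ⟨R, hR⟩ := (Set.toFinite {R : Subgroup G | (∀ s ∈ S, ∀ r ∈ R, s * r * s⁻¹ ∈ R) ∧ R ≤ Q ∧ ¬ R ≤ U}).exists_minimal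
    ⟨Q, fun s _ r hr => hQn.conj_mem r hr s, le_rfl, not_le_of_gt hUQ⟩
  obtain ⟨hR1, hR2, hR3⟩ := hR.prop
  obtain ⟨x, hxR, hxU⟩ := SetLike.not_le_iff_exists.mp hR3
  have hfix : ∀ s ∈ S, x⁻¹ * (s * x * s⁻¹) ∈ U := by
    set R' : Subgroup S := R.subgroupOf S with hR'
    have hR'n : R'.Normal := by
      constructor
      intro r hr s
      rw [mem_subgroupOf] at hr ⊢
      exact hR1 s s.2 r hr
    have hR'1 : R' ≠ ⊥ := by
      intro h
      have : (⟨x, hQS (hR2 hxR)⟩ : S) ∈ R' := by rw [mem_subgroupOf]; exact hxR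
      rw [h, mem_bot] at this
      apply hxU
      have h1 : x = 1 := congrArg Subtype.val this
      rw [h1]; exact one_mem U
    have hSn : Group.IsNilpotent S := S.2.isNilpotent
    have hlt := H23.commutator_lt_of_nilpotent hR'n hR'1
    set D := (⁅R', (⊤ : Subgroup S)⁆).map (S : Subgroup G).subtype with hD
    have hDR : D < R := by
      have h1 : D < R'.map (S : Subgroup G).subtype :=
        (map_lt_map_iff_of_injective (S : Subgroup G).subtype_injective).mpr hlt
      rwa [hR', subgroupOf_map_subtype, inf_of_le_left (hR2.trans hQS)] at h1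
    have hDU : D ≤ U := by
      by_contra hnle
      have : D ∈ {R : Subgroup G | (∀ s ∈ S, ∀ r ∈ R, s * r * s⁻¹ ∈ R) ∧ R ≤ Q ∧ ¬ R ≤ U} := by
        refine ⟨?_, hDR.le.trans hR2, hnle⟩
        rintro s hs _ ⟨d, hd, rfl⟩
        have hn' : (⁅R', (⊤ : Subgroup S)⁆).Normal := inferInstance
        exact ⟨⟨s, hs⟩ * d * (⟨s, hs⟩ : S)⁻¹, hn'.conj_mem d hd _, rfl⟩
      exact hDR.not_ge (hR.le_of_le this hDR.le)
    intro s hs
    apply hDU
    refine ⟨⁅(⟨x, hQS (hR2 hxR)⟩ : S)⁻¹, (⟨s, hs⟩ : S)⁆, ?_, ?_⟩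
    · apply commutator_mem_commutator
      · apply inv_mem
        rw [mem_subgroupOf]; exact hxR
      · exact mem_top _
    · simp only [commutatorElement_def, coe_subtype, inv_inv]
      show x⁻¹ * s * x * s⁻¹ = _
      group
  have hxQ := hR2 hxR
  have hx1 : x ≠ 1 := by rintro rfl; exact hxU (one_mem U)
  obtain ⟨a, ha⟩ := H x (hn3 x hx1 (hexp x hxQ))
  have hfixG : ∀ g : G, x⁻¹ * (g * x * g⁻¹) ∈ U := by
    intro g
    have hc : ((S : Subgroup G).index).Coprime (centralizer ({x} : Set G)).index := by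
      rw [ha]
      exact (Nat.Coprime.pow_left a ((Nat.Prime.coprime_iff_not_dvd hp.out).mpr S.not_dvd_index)).symm
    obtain ⟨s, hs, c, hcx, rfl⟩ := H72.exists_mul_of_coprime_index hc g
    have hcx' : c * x = x * c := mem_centralizer_singleton_iff.mp hcx
    have : s * c * x * (s * c)⁻¹ = s * x * s⁻¹ := by
      calc s * c * x * (s * c)⁻¹ = s * (c * x) * c⁻¹ * s⁻¹ := by group
        _ = s * (x * c) * c⁻¹ * s⁻¹ := by rw [hcx']
        _ = s * x * s⁻¹ := by group
    rw [this]
    exact hfix s hs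
  -- the preimage of the center
  set Z := (center (G ⧸ U)).comap (QuotientGroup.mk' U) with hZ
  have hZmem : ∀ v : G, v ∈ Z ↔ ∀ g : G, v⁻¹ * (g * v * g⁻¹) ∈ U := by
    intro v
    rw [hZ, mem_comap, mem_center_iff]
    constructor
    · intro h g
      have h1 := h (QuotientGroup.mk' U g)
      rw [← QuotientGroup.eq_one_iff]
      show QuotientGroup.mk' U (v⁻¹ * (g * v * g⁻¹)) = 1
      simp only [map_mul, map_inv]
      rw [h1]; group
    · intro h q
      obtain ⟨g, rfl⟩ := QuotientGroup.mk'_surjective U q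
      have h1 : QuotientGroup.mk' U (v⁻¹ * (g * v * g⁻¹)) = 1 := (QuotientGroup.eq_one_iff _).mpr (h g)
      simp only [map_mul, map_inv] at h1
      calc (QuotientGroup.mk' U) g * (QuotientGroup.mk' U) v
          = (QuotientGroup.mk' U) v * ((QuotientGroup.mk' U v)⁻¹ * (QuotientGroup.mk' U g * QuotientGroup.mk' U v *
            (QuotientGroup.mk' U g)⁻¹)) * (QuotientGroup.mk' U g) := by group
        _ = _ := by rw [h1, mul_one]
  have hQZ : Q ⊓ Z = Q := by
    by_contra hne
    have h1 : Q ⊓ Z ∈ {U : Subgroup G | U.Normal ∧ U < Q} := by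
      refine ⟨inferInstance, lt_of_le_of_ne inf_le_left hne⟩
    have h2 : U ≤ Q ⊓ Z := by
      refine le_inf hUQ.le ?_
      intro v hv
      rw [hZmem]
      intro g
      exact mul_mem (inv_mem hv) (hUn.conj_mem v hv g)
    have h3 := hU.le_of_ge h1 h2
    exact hxU (h3 ⟨hxQ, (hZmem x).mpr hfixG⟩)
  apply hUQ.not_ge
  rw [← hW, cP, closure_le]
  rintro w ⟨v, hv, g, hg, rfl⟩
  rw [← hQZ] at hv
  exact (hZmem v).mp hv.2 g

theorem hasNPC (H : Hyp p G) : Cfsg.HasNormalPComplement p G := by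
  apply Transfer.hasNPC_of_frobenius
  intro R hR g hg hgp
  -- the normal closure of the minimal elements
  set T : Set G := {x | orderOf x = p ∨ (p = 2 ∧ orderOf x = 4)} with hT
  have hTn : (closure T).Normal := by
    apply normal_of_closure
    intro t ht h
    rw [hT, Set.mem_setOf_eq, orderOf_conj_eq]
    exact ht
  obtain ⟨S⟩ : Nonempty (Sylow p G) := inferInstance
  have hTp : IsPGroup p (closure T) := by
    apply S.2.to_le
    rw [closure_le]
    intro x hx
    -- some conjugate lies in S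
    obtain ⟨k, hk⟩ : ∃ k, Nat.card (zpowers x) = p ^ k := by
      rw [Nat.card_zpowers]
      rcases hx with h | ⟨h1, h2⟩
      · exact ⟨1, by rw [h, pow_one]⟩
      · exact ⟨2, by rw [h1, h2]; norm_num⟩
    obtain ⟨S', hS'⟩ := (IsPGroup.of_card hk).exists_le_sylow
    obtain ⟨g, hg⟩ := MulAction.exists_smul_eq G S' S
    obtain ⟨a, ha⟩ := H x hx
    have hc : ((S' : Subgroup G).index).Coprime (centralizer ({x} : Set G)).index := by
      rw [ha]
      exact (Nat.Coprime.pow_left a ((Nat.Prime.coprime_iff_not_dvd hp.out).mpr S'.not_dvd_index)).symm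
    have hgx : g⁻¹ * x * g ∈ S' := by
      obtain ⟨s, hs, c, hcx, hsc⟩ := H72.exists_mul_of_coprime_index hc g⁻¹
      have hcx' : c * x = x * c := mem_centralizer_singleton_iff.mp hcx
      have h1 : g⁻¹ * x * g = s * x * s⁻¹ := by
        have : g = (s * c)⁻¹ := by rw [← hsc, inv_inv]
        rw [this]
        calc ((s * c)⁻¹)⁻¹ * x * (s * c)⁻¹ = s * (c * x) * c⁻¹ * s⁻¹ := by group
          _ = s * (x * c) * c⁻¹ * s⁻¹ := by rw [hcx']
          _ = s * x * s⁻¹ := by group
      rw [h1]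
      exact mul_mem (mul_mem hs (hS' (mem_zpowers x))) (inv_mem hs)
    rw [← hg, SetLike.mem_coe]
    rw [show ((g • S' : Sylow p G) : Subgroup G) = MulAut.conj g • (S' : Subgroup G) from rfl]
    rw [mem_pointwise_smul_iff_inv_smul_mem]
    have hgx' : g⁻¹ * x * g ∈ (S' : Subgroup G) := hgx
    simpa [MulAut.smul_def] using hgx'
  have hPP := ppcent_aux H _ _ hTn hTp rfl
  have hgp' : ¬ p ∣ orderOf g := (Nat.Prime.coprime_iff_not_dvd hp.out).mp hgp.symm
  have hz : ∀ x ∈ T, x ∈ centralizer ((zpowers g : Subgroup G) : Set G) := by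
    intro x hx
    rw [mem_centralizer_iff]
    rintro _ ⟨k, rfl⟩
    exact ((show Commute g x from hPP g hgp' x (subset_closure hx)).zpow_left k).eq
  have h2 := H63.le_centralizer_of_omega (zpowers g) R hR
    (by rw [zpowers_le]; exact hg) (by rw [Nat.card_zpowers]; exact hgp) ?_ ?_
  · exact h2 (mem_zpowers g)
  · intro x hx hxp
    by_cases hx1 : x = 1
    · subst hx1; exact one_mem _
    · exact hz x (Or.inl (orderOf_eq_prime hxp hx1))
  · intro hp2 x hx hx4
    by_cases hx1 : x = 1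
    · subst hx1; exact one_mem _
    · have h5 : orderOf x ∣ 2 ^ 2 := orderOf_dvd_of_pow_eq_one hx4
      obtain ⟨k, hk, hk'⟩ := (Nat.dvd_prime_pow Nat.prime_two).mp h5
      apply hz x
      interval_cases k
      · rw [pow_zero, orderOf_eq_one_iff] at hk'
        exact absurd hk' hx1
      · left; rw [hk', hp2]; rfl
      · right; exact ⟨hp2, by rw [hk']; rfl⟩

end Cfsg.Agent.H67.MinPow
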