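import Cfsg.Agent.H67.NilTrans

/-!
Two bad subgroups of index two are adjacent if their `V`'s do not commute; each has at most one neighbour.
-/

set_option autoImplicit false
open Cfsg Subgroup

namespace Cfsg.Agent.H67.NilTwo

universe u

variable {G : Type u} [Group G]

def Adj (N P Q R : Subgroup G) : Prop := ∃ x ∈ V N P Q, ∃ y ∈ V N P R, x * y ≠ y * x

theorem Adj.symm {N P Q R : Subgroup G} (h : Adj N P Q R) : Adj N P R Q := by
  obtain ⟨x, hx, y, hy, hxy⟩ := h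
  exact ⟨y, hy, x, hx, fun h => hxy h.symm⟩

section

variable {N B P : Subgroup G} (h : Setup N B P)
include h

theorem Setup.not_adj_self {Q : Subgroup G} (hQ : Good P Q) : ¬ Adj N P Q Q := by
  rintro ⟨x, hx, y, hy, hxy⟩
  exact hxy ((h.V_spec hQ hx).2.1 y (h.V_le hQ hy))

/-- commutators with an element of `V` -/
theorem Setup.Half.comm_cases {R : Subgroup G} (hR : Half N B P R) {t v z : G} (ht : t ∈ V N P R)
    (hv : v ∈ P) (hvt : v * t ≠ t * v) (hz : v * t * v⁻¹ * t⁻¹ = z) {x : G} (hx : x ∈ P) :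
    x * t * x⁻¹ = t ∨ x * t * x⁻¹ = z * t := by
  obtain ⟨ht1, ht2, ht3⟩ := h.V_spec hR.1.1 ht
  have htP := hR.1.1.1 ht1
  by_cases hxR : x ∈ R
  · left
    rw [mul_inv_eq_iff_eq_mul]
    exact (ht2 x hxR).symm
  · right
    have hvR : v⁻¹ ∉ R := by
      intro hc
      exact hvt (ht2 v (by simpa using R.inv_mem hc)).symm
    have h1 := hR.2 x hx v⁻¹ (P.inv_mem hv) hxR hvR
    have h2 := ht2 _ h1
    have hzc := h.cl v hv t htP
    rw [hz] at hzc
    calc x * t * x⁻¹ = (x * v⁻¹) * (v * t * v⁻¹ * t⁻¹) * t * (x * v⁻¹)⁻¹ := by group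
      _ = (x * v⁻¹) * z * t * (x * v⁻¹)⁻¹ := by rw [hz]
      _ = z * (x * v⁻¹) * t * (x * v⁻¹)⁻¹ := by rw [hzc _ (hR.1.1.1 h1)]
      _ = z * (x * v⁻¹ * t) * (x * v⁻¹)⁻¹ := by group
      _ = z * (t * (x * v⁻¹)) * (x * v⁻¹)⁻¹ := by rw [h2]
      _ = z * t := by group

/-- at most one neighbour -/
theorem Setup.adj_unique [Finite G] {Q R R' : Subgroup G} (hQ : Half N B P Q) (hR : Half N B P R)
    (hR' : Half N B P R') (h1 : Adj N P Q R) (h2 : Adj N P Q R') : R = R' := by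
  obtain ⟨v, hv, t, ht, hvt⟩ := h1
  obtain ⟨v', hv', s, hs, hvs'⟩ := h2
  obtain ⟨hv1, hv2, hv3⟩ := h.V_spec hQ.1.1 hv
  obtain ⟨ht1, ht2, ht3⟩ := h.V_spec hR.1.1 ht
  obtain ⟨hs1, hs2, hs3⟩ := h.V_spec hR'.1.1 hs
  have hvP := hQ.1.1.1 hv1
  have htP := hR.1.1.1 ht1
  have hsP := hR'.1.1.1 hs1
  have htQ : t ∉ Q := fun hc => hvt (hv2 t hc)
  have hsQ : s ∉ Q := fun hc => hvs' ((h.V_spec hQ.1.1 hv').2.1 s hc)
  have hvZ : v ∉ omZ P := fun hc => hvt (hc.2.1 t htP)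
  have hvs : v * s ≠ s * v := fun hc => hsQ (Setup.Half.out h hQ hv hvZ hsP hc.symm)
  -- z
  obtain ⟨z, hz⟩ : ∃ z, v * t * v⁻¹ * t⁻¹ = z := ⟨_, rfl⟩
  obtain ⟨z2, hz2⟩ : ∃ z, v * s * v⁻¹ * s⁻¹ = z := ⟨_, rfl⟩
  have hzc := h.cl v hvP t htP
  rw [hz] at hzc
  have hzP : z ∈ P := by
    rw [← hz]; exact P.mul_mem (P.mul_mem (P.mul_mem hvP htP) (P.inv_mem hvP)) (P.inv_mem htP)
  have hzc2 := h.cl v hvP s hsP
  rw [hz2] at hzc2
  have hvt' : v * t * v⁻¹ = z * t := by rw [← hz]; group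
  have hvs'' : v * s * v⁻¹ = z2 * s := by rw [← hz2]; group
  have hzz : z * z = 1 := by
    calc z * z = z * z * (t * t) := by rw [ht3, mul_one]
      _ = z * (z * t) * t := by group
      _ = z * (t * z) * t := by rw [hzc t htP]
      _ = (z * t) * (z * t) := by group
      _ = (v * t * v⁻¹) * (v * t * v⁻¹) := by rw [hvt']
      _ = v * (t * t) * v⁻¹ := by group
      _ = 1 := by rw [ht3]; group
  have hzinv : z⁻¹ = z := inv_eq_of_mul_eq_one_left hzz
  have hzomZ : z ∈ omZ P := ⟨hzP, hzc, hzz⟩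
  have hz2z : z2 = z := by
    have h3 := hv2 _ (hQ.2 s hsP t htP hsQ htQ)
    have h4 : v * (s * t) * v⁻¹ = s * t := by rw [mul_inv_eq_iff_eq_mul]; exact h3
    have h5 : v * (s * t) * v⁻¹ = z2 * z * (s * t) := by
      calc v * (s * t) * v⁻¹ = (v * s * v⁻¹) * (v * t * v⁻¹) := by group
        _ = z2 * s * (z * t) := by rw [hvs'', hvt']
        _ = z2 * (s * z) * t := by group
        _ = z2 * (z * s) * t := by rw [hzc s hsP]
        _ = z2 * z * (s * t) := by group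
    rw [h5] at h4
    have h6 : z2 * z = 1 := by
      have h7 : z2 * z * (s * t) = 1 * (s * t) := by rw [h4, one_mul]
      exact mul_right_cancel h7
    rw [← hzinv]
    exact eq_inv_of_mul_eq_one_left h6
  rw [hz2z] at hz2
  have htx : ∀ x ∈ P, x * t * x⁻¹ = t ∨ x * t * x⁻¹ = z * t := fun x hx =>
    Setup.Half.comm_cases h hR ht hvP hvt hz hx
  have hsx : ∀ x ∈ P, x * s * x⁻¹ = s ∨ x * s * x⁻¹ = z * s := fun x hx =>
    Setup.Half.comm_cases h hR' hs hvP hvs hz2 hx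
  -- reversed forms
  have hrev : ∀ y ∈ P, (∀ x ∈ P, x * y * x⁻¹ = y ∨ x * y * x⁻¹ = z * y) → ∀ x ∈ P,
      y * x * y⁻¹ = x ∨ y * x * y⁻¹ = z * x := by
    intro y hy hyx x hx
    rcases hyx x hx with h3 | h3
    · left
      rw [mul_inv_eq_iff_eq_mul] at h3 ⊢
      exact h3.symm
    · right
      rw [mul_inv_eq_iff_eq_mul] at h3 ⊢
      rw [mul_assoc, h3, ← mul_assoc, ← mul_assoc, hzz, one_mul]
  have htx' := hrev t htP htx
  have hsx' := hrev s hsP hsx
  obtain ⟨g, hgL, hg1, hg2⟩ := Setup.Half.exists_g h hQ htP htQ ht3 hzomZ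
    (fun x hx => htx' x (hQ.1.1.1 (h.V_le hQ.1.1 hx)))
  obtain ⟨z', hz'⟩ : ∃ z', z' = g * z * g⁻¹ := ⟨_, rfl⟩
  obtain ⟨t', ht'⟩ : ∃ t', t' = g * t * g⁻¹ := ⟨_, rfl⟩
  rw [← hz'] at hg1
  rw [← ht'] at hg2
  have hzV : z ∈ V N P Q := h.omZ_le_V hzomZ
  have hz'V : z' ∈ V N P Q := hz' ▸ h.conj_V hgL hzV
  obtain ⟨hz'1, hz'2, hz'3⟩ := h.V_spec hQ.1.1 hz'V
  have hz'P := hQ.1.1.1 hz'1
  have hzQ : z ∈ Q := h.V_le hQ.1.1 hzV
  have ht't'z' : t' * z' * t'⁻¹ = z' := by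
    have := hzc t htP
    rw [ht', hz']
    calc g * t * g⁻¹ * (g * z * g⁻¹) * (g * t * g⁻¹)⁻¹ = g * (t * z) * t⁻¹ * g⁻¹ := by group
      _ = g * (z * t) * t⁻¹ * g⁻¹ := by rw [this]
      _ = _ := by group
  have ht'x : ∀ x ∈ Q, t' * x * t'⁻¹ = x ∨ t' * x * t'⁻¹ = z' * x := by
    intro x hx
    have h3 : g⁻¹ * x * g ∈ Q := by
      have := h.conj_L (inv_mem hgL) hx
      rwa [inv_inv] at this
    have h4 : t' * x * t'⁻¹ = g * (t * (g⁻¹ * x * g) * t⁻¹) * g⁻¹ := by rw [ht']; group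
    rcases htx' _ (hQ.1.1.1 h3) with h5 | h5
    · left; rw [h4, h5]; group
    · right; rw [h4, h5, hz']; group
  have htz' : t * z' * t⁻¹ = z * z' := by
    rcases htx' z' hz'P with h3 | h3
    · exfalso; apply hg1
      rw [mul_inv_eq_iff_eq_mul] at h3
      exact h3.symm
    · exact h3
  have ht'z : t' * z * t'⁻¹ = z' * z := by
    rcases ht'x z hzQ with h3 | h3
    · exfalso; apply hg2
      rw [mul_inv_eq_iff_eq_mul] at h3
      exact h3.symm
    · exact h3
  have htzz : t * z * t⁻¹ = z := by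
    rw [mul_inv_eq_iff_eq_mul]; exact (hzc t htP).symm
  -- decomposition
  have hdec : ∀ x ∈ Q, ∃ w ∈ V N P Q, t * (x * w) * t⁻¹ = x * w ∧ t' * (x * w) * t'⁻¹ = x * w := by
    intro x hx
    obtain ⟨w1, hw1, hw1t⟩ : ∃ w1 ∈ V N P Q, t * (x * w1) * t⁻¹ = x * w1 := by
      rcases htx' x (hQ.1.1.1 hx) with h3 | h3
      · exact ⟨1, one_mem _, by rw [mul_one]; exact h3⟩
      · refine ⟨z', hz'V, ?_⟩
        calc t * (x * z') * t⁻¹ = (t * x * t⁻¹) * (t * z' * t⁻¹) := by group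
          _ = z * x * (z * z') := by rw [h3, htz']
          _ = z * (x * z) * z' := by group
          _ = z * (z * x) * z' := by rw [hzc x (hQ.1.1.1 hx)]
          _ = (z * z) * (x * z') := by group
          _ = x * z' := by rw [hzz, one_mul]
    have hxw : x * w1 ∈ Q := Q.mul_mem hx (h.V_le hQ.1.1 hw1)
    rcases ht'x _ hxw with h3 | h3
    · exact ⟨w1, hw1, hw1t, h3⟩
    · refine ⟨w1 * z, mul_mem hw1 hzV, ?_, ?_⟩
      · calc t * (x * (w1 * z)) * t⁻¹ = (t * (x * w1) * t⁻¹) * (t * z * t⁻¹) := by group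
          _ = _ := by rw [hw1t, htzz]; group
      · calc t' * (x * (w1 * z)) * t'⁻¹ = (t' * (x * w1) * t'⁻¹) * (t' * z * t'⁻¹) := by group
          _ = z' * (x * w1) * (z' * z) := by rw [h3, ht'z]
          _ = (z' * (x * w1)) * z' * z := by group
          _ = (x * w1 * z') * z' * z := by rw [hz'2 _ hxw]
          _ = x * w1 * (z' * z') * z := by group
          _ = x * (w1 * z) := by rw [hz'3]; group
  have hqQ : t * s ∈ Q := hQ.2 t htP s hsP htQ hsQ
  obtain ⟨w, hw, hwt, hwt'⟩ := hdec _ hqQ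
  obtain ⟨hw1, hw2, hw3⟩ := h.V_spec hQ.1.1 hw
  have hwP := hQ.1.1.1 hw1
  obtain ⟨d, hd⟩ : ∃ d, d = t * s * w := ⟨_, rfl⟩
  rw [← hd] at hwt hwt'
  have hdQ : d ∈ Q := by rw [hd]; exact Q.mul_mem hqQ hw1
  have hdP := hQ.1.1.1 hdQ
  have hdQc : ∀ x ∈ Q, d * x = x * d := by
    intro x hx
    obtain ⟨w1, hw1', hx1, hx2⟩ := hdec x hx
    obtain ⟨x0, hx0⟩ : ∃ x0, x0 = x * w1 := ⟨_, rfl⟩
    rw [← hx0] at hx1 hx2
    have hx0Q : x0 ∈ Q := by rw [hx0]; exact Q.mul_mem hx (h.V_le hQ.1.1 hw1')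
    have hx0P := hQ.1.1.1 hx0Q
    have h3 : d * x0 * d⁻¹ = x0 ∨ d * x0 * d⁻¹ = z * x0 := by
      have h4 : d * x0 * d⁻¹ = t * (s * x0 * s⁻¹) * t⁻¹ := by
        rw [hd]
        have h5 := hw2 x0 hx0Q
        calc t * s * w * x0 * (t * s * w)⁻¹ = t * (s * (w * x0) * w⁻¹ * s⁻¹) * t⁻¹ := by group
          _ = t * (s * (x0 * w) * w⁻¹ * s⁻¹) * t⁻¹ := by rw [h5]
          _ = _ := by group
      rw [h4]
      rcases hsx' x0 hx0P with h5 | h5
      · left; rw [h5, hx1]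
      · right
        rw [h5]
        calc t * (z * x0) * t⁻¹ = (t * z * t⁻¹) * (t * x0 * t⁻¹) := by group
          _ = _ := by rw [htzz, hx1]
    have h4 : d * x0 = x0 * d := by
      rcases h3 with h3 | h3
      · rwa [mul_inv_eq_iff_eq_mul] at h3
      · exfalso
        apply hg2
        have h5 : z = d * x0 * d⁻¹ * x0⁻¹ := by rw [h3]; group
        have h6 : t' * z * t'⁻¹ = z := by
          calc t' * z * t'⁻¹ = t' * (d * x0 * d⁻¹ * x0⁻¹) * t'⁻¹ := by rw [← h5]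
            _ = (t' * d * t'⁻¹) * (t' * x0 * t'⁻¹) * (t' * d * t'⁻¹)⁻¹ * (t' * x0 * t'⁻¹)⁻¹ := by group
            _ = d * x0 * d⁻¹ * x0⁻¹ := by rw [hwt', hx2]
            _ = z := h5.symm
        rw [mul_inv_eq_iff_eq_mul] at h6
        exact h6.symm
    have h5 : d * w1 = w1 * d := ((h.V_spec hQ.1.1 hw1').2.1 d hdQ).symm
    have h6 : x = x0 * w1⁻¹ := by rw [hx0]; group
    have h7 : Commute d (x0 * w1⁻¹) := (show Commute d x0 from h4).mul_right
      (show Commute d w1 from h5).inv_right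
    rw [h6]
    exact h7
  have hdt : d * t = t * d := by
    rw [mul_inv_eq_iff_eq_mul] at hwt
    exact hwt.symm
  have hdt' : d * t' = t' * d := by
    rw [mul_inv_eq_iff_eq_mul] at hwt'
    exact hwt'.symm
  have hdc : ∀ x ∈ P, d * x = x * d := by
    intro x hx
    by_cases hxQ : x ∈ Q
    · exact hdQc x hxQ
    · have h3 := hdQc _ (hQ.2 x hx t htP hxQ htQ)
      have h4 : d * x * t = x * d * t := by
        rw [mul_assoc, h3, mul_assoc, ← hdt, mul_assoc]
      exact mul_right_cancel h4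
  have hs_eq : s = t * (d * w) := by
    rw [hd]
    calc s = (t * t) * s * (w * w) := by rw [ht3, hw3]; group
      _ = t * (t * s * w * w) := by group
  have hwomZ : w ∈ omZ P ∧ d * d = 1 := by
    have h3 : d * d * (t * w * (t * w)) = 1 := by
      calc d * d * (t * w * (t * w)) = d * (d * t) * w * t * w := by group
        _ = d * (t * d) * w * t * w := by rw [hdt]
        _ = d * t * (d * w) * t * w := by group
        _ = d * t * (w * d) * t * w := by rw [hdc w hwP]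
        _ = (d * t) * w * (d * t) * w := by group
        _ = (t * d) * w * (t * d) * w := by rw [hdt]
        _ = (t * (d * w)) * (t * (d * w)) := by group
        _ = s * s := by rw [← hs_eq]
        _ = 1 := hs3
    rcases htx' w hwP with h4 | h4
    · rw [mul_inv_eq_iff_eq_mul] at h4
      have h5 : w ∈ omZ P := by
        by_contra hc
        exact htQ (Setup.Half.out h hQ hw hc htP h4)
      refine ⟨h5, ?_⟩
      have h6 : t * w * (t * w) = 1 := by
        calc t * w * (t * w) = t * (w * t) * w := by group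
          _ = t * (t * w) * w := by rw [h4]
          _ = (t * t) * (w * w) := by group
          _ = 1 := by rw [ht3, hw3, one_mul]
      rwa [h6, mul_one] at h3
    · exfalso
      have h5 : t * w * (t * w) = z := by
        calc t * w * (t * w) = (t * w * t⁻¹) * (t * t) * w := by group
          _ = z * w * (t * t) * w := by rw [h4]
          _ = z * (w * w) := by rw [ht3]; group
          _ = z := by rw [hw3, mul_one]
      rw [h5] at h3
      have h6 : z = d * d := by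
        rw [← hzinv]
        exact (eq_inv_of_mul_eq_one_left h3).symm
      apply hg2
      rw [h6, mul_assoc, hdt', ← mul_assoc, hdt', mul_assoc]
  obtain ⟨hwZ, hdd⟩ := hwomZ
  have hζ : ∀ x ∈ P, (d * w) * x = x * (d * w) := by
    intro x hx
    rw [mul_assoc, hwZ.2.1 x hx, ← mul_assoc, hdc x hx, mul_assoc]
  have hiff : ∀ x ∈ P, (x * t = t * x ↔ x * s = s * x) := by
    intro x hx
    rw [hs_eq]
    constructor
    · intro h3
      rw [← mul_assoc, h3, mul_assoc, ← hζ x hx, ← mul_assoc]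
    · intro h3
      have h4 : x * t * (d * w) = t * x * (d * w) := by
        rw [mul_assoc, h3, mul_assoc, hζ x hx, mul_assoc]
      exact mul_right_cancel h4
  have htZ : t ∉ omZ P := fun hc => hvt (hc.2.1 v hvP).symm
  have hsZ : s ∉ omZ P := fun hc => hvs (hc.2.1 v hvP).symm
  apply le_antisymm
  · intro x hx
    have hxP := hR.1.1.1 hx
    exact Setup.Half.out h hR' hs hsZ hxP ((hiff x hxP).1 (ht2 x hx).symm)
  · intro x hx
    have hxP := hR'.1.1.1 hx
    exact Setup.Half.out h hR ht htZ hxP ((hiff x hxP).2 (hs2 x hx).symm)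

end

end Cfsg.Agent.H67.NilTwo
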