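import Cfsg.Agent.H67.NilEdge

/-!
The normal 2-complement theorem.
-/

set_option autoImplicit false
open Cfsg Subgroup

namespace Cfsg.Agent.H67.NilTwo

universe u

variable {G : Type u} [Group G]

def cj (b : G) (Q : Subgroup G) : Subgroup G := Q.map (MulAut.conj b).toMonoidHom

theorem mem_cj {b x : G} {Q : Subgroup G} : x ∈ cj b Q ↔ b⁻¹ * x * b ∈ Q := by
  constructor
  · rintro ⟨y, hy, rfl⟩
    have h1 : b⁻¹ * (MulAut.conj b).toMonoidHom y * b = y := by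
      change b⁻¹ * (b * y * b⁻¹) * b = y
      group
    rw [h1]; exact hy
  · intro hx
    refine ⟨_, hx, ?_⟩
    change b * (b⁻¹ * x * b) * b⁻¹ = x
    group

theorem cj_mul (a b : G) (Q : Subgroup G) : cj (a * b) Q = cj a (cj b Q) := by
  ext x
  rw [mem_cj, mem_cj, mem_cj]
  have : (a * b)⁻¹ * x * (a * b) = b⁻¹ * (a⁻¹ * x * a) * b := by group
  rw [this]

theorem conj_mem_cj {b x : G} {Q : Subgroup G} (hx : x ∈ Q) : b * x * b⁻¹ ∈ cj b Q := by
  rw [mem_cj]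
  have : b⁻¹ * (b * x * b⁻¹) * b = x := by group
  rwa [this]

theorem cj_eq_of_mem_normalizer {b : G} {Q : Subgroup G} (hb : b ∈ normalizer (Q : Set G)) : cj b Q = Q := by
  ext x
  rw [mem_cj]
  have := mem_normalizer_iff.1 (inv_mem hb) x
  rw [inv_inv] at this
  exact this.symm

theorem mem_normalizer_cj {b x : G} {Q : Subgroup G} (hx : x ∈ normalizer (cj b Q : Set G)) :
    b⁻¹ * x * b ∈ normalizer (Q : Set G) := by
  rw [mem_normalizer_iff]
  intro y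
  have := mem_normalizer_iff.1 hx (b * y * b⁻¹)
  rw [mem_cj, mem_cj] at this
  have h1 : b⁻¹ * (b * y * b⁻¹) * b = y := by group
  have h2 : b⁻¹ * (x * (b * y * b⁻¹) * x⁻¹) * b = b⁻¹ * x * b * y * (b⁻¹ * x * b)⁻¹ := by group
  rwa [h1, h2] at this

theorem mem_normalizer_cj' {b x : G} {Q : Subgroup G} (hx : x ∈ normalizer (Q : Set G)) :
    b * x * b⁻¹ ∈ normalizer (cj b Q : Set G) := by
  have h1 : cj b⁻¹ (cj b Q) = Q := by
    rw [← cj_mul, inv_mul_cancel]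
    exact cj_eq_of_mem_normalizer (one_mem _)
  rw [← h1] at hx
  have := mem_normalizer_cj hx
  rwa [inv_inv] at this

section

variable {N B P : Subgroup G} (h : Setup N B P)
include h

theorem Setup.cj_P {b : G} (hb : b ∈ B) : cj b P = P := cj_eq_of_mem_normalizer (h.B_le hb)

theorem Setup.cj_good {b : G} (hb : b ∈ B) {Q : Subgroup G} (hQ : Good P Q) : Good P (cj b Q) := by
  constructor
  · intro x hx
    rw [← h.cj_P hb]
    rw [mem_cj] at hx ⊢
    exact hQ.1 hx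
  · intro z hz hz'
    rw [mem_cj]
    apply hQ.2
    · rw [← mem_cj, h.cj_P hb]; exact hz
    · intro x hx
      have h1 : b * x * b⁻¹ ∈ P := by rw [← h.cj_P hb]; exact conj_mem_cj hx
      have h2 := hz' _ h1
      calc b⁻¹ * z * b * x = b⁻¹ * (z * (b * x * b⁻¹)) * b := by group
        _ = b⁻¹ * (b * x * b⁻¹ * z) * b := by rw [h2]
        _ = x * (b⁻¹ * z * b) := by group

theorem Setup.conj_mem_L {b : G} (hb : b ∈ B) {Q : Subgroup G} {g : G} (hg : g ∈ L N Q) :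
    b * g * b⁻¹ ∈ L N (cj b Q) :=
  mem_inf.2 ⟨mem_normalizer_cj' (mem_inf.1 hg).1, h.normal.conj_mem _ (mem_inf.1 hg).2 _⟩

theorem Setup.cj_half {b : G} (hb : b ∈ B) {Q : Subgroup G} (hQ : Half N B P Q) : Half N B P (cj b Q) := by
  refine ⟨⟨h.cj_good hb hQ.1.1, ?_⟩, ?_⟩
  · intro hle
    apply hQ.1.2
    intro g hg
    have h1 := hle (h.conj_mem_L hb hg)
    have h2 := B.mul_mem (B.mul_mem (B.inv_mem hb) h1) hb
    have h3 : b⁻¹ * (b * g * b⁻¹) * b = g := by group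
    rwa [h3] at h2
  · intro x hx y hy hxQ hyQ
    rw [mem_cj] at hxQ hyQ ⊢
    have hx' : b⁻¹ * x * b ∈ P := by rw [← mem_cj, h.cj_P hb]; exact hx
    have hy' : b⁻¹ * y * b ∈ P := by rw [← mem_cj, h.cj_P hb]; exact hy
    have h1 := hQ.2 _ hx' _ hy' hxQ hyQ
    have h2 : b⁻¹ * x * b * (b⁻¹ * y * b) = b⁻¹ * (x * y) * b := by group
    rwa [h2] at h1

theorem Setup.conj_mem_V [Finite G] {b : G} (hb : b ∈ B) {Q : Subgroup G} {x : G} (hx : x ∈ V N P Q) :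
    b * x * b⁻¹ ∈ V N P (cj b Q) := by
  refine closure_induction (p := fun w _ => b * w * b⁻¹ ∈ V N P (cj b Q)) ?_ ?_ ?_ ?_ hx
  · rintro _ ⟨g, hg, z, hz, rfl⟩
    apply Subgroup.subset_closure
    refine ⟨b * g * b⁻¹, h.conj_mem_L hb hg, b * z * b⁻¹, ?_, by group⟩
    exact (mem_normalizer_iff.1 (h.B_norm_omZ hb) z).1 hz
  · simp [one_mem]
  · intro a c _ _ ha hc
    have h1 := mul_mem ha hc
    have h2 : b * a * b⁻¹ * (b * c * b⁻¹) = b * (a * c) * b⁻¹ := by group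
    rwa [h2] at h1
  · intro a _ ha
    have h1 := inv_mem ha
    have h2 : (b * a * b⁻¹)⁻¹ = b * a⁻¹ * b⁻¹ := by group
    rwa [h2] at h1

theorem Setup.cj_adj [Finite G] {b : G} (hb : b ∈ B) {Q R : Subgroup G} (hQR : Adj N P Q R) :
    Adj N P (cj b Q) (cj b R) := by
  obtain ⟨x, hx, y, hy, hxy⟩ := hQR
  refine ⟨_, h.conj_mem_V hb hx, _, h.conj_mem_V hb hy, ?_⟩
  intro hc
  apply hxy
  have h1 : b * (x * y) * b⁻¹ = b * (y * x) * b⁻¹ := by
    calc b * (x * y) * b⁻¹ = b * x * b⁻¹ * (b * y * b⁻¹) := by group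
      _ = _ := hc
      _ = _ := by group
  exact mul_left_cancel (mul_right_cancel h1)

variable [Finite G]

theorem Setup.exists_half (hnpc : ¬ Cfsg.HasNormalPComplement 2 N) : ∃ Q, Half N B P Q := by
  obtain ⟨Q0, hQ0⟩ := h.exists_bad hnpc
  obtain ⟨Q, hQ, hmax⟩ := Set.exists_max_image {Q | Bad N B P Q} (fun Q => Nat.card Q) (Set.toFinite _)
    ⟨Q0, hQ0⟩
  refine ⟨Q, hQ, ?_⟩
  obtain ⟨x, hx, hxQ, hxy⟩ := h.index_two hQ (by
    intro T hT hQT
    exact (Subgroup.eq_of_le_of_card_ge hQT (hmax T hT)).symm)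
  intro a ha b hb haQ hbQ
  have h1 := hxy a ha haQ
  have h2 := hxy b⁻¹ (P.inv_mem hb) (fun hc => hbQ (by simpa using Q.inv_mem hc))
  have h3 := Q.mul_mem h1 (Q.inv_mem h2)
  have h4 : a * x * (b⁻¹ * x)⁻¹ = a * b := by group
  rwa [h4] at h3

/-- no half subgroup is adjacent to a `B`-conjugate -/
theorem Setup.not_adj {Q : Subgroup G} (hQ : Half N B P Q) {b : G} (hb : b ∈ B) : ¬ Adj N P Q (cj b Q) := by
  intro hadj
  have h1 := h.cj_adj hb hadj
  have h2 := h.adj_unique (h.cj_half hb hQ) hQ (h.cj_half hb (h.cj_half hb hQ)) hadj.symm h1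
  rw [← cj_mul] at h2
  obtain ⟨k, hk, hkN⟩ := h.odd b hb
  obtain ⟨j, hj⟩ := hk
  have h3 : cj (b ^ k) Q = Q :=
    cj_eq_of_mem_normalizer (h.M_le_norm hQ.1.1 (mem_inf.2 ⟨B.pow_mem hb k, hkN⟩))
  have h4 : ∀ i : ℕ, cj ((b * b) ^ i) Q = Q := by
    intro i
    induction i with
    | zero => rw [pow_zero]; exact cj_eq_of_mem_normalizer (one_mem _)
    | succ i ih => rw [pow_succ, cj_mul, ← h2, ih]
  have h5 : b ^ k = b * (b * b) ^ j := by
    rw [hj, pow_succ, pow_mul, ← pow_two]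
    exact (Commute.pow_left (Commute.pow_left (Commute.refl b) 2) j)
  rw [h5, cj_mul, h4] at h3
  rw [h3] at hadj
  exact h.not_adj_self hQ.1.1 hadj

/-- **The 2-part**: `N` has a normal 2-complement. -/
theorem Setup.hasNPC : Cfsg.HasNormalPComplement 2 N := by
  have : Fact (Nat.Prime 2) := ⟨Nat.prime_two⟩
  by_contra hnpc
  obtain ⟨Q, hQ⟩ := h.exists_half hnpc
  have hg := hQ.1.1
  -- the centre of Q lies in each conjugate
  have hcent : ∀ c ∈ Q, (∀ q ∈ Q, c * q = q * c) → ∀ b ∈ B, c ∈ cj b Q := by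
    intro c hc hcc b hb
    have hR := h.cj_half hb hQ
    obtain ⟨⟨v, hv, hv1⟩, -⟩ := Setup.Half.exists_v h hR
    obtain ⟨⟨w, hw, hw1⟩, -⟩ := Setup.Half.exists_v h hQ
    have hvP := hR.1.1.1 (h.V_le hR.1.1 hv)
    apply Setup.Half.out h hR hv hv1 (hg.1 hc)
    -- v ∈ Q
    have hvQ : v ∈ Q := by
      apply Setup.Half.out h hQ hw hw1 hvP
      by_contra hne
      exact h.not_adj hQ hb ⟨w, hw, v, hv, fun hc => hne hc.symm⟩
    exact hcc v hvQ
  obtain ⟨Q0, hQ0⟩ : ∃ Q0 : Subgroup G, Q0 = ⨅ b : B, cj (b : G) Q := ⟨_, rfl⟩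
  have hmem : ∀ x, x ∈ Q0 ↔ ∀ b ∈ B, x ∈ cj b Q := by
    intro x
    rw [hQ0, mem_iInf]
    exact ⟨fun h b hb => h ⟨b, hb⟩, fun h b => h b b.2⟩
  have hcj1 : cj (1 : G) Q = Q := cj_eq_of_mem_normalizer (one_mem _)
  have hQ0Q : Q0 ≤ Q := by
    intro x hx
    have := (hmem x).1 hx 1 B.one_mem
    rwa [hcj1] at this
  have hQ0ne : Q0 ≠ ⊥ := by
    intro h0
    apply h.omZ_ne
    rw [eq_bot_iff, ← h0]
    intro z hz
    rw [hmem]
    intro b hb
    exact h.omZ_le (h.cj_good hb hg) hz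
  have hQ0n : normalizer (Q0 : Set G) = B := by
    apply h.F Q0 (hQ0Q.trans hg.1) hQ0ne
    have key : ∀ b ∈ B, ∀ x ∈ Q0, b * x * b⁻¹ ∈ Q0 := by
      intro b hb x hx
      rw [hmem] at hx ⊢
      intro c hc
      have h1 := hx (b⁻¹ * c) (B.mul_mem (B.inv_mem hb) hc)
      rw [mem_cj] at h1 ⊢
      have h2 : (b⁻¹ * c)⁻¹ * x * (b⁻¹ * c) = c⁻¹ * (b * x * b⁻¹) * c := by group
      rwa [h2] at h1
    intro b hb
    rw [mem_normalizer_iff]
    intro x
    constructor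
    · exact key b hb x
    · intro hx
      have h1 := key _ (B.inv_mem hb) _ hx
      have h2 : b⁻¹ * (b * x * b⁻¹) * b⁻¹⁻¹ = x := by group
      rwa [h2] at h1
  apply hQ.1.2
  intro g hgL
  -- P^g normalises Q0
  have hkey : ∀ x ∈ P, ∀ y ∈ Q0, (g * x * g⁻¹) * y * (g * x * g⁻¹)⁻¹ ∈ Q0 := by
    intro x hx y hy
    have hyQ := hQ0Q hy
    have h1 : g⁻¹ * y * g ∈ Q := by
      have := h.conj_L (inv_mem hgL) hyQ
      rwa [inv_inv] at this
    obtain ⟨c', hc'⟩ : ∃ c', c' = x * (g⁻¹ * y * g) * x⁻¹ * (g⁻¹ * y * g)⁻¹ := ⟨_, rfl⟩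
    have hc'c := h.cl x hx _ (hg.1 h1)
    rw [← hc'] at hc'c
    have hc'Q : c' ∈ Q := by rw [hc']; exact h.comm_mem hg hx (hg.1 h1)
    have h2 : (g * x * g⁻¹) * y * (g * x * g⁻¹)⁻¹ = g * c' * g⁻¹ * y := by rw [hc']; group
    rw [h2]
    apply Q0.mul_mem _ hy
    rw [hmem]
    apply hcent
    · exact h.conj_L hgL hc'Q
    · intro q hq
      have h3 : g⁻¹ * q * g ∈ Q := by
        have := h.conj_L (inv_mem hgL) hq
        rwa [inv_inv] at this
      have h4 := hc'c _ (hg.1 h3)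
      calc g * c' * g⁻¹ * q = g * (c' * (g⁻¹ * q * g)) * g⁻¹ := by group
        _ = g * (g⁻¹ * q * g * c') * g⁻¹ := by rw [h4]
        _ = q * (g * c' * g⁻¹) := by group
  have hPg : ∀ x ∈ P, g * x * g⁻¹ ∈ B ⊓ N := by
    intro x hx
    refine mem_inf.2 ⟨?_, ?_⟩
    · rw [← hQ0n, mem_normalizer_iff]
      intro y
      constructor
      · exact hkey x hx y
      · intro hy
        have h1 := hkey _ (P.inv_mem hx) _ hy
        have h2 : g * x⁻¹ * g⁻¹ * (g * x * g⁻¹ * y * (g * x * g⁻¹)⁻¹) * (g * x⁻¹ * g⁻¹)⁻¹ = y := by group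
        rwa [h2] at h1
    · exact h.normal.conj_mem _ (mem_inf.1 (h.P_le hx)).2 _
  -- P^g = P
  have hsyl1 : H47.SylIn 2 P (B ⊓ N) := h.syl.of_le h.P_le inf_le_right
  have hle : P.map (MulAut.conj g).toMonoidHom ≤ B ⊓ N := by
    rintro _ ⟨x, hx, rfl⟩
    exact hPg x hx
  have hsyl2 : H47.SylIn 2 (P.map (MulAut.conj g).toMonoidHom) (B ⊓ N) := by
    apply hsyl1.of_card_eq hle (h.P_two.map _)
    rw [Subgroup.card_map_of_injective (MulAut.conj g).injective]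
  have h1 : P ≤ P.map (MulAut.conj g).toMonoidHom :=
    hsyl2.le_of_normal h.P_le (inf_le_left.trans h.B_le) h.P_two
  have h2 : P = cj g P := Subgroup.eq_of_le_of_card_ge h1 (by
    unfold cj
    rw [Subgroup.card_map_of_injective (MulAut.conj g).injective])
  rw [← h.nP, mem_normalizer_iff]
  intro x
  conv_rhs => rw [h2, mem_cj]
  have h3 : g⁻¹ * (g * x * g⁻¹) * g = x := by group
  rw [h3]

end

end Cfsg.Agent.H67.NilTwo
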