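import Cfsg.Agent.H67.NilTwo
import Cfsg.Agent.H11.Act

/-!
Bad subgroups of index two.
-/

set_option autoImplicit false
open Cfsg Subgroup

namespace Cfsg.Agent.H67.NilTwo

universe u

variable {G : Type u} [Group G]

def Half (N B P Q : Subgroup G) : Prop :=
  Bad N B P Q ∧ ∀ x ∈ P, ∀ y ∈ P, x ∉ Q → y ∉ Q → x * y ∈ Q

/-- the family of elementary abelian subgroups of maximal order -/
theorem exists_J [Finite G] {P : Subgroup G} :
    ∃ m : ℕ, (∃ E : Subgroup G, E ≤ P ∧ (∀ x ∈ E, x * x = 1) ∧ Nat.card E = m) ∧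
      ∀ E : Subgroup G, E ≤ P → (∀ x ∈ E, x * x = 1) → Nat.card E ≤ m := by
  obtain ⟨E, ⟨hE1, hE2⟩, hmax⟩ := Set.exists_max_image {E : Subgroup G | E ≤ P ∧ ∀ x ∈ E, x * x = 1}
    (fun E => Nat.card E) (Set.toFinite _) ⟨⊥, bot_le, by
      intro x hx
      rw [mem_bot] at hx
      rw [hx, one_mul]⟩
  exact ⟨Nat.card E, ⟨E, hE1, hE2, rfl⟩, fun F hF1 hF2 => hmax F ⟨hF1, hF2⟩⟩

theorem comm_of_sq {E : Subgroup G} (hE : ∀ x ∈ E, x * x = 1) {x y : G} (hx : x ∈ E) (hy : y ∈ E) :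
    x * y = y * x := by
  have h1 := hE _ (E.mul_mem hx hy)
  have h2 := hE x hx
  have h3 := hE y hy
  calc x * y = x * (x * y * (x * y)) * y := by rw [h1, mul_one]
    _ = (x * x) * y * x * (y * y) := by group
    _ = y * x := by rw [h2, h3]; group

section

variable {N B P : Subgroup G} (h : Setup N B P)
include h

theorem Setup.Half.out {Q : Subgroup G} (hQ : Half N B P Q) {v w : G} (hv : v ∈ V N P Q) (hv1 : v ∉ omZ P)
    (hw : w ∈ P) (hvw : w * v = v * w) : w ∈ Q := by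
  by_contra hwQ
  apply hv1
  obtain ⟨hv2, hv3, hv4⟩ := h.V_spec hQ.1.1 hv
  refine ⟨hQ.1.1.1 hv2, ?_, hv4⟩
  intro x hx
  by_cases hxQ : x ∈ Q
  · exact hv3 x hxQ
  · have h1 := hv3 _ (hQ.2 x hx w hw hxQ hwQ)
    have h2 : v * x * w = x * v * w := by
      rw [mul_assoc, h1, mul_assoc, hvw, mul_assoc]
    exact mul_right_cancel h2

variable [Finite G]

/-- the structure of `V` -/
theorem Setup.Half.exists_v {Q : Subgroup G} (hQ : Half N B P Q) :
    (∃ v ∈ V N P Q, v ∉ omZ P) ∧ ∀ v ∈ V N P Q, ∀ w ∈ V N P Q, v ∉ omZ P → w ∉ omZ P → v * w ∈ omZ P := by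
  have hg := hQ.1.1
  have hne : ¬ V N P Q ≤ omZ P := by
    intro hle
    have heq : V N P Q = omZ P := le_antisymm hle h.omZ_le_V
    apply hQ.1.2
    rw [← h.n_omZ, ← heq]
    exact h.L_le_norm_V
  obtain ⟨v0, hv0, hv0'⟩ := Set.not_subset.1 hne
  refine ⟨⟨v0, hv0, hv0'⟩, ?_⟩
  obtain ⟨m, ⟨E0, hE0P, hE0, hE0m⟩, hm⟩ := exists_J (P := P)
  obtain ⟨J, hJ⟩ : ∃ J : Subgroup G, J = sSup {E | E ≤ P ∧ (∀ x ∈ E, x * x = 1) ∧ Nat.card E = m} := ⟨_, rfl⟩
  have hJP : J ≤ P := by rw [hJ]; exact sSup_le (fun E hE => hE.1)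
  have hJconj : ∀ g : G, (∀ E : Subgroup G, E ≤ P → (∀ x ∈ E, x * x = 1) → Nat.card E = m →
      E.map (MulAut.conj g).toMonoidHom ≤ P) → J ≤ J.comap (MulAut.conj g).toMonoidHom := by
    intro g hg
    conv_lhs => rw [hJ]
    apply sSup_le
    rintro E ⟨hE1, hE2, hE3⟩
    rw [← map_le_iff_le_comap, hJ]
    apply le_sSup
    refine ⟨hg E hE1 hE2 hE3, ?_, ?_⟩
    · rintro _ ⟨x, hx, rfl⟩
      rw [← map_mul, hE2 x hx, map_one]
    · rw [← hE3]
      exact Subgroup.card_map_of_injective (MulAut.conj g).injective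
  have hnorm : ∀ K : Subgroup G, (∀ g ∈ K, J ≤ J.comap (MulAut.conj g).toMonoidHom) → K ≤ normalizer (J : Set G) := by
    intro K hK g hg
    rw [mem_normalizer_iff]
    intro x
    constructor
    · intro hx
      exact hK g hg hx
    · intro hx
      have h1 : g⁻¹ * (g * x * g⁻¹) * g⁻¹⁻¹ ∈ J := hK g⁻¹ (K.inv_mem hg) hx
      have h2 : g⁻¹ * (g * x * g⁻¹) * g⁻¹⁻¹ = x := by group
      rwa [h2] at h1
  have hJne : J ≠ ⊥ := by
    intro h0
    have h1 : E0 ≤ J := by rw [hJ]; exact le_sSup ⟨hE0P, hE0, hE0m⟩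
    rw [h0, le_bot_iff] at h1
    have h2 := hm (omZ P) (fun _ hz => hz.1) (fun _ hz => hz.2.2)
    rw [← hE0m, h1, card_bot] at h2
    apply h.omZ_ne
    exact Subgroup.eq_bot_of_card_le _ h2
  have hJn : normalizer (J : Set G) = B := by
    apply h.F J hJP hJne
    apply hnorm
    intro g hg
    apply hJconj
    intro E hE _ _
    refine (map_mono hE).trans ?_
    rintro _ ⟨x, hx, rfl⟩
    exact (mem_normalizer_iff.1 (h.B_le hg) x).1 hx
  obtain ⟨E, hEP, hE, hEm, hEQ⟩ : ∃ E : Subgroup G, E ≤ P ∧ (∀ x ∈ E, x * x = 1) ∧ Nat.card E = m ∧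
      ¬ E ≤ Q := by
    by_contra hcon
    push Not at hcon
    apply hQ.1.2
    rw [← hJn]
    apply hnorm
    intro g hg'
    apply hJconj
    intro E hE1 hE2 hE3
    refine (map_mono (hcon E hE1 hE2 hE3)).trans ?_
    rintro _ ⟨x, hx, rfl⟩
    exact hg.1 (h.conj_L hg' hx)
  obtain ⟨e, he, heQ⟩ := Set.not_subset.1 hEQ
  -- E ⊓ Q has index two in E
  have h1 : (E ⊓ Q).relIndex E = 2 := by
    rw [relIndex_eq_two_iff_exists_notMem_and]
    refine ⟨e, he, fun hc => heQ (mem_inf.1 hc).2, ?_⟩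
    intro b hb
    by_cases hbQ : b ∈ Q
    · right; exact mem_inf.2 ⟨hb, hbQ⟩
    · left; exact mem_inf.2 ⟨E.mul_mem hb he, hQ.2 b (hEP hb) e (hEP he) hbQ heQ⟩
  have h2 : Nat.card ↥(E ⊓ Q) * 2 = Nat.card E := by
    rw [← h1]
    exact H11.card_mul_relIndex inf_le_left
  -- (E ⊓ Q) ⊔ V
  have hcn : E ⊓ Q ≤ normalizer (V N P Q : Set G) := by
    intro x hx
    have h3 : x ∈ centralizer (V N P Q : Set G) := by
      rw [mem_centralizer_iff]
      intro w hw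
      exact (h.V_spec hg hw).2.1 x (mem_inf.1 hx).2
    exact centralizer_le_normalizer _ h3
  have h3 := Cfsg.Agent.H11.card_sup_mul_card_inf hcn
  have h4 : Nat.card ↥(E ⊓ Q ⊔ V N P Q) ≤ m := by
    apply hm
    · exact sup_le (inf_le_left.trans hEP) ((h.V_le hg).trans hg.1)
    · intro x hx
      rw [← SetLike.mem_coe, Subgroup.coe_mul_of_left_le_normalizer_right _ _ hcn] at hx
      obtain ⟨a, ha, b, hb, rfl⟩ := hx
      obtain ⟨_, hb2, hb3⟩ := h.V_spec hg hb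
      have ha1 := hE a (mem_inf.1 ha).1
      have hab := hb2 a (mem_inf.1 ha).2
      calc a * b * (a * b) = a * (b * a) * b := by group
        _ = a * (a * b) * b := by rw [hab]
        _ = (a * a) * (b * b) := by group
        _ = 1 := by rw [ha1, hb3, one_mul]
  have h5 : Nat.card ↥(E ⊓ Q ⊓ V N P Q) ≤ Nat.card ↥(omZ P) := by
    apply Subgroup.card_le_of_le
    intro w hw
    by_contra hw1
    have hw2 := mem_inf.1 hw
    have hw3 := mem_inf.1 hw2.1
    exact heQ (Setup.Half.out h hQ hw2.2 hw1 (hEP he) (comm_of_sq hE he hw3.1))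
  have h6 : Nat.card ↥(V N P Q) ≤ 2 * Nat.card ↥(omZ P) := by
    have h7 : Nat.card ↥(E ⊓ Q) * Nat.card ↥(V N P Q) ≤ Nat.card ↥(E ⊓ Q) * (2 * Nat.card ↥(omZ P)) := by
      calc Nat.card ↥(E ⊓ Q) * Nat.card ↥(V N P Q)
          = Nat.card ↥(E ⊓ Q ⊔ V N P Q) * Nat.card ↥(E ⊓ Q ⊓ V N P Q) := h3.symm
        _ ≤ m * Nat.card ↥(omZ P) := Nat.mul_le_mul h4 h5
        _ = Nat.card ↥(E ⊓ Q) * (2 * Nat.card ↥(omZ P)) := by rw [← hEm, ← h2]; ring
    exact Nat.le_of_mul_le_mul_left h7 Nat.card_pos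
  have h7 : (omZ P).relIndex (V N P Q) = 2 := by
    have h8 := H11.card_mul_relIndex (h.omZ_le_V (Q := Q))
    rw [mul_comm] at h8
    have h9 : (omZ P).relIndex (V N P Q) ≤ 2 := by
      by_contra hc
      push Not at hc
      have : 3 * Nat.card ↥(omZ P) ≤ Nat.card ↥(V N P Q) := by
        rw [← h8]; exact Nat.mul_le_mul_right _ hc
      have h10 : 0 < Nat.card ↥(omZ P) := Nat.card_pos
      omega
    have h11 : (omZ P).relIndex (V N P Q) ≠ 1 := by
      rw [Ne, Subgroup.relIndex_eq_one]; exact hne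
    have h12 : (omZ P).relIndex (V N P Q) ≠ 0 := by
      have := Nat.card_pos (α := ↥(V N P Q))
      intro h0
      rw [h0, zero_mul] at h8
      omega
    omega
  intro v hv w hw hv1 hw1
  have h8 := Subgroup.mul_mem_iff_of_index_two (H := (omZ P).subgroupOf (V N P Q)) h7
    (a := ⟨v, hv⟩) (b := ⟨w, hw⟩)
  rw [mem_subgroupOf, mem_subgroupOf, mem_subgroupOf] at h8
  exact h8.2 ⟨fun hc => absurd hc hv1, fun hc => absurd hc hw1⟩

end

end Cfsg.Agent.H67.NilTwo
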