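import Cfsg.Agent.H67.NilFinal
import Cfsg.Agent.H67.Elem
import Cfsg.Agent.H67.Radical
import Cfsg.Agent.ZJ.NPCThm
import Cfsg.Agent.Cop.Basic
import Cfsg.Agent.H70.Nil

/-!
Groups with a nilpotent maximal (invariant) subgroup whose Sylow 2-subgroups have class at most two
are solvable.
-/

set_option autoImplicit false
open Cfsg Subgroup

namespace Cfsg.Agent.H67.NilTwo

universe u

/-- 2-elements lift to 2-elements -/
theorem two_lift {G H : Type*} [Group G] [Finite G] [Group H] (f : G →* H) (x : G) {k : ℕ}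
    (hx : f x ^ 2 ^ k = 1) : ∃ i a : ℕ, f (x ^ i) = f x ∧ (x ^ i) ^ 2 ^ a = 1 := by
  obtain ⟨a, m, hm, h1⟩ := Nat.exists_eq_two_pow_mul_odd (orderOf_pos x).ne'
  have hcop : Nat.Coprime (2 ^ a) m := (Nat.coprime_two_left.2 hm).pow_left a
  obtain ⟨i, j, hij, hi, hj⟩ := exists_decomp x _ _ h1 hcop
  refine ⟨i, a, ?_, ?_⟩
  · have h2 : f (x ^ j) = 1 := by
      have h3 : f (x ^ j) ^ 2 ^ k = 1 := by rw [map_pow, pow_right_comm, hx, one_pow]
      have h4 : f (x ^ j) ^ m = 1 := by
        rw [← map_pow, ← hj, pow_orderOf_eq_one, map_one]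
      have h5 : orderOf (f (x ^ j)) ∣ Nat.gcd (2 ^ k) m :=
        Nat.dvd_gcd (orderOf_dvd_of_pow_eq_one h3) (orderOf_dvd_of_pow_eq_one h4)
      rw [(Nat.coprime_two_left.2 hm).pow_left k, Nat.dvd_one, orderOf_eq_one_iff] at h5
      exact h5
    conv_rhs => rw [hij, map_mul, h2, mul_one]
  · rw [← hi, pow_orderOf_eq_one]

theorem isCoatom_map {G : Type*} [Group G] {K B : Subgroup G} [K.Normal] (hKB : K ≤ B) (hB : IsCoatom B) :
    IsCoatom (B.map (QuotientGroup.mk' K)) := by
  have hker : (B.map (QuotientGroup.mk' K)).comap (QuotientGroup.mk' K) = B := by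
    rw [comap_map_eq, QuotientGroup.ker_mk', sup_eq_left.2 hKB]
  constructor
  · intro htop
    apply hB.1
    rw [← hker, htop, comap_top]
  · intro C hC
    have h1 : B < C.comap (QuotientGroup.mk' K) := by
      refine lt_of_le_of_ne ?_ ?_
      · rw [← map_le_iff_le_comap]; exact hC.le
      · intro heq
        apply hC.ne
        rw [heq, map_comap_eq_self_of_surjective (QuotientGroup.mk'_surjective K)]
    have h2 := hB.2 _ h1
    rw [eq_top_iff]
    intro x _
    obtain ⟨y, rfl⟩ := QuotientGroup.mk'_surjective K x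
    have : y ∈ C.comap (QuotientGroup.mk' K) := by rw [h2]; trivial
    exact this

section

variable {G : Type u} [Group G] [Finite G]

/-- Sylow subgroups of the nilpotent subgroup -/
theorem sylow_nilp {M S : Subgroup G} {p : ℕ} [Fact p.Prime] (hM : Group.IsNilpotent M)
    (hS : H47.SylIn p S M) : M ≤ normalizer (S : Set G) := by
  obtain ⟨P, hP⟩ := hS.subgroupOf
  have h1 : (P : Subgroup M).Normal := (Group.isNilpotent_of_finite_tfae.out 0 3 rfl rfl).1 hM p inferInstance P
  rw [hP] at h1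
  exact (normal_subgroupOf_iff_le_normalizer hS.le).1 h1

theorem mem_sylow_nilp {M S : Subgroup G} {p : ℕ} [Fact p.Prime] (hM : Group.IsNilpotent M)
    (hS : H47.SylIn p S M) {x : G} (hx : x ∈ M) {k : ℕ} (hk : x ^ p ^ k = 1) : x ∈ S := by
  have h1 : IsPGroup p (zpowers x) := by
    rintro ⟨_, ⟨m, rfl⟩⟩
    refine ⟨k, ?_⟩
    ext
    change (x ^ m) ^ p ^ k = 1
    rw [← zpow_natCast, ← zpow_mul, mul_comm, zpow_mul, zpow_natCast, hk, one_zpow]
  obtain ⟨g, hg, hle⟩ := hS.exists_conj_le (zpowers_le.2 hx) h1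
  have h2 := hle ⟨x, mem_zpowers x, rfl⟩
  exact (mem_normalizer_iff.1 (sylow_nilp hM hS hg) x).2 h2

theorem exists_nilp_decomp {M : Subgroup G} (hM : Group.IsNilpotent M) {x : G} (hx : x ∈ M) :
    ∃ i j k : ℕ, x = x ^ i * x ^ j ∧ (x ^ i) ^ 2 ^ k = 1 ∧ Odd (orderOf (x ^ j)) := by
  obtain ⟨a, m, hm, h1⟩ := Nat.exists_eq_two_pow_mul_odd (orderOf_pos x).ne'
  have hcop : Nat.Coprime (2 ^ a) m := (Nat.coprime_two_left.2 hm).pow_left a
  obtain ⟨i, j, hij, hi, hj⟩ := exists_decomp x _ _ h1 hcop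
  exact ⟨i, j, a, hij, by rw [← hi, pow_orderOf_eq_one], by rw [hj]; exact hm⟩

/-- the core-free case -/
theorem core_free {N B : Subgroup G} [N.Normal] (hB : IsCoatom B) (hNB : ¬ N ≤ B)
    (hM : Group.IsNilpotent ↥(B ⊓ N))
    (hcl : ∀ x ∈ B ⊓ N, ∀ y ∈ B ⊓ N, ∀ z ∈ B ⊓ N, (∃ k, x ^ 2 ^ k = 1) → (∃ k, y ^ 2 ^ k = 1) →
      (∃ k, z ^ 2 ^ k = 1) → x * y * x⁻¹ * y⁻¹ * z = z * (x * y * x⁻¹ * y⁻¹))
    (hcop : (Nat.card N).Coprime N.index) (hsolv : Group.IsSolvable (G ⧸ N))
    (hcore : (B ⊓ N).normalCore = ⊥) : Group.IsSolvable G := by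
  classical
  have hMn : B ≤ normalizer ((B ⊓ N : Subgroup G) : Set G) := by
    rw [← normal_subgroupOf_iff_le_normalizer inf_le_left]
    rw [inf_subgroupOf_left]
    infer_instance
  have hF : ∀ H : Subgroup G, H ≤ B ⊓ N → H ≠ ⊥ → B ≤ normalizer (H : Set G) → normalizer (H : Set G) = B := by
    intro H hH hne hBH
    rcases hB.le_iff.1 hBH with h1 | h1
    · exfalso
      apply hne
      have h2 : H.Normal := normalizer_eq_top_iff.1 h1
      rw [eq_bot_iff, ← hcore]
      exact normal_le_normalCore.2 hH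
    · exact h1
  -- Sylow subgroups
  have hsyl : ∀ p : ℕ, p.Prime → p ∣ Nat.card ↥(B ⊓ N) → ∃ S : Subgroup G, S ≠ ⊥ ∧ H47.SylIn p S (B ⊓ N) ∧
      H47.SylIn p S N ∧ B ≤ normalizer (S : Set G) := by
    intro p hp hpM
    have : Fact p.Prime := ⟨hp⟩
    obtain ⟨S, hS⟩ := H47.SylIn.exists p (B ⊓ N)
    have hSne : S ≠ ⊥ := by
      intro h0
      have h1 := hS.not_dvd_index
      rw [h0, relIndex_bot_left] at h1
      exact h1 hpM
    have hBS : B ≤ normalizer (S : Set G) := by
      intro b hb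
      have h1 : H47.SylIn p (S.map (MulAut.conj b).toMonoidHom) (B ⊓ N) := by
        have h2 := hS.map_conj b
        rwa [H47.norm_map_conj (hMn hb)] at h2
      obtain ⟨m, hm, hm'⟩ := hS.conj h1
      rw [H47.norm_map_conj (sylow_nilp hM hS hm)] at hm'
      rw [H47.mem_normalizer_iff_map_conj]
      exact hm'.symm
    have hnS := hF S hS.le hSne hBS
    refine ⟨S, hSne, hS, ?_, hBS⟩
    rw [H47.sylIn_iff]
    refine ⟨hS.le.trans inf_le_right, hS.isPGroup, ?_⟩
    intro Q hQN hQ hSQ
    by_contra hne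
    have h1 : S < Q := lt_of_le_of_ne hSQ (fun h => hne h.symm)
    have h2 := Transfer.lt_normalizer_inf_of_isPGroup hQ h1
    rw [hnS] at h2
    have h3 : B ⊓ Q = S := by
      apply hS.eq_of_le (inf_le_inf_left B hQN) (hQ.to_le inf_le_right) h2.le
    rw [h3] at h2
    exact lt_irrefl _ h2
  -- normal p-complements
  have hnpc : ∀ p : ℕ, p.Prime → p ∣ Nat.card ↥(B ⊓ N) → Cfsg.HasNormalPComplement p N := by
    intro p hp hpM
    have : Fact p.Prime := ⟨hp⟩
    obtain ⟨S, hSne, hSM, hSN, hBS⟩ := hsyl p hp hpM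
    by_cases hp2 : p = 2
    · subst hp2
      have h2N : 2 ∣ Nat.card N := hpM.trans (card_dvd_of_le inf_le_right)
      have hcomm : ∀ x ∈ B ⊓ N, Odd (orderOf x) → ∀ z ∈ S, x * z = z * x := by
        intro x hx hxo z hz
        obtain ⟨k, hk⟩ := hSM.isPGroup ⟨z, hz⟩
        have hk' : z ^ 2 ^ k = 1 := congrArg Subtype.val hk
        have h1 := Transfer.commute_of_isNilpotent (p := 2) hM (x := ⟨z, hSM.le hz⟩) (y := ⟨x, hx⟩) (k := k)
          (Subtype.ext hk') (by
            rw [orderOf_mk]; exact Nat.coprime_two_right.2 hxo)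
        exact (congrArg Subtype.val h1.eq).symm
      have hset : Setup N B S := {
        normal := inferInstance
        odd := by
          intro b _
          refine ⟨N.index, ?_, pow_index_mem N b⟩
          rw [← Nat.not_even_iff_odd]
          intro he
          have := Nat.Coprime.eq_one_of_dvd (hcop.coprime_dvd_left h2N) he.two_dvd
          omega
        F := fun H hH => hF H (hH.trans hSM.le)
        P_le := hSM.le
        P_two := hSM.isPGroup
        P_ne := hSne
        dec := by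
          intro x hx
          obtain ⟨i, j, k, hij, hi, hj⟩ := exists_nilp_decomp hM hx
          exact ⟨x ^ i, mem_sylow_nilp hM hSM (pow_mem hx i) hi, x ^ j, hcomm _ (pow_mem hx j) hj, hij⟩
        cent := hcomm
        syl := hSN
        B_le := hBS
        cl := by
          have h2 : ∀ x ∈ S, ∃ k, x ^ 2 ^ k = 1 := by
            intro x hx
            obtain ⟨k, hk⟩ := hSM.isPGroup ⟨x, hx⟩
            exact ⟨k, congrArg Subtype.val hk⟩
          intro x hx y hy z hz
          exact hcl x (hSM.le hx) y (hSM.le hy) z (hSM.le hz) (h2 x hx) (h2 y hy) (h2 z hz) }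
      exact hset.hasNPC
    · obtain ⟨P, hP⟩ := hSN.subgroupOf
      apply ZJ.hasNPC_of_zja hp2 N P
      have h1 : (Cfsg.centerThompsonAOf (P : Subgroup N)).map N.subtype = Cfsg.centerThompsonAOf S := by
        rw [← ZJ.rel_zja, ← ZJ.rel_zja, hP, ZJ.rel_subgroupOf ZJ.isNat_zja hSN.le]
      have h2 : Cfsg.centerThompsonAOf S ≠ ⊥ := by
        rw [← ZJ.rel_zja]
        have hS' : Nontrivial S := (nontrivial_iff_ne_bot S).2 hSne
        have h3 := ZJ.zja_ne_bot S hSM.isPGroup hS'
        intro h0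
        apply h3
        unfold ZJ.rel at h0
        exact (map_eq_bot_iff_of_injective _ S.subtype_injective).1 h0
      have h3 : Cfsg.centerThompsonAOf S ≤ S := by
        rw [← ZJ.rel_zja]; exact ZJ.rel_le _ _
      have h4 : B ≤ normalizer (Cfsg.centerThompsonAOf S : Set G) := by
        rw [← ZJ.rel_zja]
        exact hBS.trans (ZJ.normalizer_le_normalizer_rel ZJ.isNat_zja S)
      have h5 := hF _ (h3.trans hSM.le) h2 h4
      have h6 : normalizer (Cfsg.centerThompsonAOf (P : Subgroup N) : Set N) ≤ (B ⊓ N).subgroupOf N := by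
        intro x hx
        rw [mem_subgroupOf]
        refine mem_inf.2 ⟨?_, x.2⟩
        rw [← h5, ← h1, mem_normalizer_iff]
        intro y
        constructor
        · rintro ⟨z, hz, rfl⟩
          exact ⟨x * z * x⁻¹, (mem_normalizer_iff.1 hx z).1 hz, rfl⟩
        · rintro ⟨z, hz, hzy⟩
          refine ⟨x⁻¹ * z * x, ?_, ?_⟩
          · have := (mem_normalizer_iff.1 (inv_mem hx) z).1 hz
            rwa [inv_inv] at this
          · rw [map_mul, map_mul, hzy, map_inv]
            change (x : G)⁻¹ * ((x : G) * y * (x : G)⁻¹) * x = y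
            group
      apply Transfer.hasNPC_of_isNilpotent
      have h7 : Group.IsNilpotent ↥((B ⊓ N).subgroupOf N) := by
        have e := Subgroup.subgroupOfEquivOfLe (inf_le_right : B ⊓ N ≤ N)
        exact Group.nilpotent_of_surjective e.symm.toMonoidHom e.symm.surjective
      exact H70.nilpotent_of_injective (inclusion h6) (inclusion_injective h6) h7
  -- normal complement
  have hHall : Nat.Coprime (Nat.card ↥((B ⊓ N).subgroupOf N)) ((B ⊓ N).subgroupOf N).index := by
    rw [Nat.card_congr (Subgroup.subgroupOfEquivOfLe (inf_le_right : B ⊓ N ≤ N)).toEquiv]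
    rw [Nat.coprime_iff_gcd_eq_one]
    by_contra hne
    obtain ⟨p, hp, hpd⟩ := Nat.exists_prime_and_dvd hne
    have : Fact p.Prime := ⟨hp⟩
    obtain ⟨S, -, hSM, hSN, -⟩ := hsyl p hp (hpd.trans (Nat.gcd_dvd_left _ _))
    apply hSN.not_dvd_index
    have h1 : S.relIndex (B ⊓ N) * (B ⊓ N).relIndex N = S.relIndex N :=
      relIndex_mul_relIndex S _ N hSM.le inf_le_right
    rw [← h1]
    exact Dvd.dvd.mul_left (hpd.trans (Nat.gcd_dvd_right _ _)) _
  obtain ⟨K, hKn, hK⟩ := Transfer.exists_normal_complement_of_forall_hasNPC hHall (by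
    intro q hq hqd
    apply hnpc q hq
    rwa [Nat.card_congr (Subgroup.subgroupOfEquivOfLe (inf_le_right : B ⊓ N ≤ N)).toEquiv] at hqd)
  have hcardM : Nat.card ↥((B ⊓ N).subgroupOf N) = Nat.card ↥(B ⊓ N) :=
    Nat.card_congr (Subgroup.subgroupOfEquivOfLe (inf_le_right : B ⊓ N ≤ N)).toEquiv
  have hKcard : Nat.card K = ((B ⊓ N).subgroupOf N).index := hK.index_eq_card.symm
  have hKidx : K.index = Nat.card ↥(B ⊓ N) := by rw [hK.symm.index_eq_card, hcardM]
  -- K is characteristic
  have hKmem : ∀ x : N, x ∈ K ↔ (orderOf x).Coprime (Nat.card ↥(B ⊓ N)) := by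
    intro x
    constructor
    · intro hx
      have h1 : orderOf x ∣ Nat.card K := by
        have := orderOf_dvd_natCard (⟨x, hx⟩ : K)
        rwa [orderOf_mk] at this
      rw [hKcard] at h1
      rw [hcardM] at hHall
      exact (hHall.coprime_dvd_right h1).symm
    · intro hx
      have h1 : x ^ K.index ∈ K := pow_index_mem K x
      rw [hKidx] at h1
      -- x is a power of x^|M|
      have h2 : x ∈ zpowers (x ^ Nat.card ↥(B ⊓ N)) := mem_zpowers_pow_of_coprime hx
      exact (zpowers_le.2 h1) h2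
  obtain ⟨T0, hT0⟩ : ∃ T0 : Subgroup G, T0 = K.map N.subtype := ⟨_, rfl⟩
  have hT0mem : ∀ x : G, x ∈ T0 ↔ x ∈ N ∧ (orderOf x).Coprime (Nat.card ↥(B ⊓ N)) := by
    intro x
    rw [hT0]
    constructor
    · rintro ⟨y, hy, rfl⟩
      refine ⟨y.2, ?_⟩
      have := (hKmem y).1 hy
      rwa [← orderOf_coe] at this
    · rintro ⟨hx1, hx2⟩
      refine ⟨⟨x, hx1⟩, (hKmem _).2 ?_, rfl⟩
      rwa [orderOf_mk]
  have hT0N : T0 ≤ N := fun x hx => ((hT0mem x).1 hx).1
  have hT0n : T0.Normal := by
    constructor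
    intro x hx g
    rw [hT0mem] at hx ⊢
    refine ⟨Subgroup.Normal.conj_mem inferInstance x hx.1 g, ?_⟩
    have h1 : orderOf (g * x * g⁻¹) = orderOf x := by
      have := (MulAut.conj g).orderOf_eq x
      simpa using this
    rw [h1]; exact hx.2
  have hT0card : Nat.card T0 = ((B ⊓ N).subgroupOf N).index := by
    rw [hT0, Subgroup.card_map_of_injective N.subtype_injective, hKcard]
  have hT0ne : Nat.card T0 ≠ 1 := by
    intro h1
    rw [hT0card, index_eq_one, subgroupOf_eq_top] at h1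
    exact hNB (h1.trans inf_le_left)
  obtain ⟨q, hq, hqd⟩ := Nat.exists_prime_and_dvd hT0ne
  have : Fact q.Prime := ⟨hq⟩
  -- B is solvable
  have hBsolv : Group.IsSolvable B := by
    let f : B →* G ⧸ N := (QuotientGroup.mk' N).comp B.subtype
    have hker : Group.IsSolvable f.ker := by
      have hker1 : ∀ x : f.ker, ((x : B) : G) ∈ B ⊓ N := by
        intro x
        refine mem_inf.2 ⟨(x : B).2, ?_⟩
        have := x.2
        rw [MonoidHom.mem_ker] at this
        exact (QuotientGroup.eq_one_iff _).1 this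
      have hMs : Group.IsSolvable ↥(B ⊓ N) := IsNilpotent.to_isSolvable (h := hM)
      let i : f.ker →* ↥(B ⊓ N) := (B.subtype.comp f.ker.subtype).codRestrict (B ⊓ N) hker1
      apply Group.isSolvable_of_isSolvable_injective (f := i)
      intro a b hab
      have hab' : ((i a : ↥(B ⊓ N)) : G) = ((i b : ↥(B ⊓ N)) : G) := by rw [hab]
      exact Subtype.ext (Subtype.ext hab')
    have h2 : Group.IsSolvable f.range := inferInstance
    exact Group.isSolvable_of_ker_le_range f.ker.subtype f.rangeRestrict (by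
      rw [MonoidHom.ker_rangeRestrict, range_subtype])
  have hcardB : (Nat.card B).Coprime (Nat.card T0) := by
    have h1 : Nat.card B = Nat.card ↥(B ⊓ N) * (B ⊓ N).relIndex B := (H11.card_mul_relIndex inf_le_left).symm
    have h2 : (B ⊓ N).relIndex B = N.relIndex B := inf_relIndex_left _ _
    have h3 : N.relIndex B ∣ N.index := relIndex_dvd_index_of_normal N B
    rw [h1, h2]
    apply Nat.Coprime.mul_left
    · rw [hT0card, ← hcardM]; exact hHall
    · exact (hcop.coprime_dvd_right h3).symm.coprime_dvd_right (card_dvd_of_le hT0N)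
  obtain ⟨T, hT⟩ := Cop.exists_invariant_sylow (A := B) (K := T0)
    (by rw [normalizer_eq_top]; exact le_top) hcardB (Or.inl hBsolv) q
  obtain ⟨T1, hT1⟩ : ∃ T1 : Subgroup G, T1 = (T : Subgroup T0).map T0.subtype := ⟨_, rfl⟩
  rw [← hT1] at hT
  have hT1q : IsPGroup q T1 := by rw [hT1]; exact T.2.map _
  have hT1le : T1 ≤ T0 := by rw [hT1]; exact map_subtype_le _
  have hT1B : ¬ T1 ≤ B := by
    intro hle
    have h1 : Nat.card T1 = 1 := Nat.Coprime.eq_one_of_dvd
      (hcardB.coprime_dvd_left (card_dvd_of_le hle)) (card_dvd_of_le hT1le)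
    have h2 : ¬ q ∣ (T : Subgroup T0).index := T.not_dvd_index
    have h3 : Nat.card (T : Subgroup T0) = 1 := by
      rw [← h1, hT1, Subgroup.card_map_of_injective T0.subtype_injective]
    have h4 := (T : Subgroup T0).card_mul_index
    rw [h3, one_mul] at h4
    rw [h4] at h2
    exact h2 hqd
  have htop : B ⊔ T1 = ⊤ := by
    apply hB.2
    exact lt_of_le_of_ne le_sup_left (fun h => hT1B (h ▸ le_sup_right))
  have hT1n : T1.Normal := by
    rw [← normalizer_eq_top_iff, eq_top_iff, ← htop]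
    exact sup_le hT le_normalizer
  have hT1s : Group.IsSolvable T1 := by
    have := hT1q.isNilpotent
    infer_instance
  have h1 := isSolvable_sup_of_normal T1 B hT1s hBsolv
  rw [sup_comm, htop] at h1
  exact Group.isSolvable_of_surjective (f := (topEquiv : (⊤ : Subgroup G) ≃* G).toMonoidHom) topEquiv.surjective

end

/-- **Main theorem.** -/
theorem isSolvable_of_coatom (n : ℕ) : ∀ {G : Type u} [Group G] [Finite G], Nat.card G = n →
    ∀ (N B : Subgroup G) [N.Normal], IsCoatom B → ¬ N ≤ B → Group.IsNilpotent ↥(B ⊓ N) →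
    (∀ x ∈ B ⊓ N, ∀ y ∈ B ⊓ N, ∀ z ∈ B ⊓ N, (∃ k, x ^ 2 ^ k = 1) → (∃ k, y ^ 2 ^ k = 1) →
      (∃ k, z ^ 2 ^ k = 1) → x * y * x⁻¹ * y⁻¹ * z = z * (x * y * x⁻¹ * y⁻¹)) →
    (Nat.card N).Coprime N.index → Group.IsSolvable (G ⧸ N) → Group.IsSolvable G := by
  induction n using Nat.strong_induction_on with
  | _ n ih =>
    intro G _ _ hn N B _ hB hNB hM hcl hcop hsolv
    by_cases hcore : (B ⊓ N).normalCore = ⊥
    · exact core_free hB hNB hM hcl hcop hsolv hcore
    · obtain ⟨K, hK⟩ : ∃ K, K = (B ⊓ N).normalCore := ⟨_, rfl⟩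
      have hKn : K.Normal := by rw [hK]; infer_instance
      have hKM : K ≤ B ⊓ N := by rw [hK]; exact normalCore_le _
      have hKB : K ≤ B := hKM.trans inf_le_left
      have hKN : K ≤ N := hKM.trans inf_le_right
      have hKs : Group.IsSolvable K := by
        have hMs : Group.IsSolvable ↥(B ⊓ N) := IsNilpotent.to_isSolvable (h := hM)
        exact Group.isSolvable_of_isSolvable_injective (inclusion_injective hKM)
      have hlt : Nat.card (G ⧸ K) < n := by
        rw [← hn]
        have h1 : Nat.card G = Nat.card (G ⧸ K) * Nat.card K := card_eq_card_quotient_mul_card_subgroup K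
        have h2 : 1 < Nat.card K := (one_lt_card_iff_ne_bot K).2 (hK ▸ hcore)
        have h3 : 0 < Nat.card (G ⧸ K) := Nat.card_pos
        rw [h1]; nlinarith
      have hmapinf : B.map (QuotientGroup.mk' K) ⊓ N.map (QuotientGroup.mk' K) =
          (B ⊓ N).map (QuotientGroup.mk' K) := by
        apply le_antisymm
        · rintro _ ⟨⟨b, hb, rfl⟩, ⟨c, hc, hbc⟩⟩
          refine ⟨b, mem_inf.2 ⟨hb, ?_⟩, rfl⟩
          have h1 : c⁻¹ * b ∈ K := by
            rw [← QuotientGroup.eq_one_iff]
            change QuotientGroup.mk' K (c⁻¹ * b) = 1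
            rw [map_mul, map_inv, hbc, inv_mul_cancel]
          have h2 := N.mul_mem hc (hKN h1)
          rwa [mul_inv_cancel_left] at h2
        · exact map_inf_le _ _ _
      have hquot : Group.IsSolvable (G ⧸ K) := by
        refine ih _ hlt rfl (N.map (QuotientGroup.mk' K)) (B.map (QuotientGroup.mk' K))
          (isCoatom_map hKB hB) ?_ ?_ ?_ ?_ ?_
        · intro hle
          apply hNB
          rw [map_le_iff_le_comap, comap_map_eq, QuotientGroup.ker_mk', sup_eq_left.2 hKB] at hle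
          exact hle
        · rw [hmapinf]
          exact Group.nilpotent_of_surjective ((QuotientGroup.mk' K).subgroupMap (B ⊓ N))
            (MonoidHom.subgroupMap_surjective _ _)
        · rw [hmapinf]
          rintro _ ⟨x, hx, rfl⟩ _ ⟨y, hy, rfl⟩ _ ⟨z, hz, rfl⟩ ⟨k, hk⟩ ⟨l, hl⟩ ⟨m, hm⟩
          obtain ⟨i1, a1, hi1, ha1⟩ := two_lift _ x hk
          obtain ⟨i2, a2, hi2, ha2⟩ := two_lift _ y hl
          obtain ⟨i3, a3, hi3, ha3⟩ := two_lift _ z hm
          have h1 := hcl _ (pow_mem hx i1) _ (pow_mem hy i2) _ (pow_mem hz i3) ⟨_, ha1⟩ ⟨_, ha2⟩ ⟨_, ha3⟩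
          have h2 := congrArg (QuotientGroup.mk' K) h1
          simp only [map_mul, map_inv, hi1, hi2, hi3] at h2
          exact h2
        · have h1 : (N.map (QuotientGroup.mk' K)).index = N.index := by
            rw [index_map, QuotientGroup.ker_mk', sup_eq_left.2 hKN, MonoidHom.range_eq_top.2
              (QuotientGroup.mk'_surjective K), index_top, mul_one]
          rw [h1]
          exact hcop.coprime_dvd_left (card_map_dvd _ _)
        · have e := QuotientGroup.quotientQuotientEquivQuotient K N hKN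
          exact Group.isSolvable_of_surjective (f := e.symm.toMonoidHom) e.symm.surjective
      exact (Group.isSolvable_iff_subgroup_quotient K).2 ⟨hKs, hquot⟩

end Cfsg.Agent.H67.NilTwo
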