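import Cfsg.Agent.H67.NilMax

/-!
Operator version: coprime action, nilpotent maximal invariant subgroup.
-/

set_option autoImplicit false
open Cfsg Subgroup

namespace Cfsg.Agent.H67.NilTwo

universe u

theorem comm_central_of_class {G : Type*} [Group G] (hG : Group.IsNilpotent G) (h : Group.nilpotencyClass G ≤ 2)
    (x y z : G) : x * y * x⁻¹ * y⁻¹ * z = z * (x * y * x⁻¹ * y⁻¹) := by
  have h1 : x ∈ Subgroup.upperCentralSeries G 2 := by
    have h2 := Subgroup.upperCentralSeries_mono G h
    rw [Subgroup.upperCentralSeries_nilpotencyClass] at h2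
    exact h2 (mem_top x)
  have h3 := (Subgroup.mem_upperCentralSeries_succ_iff.1 h1) y
  rw [Subgroup.upperCentralSeries_one, mem_center_iff] at h3
  exact (h3 z).symm

/-- the case without operators -/
theorem isSolvable_of_nilpotent_coatom {G : Type u} [Group G] [Finite G] (M : Subgroup G)
    (hmax : IsCoatom M) (hnil : Group.IsNilpotent M)
    (hcl : ∀ x ∈ M, ∀ y ∈ M, ∀ z ∈ M, (∃ k, x ^ 2 ^ k = 1) → (∃ k, y ^ 2 ^ k = 1) →
      (∃ k, z ^ 2 ^ k = 1) → x * y * x⁻¹ * y⁻¹ * z = z * (x * y * x⁻¹ * y⁻¹)) : Group.IsSolvable G := by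
  have h1 : M ⊓ ⊤ = M := inf_top_eq M
  refine isSolvable_of_coatom _ rfl ⊤ M hmax (fun h => hmax.1 (top_le_iff.1 h)) (by rw [h1]; exact hnil)
    (by rw [h1]; exact hcl) ?_ ?_
  · rw [index_top]; exact Nat.coprime_one_right _
  · have : Subsingleton (G ⧸ (⊤ : Subgroup G)) := QuotientGroup.subsingleton_quotient_top
    infer_instance

/-- 2-elements of a finite nilpotent group whose Sylow 2-subgroups have class at most 2 -/
theorem cl_of_sylow {M : Type*} [Group M] [Finite M] (hM : Group.IsNilpotent M)
    (h2 : ∀ S : Sylow 2 M, Group.nilpotencyClass ↥(S : Subgroup M) ≤ 2)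
    {x y z : M} (hx : ∃ k, x ^ 2 ^ k = 1) (hy : ∃ k, y ^ 2 ^ k = 1) (hz : ∃ k, z ^ 2 ^ k = 1) :
    x * y * x⁻¹ * y⁻¹ * z = z * (x * y * x⁻¹ * y⁻¹) := by
  have : Fact (Nat.Prime 2) := ⟨Nat.prime_two⟩
  let S : Sylow 2 M := default
  have hSn : (S : Subgroup M).Normal := (Group.isNilpotent_of_finite_tfae.out 0 3 rfl rfl).1 hM 2 inferInstance S
  have hmem : ∀ x : M, (∃ k, x ^ 2 ^ k = 1) → x ∈ (S : Subgroup M) := by
    rintro x ⟨k, hk⟩
    have h1 : IsPGroup 2 (zpowers x) := by
      rintro ⟨_, ⟨m, rfl⟩⟩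
      refine ⟨k, ?_⟩
      ext
      change (x ^ m) ^ 2 ^ k = 1
      rw [← zpow_natCast, ← zpow_mul, mul_comm, zpow_mul, zpow_natCast, hk, one_zpow]
    obtain ⟨T, hT⟩ := h1.exists_le_sylow
    obtain ⟨g, hg⟩ := MulAction.exists_smul_eq M S T
    have h3 : S = T := by rw [← hg]; exact (Sylow.smul_eq_of_normal).symm
    rw [h3]
    exact hT (mem_zpowers x)
  have h3 := comm_central_of_class (S.2.isNilpotent) (h2 S) ⟨x, hmem x hx⟩ ⟨y, hmem y hy⟩ ⟨z, hmem z hz⟩
  exact congrArg Subtype.val h3

/-- solvable operator group -/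
theorem isSolvable_of_operator {G A : Type u} [Group G] [Finite G] [Group A] [Finite A]
    (φ : A →* MulAut G) (hcop : (Nat.card A).Coprime (Nat.card G)) (hA : Group.IsSolvable A)
    (M : Subgroup G) (hMtop : M ≠ ⊤) (hMinv : ∀ a : A, ∀ m : G, m ∈ M → φ a m ∈ M)
    (hMmax : ∀ H : Subgroup G, M ≤ H → H ≠ ⊤ → (∀ a : A, ∀ h : G, h ∈ H → φ a h ∈ H) → H = M)
    (hnil : Group.IsNilpotent M) (h2 : ∀ S : Sylow 2 ↥M, Group.nilpotencyClass ↥(S : Subgroup ↥M) ≤ 2) :
    Group.IsSolvable G := by
  let Γ := G ⋊[φ] A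
  have hfin : Finite Γ := Finite.of_injective (fun x : Γ => (x.left, x.right)) (by
    intro x y h
    simp only [Prod.mk.injEq] at h
    exact SemidirectProduct.ext h.1 h.2)
  let N : Subgroup Γ := (SemidirectProduct.rightHom : Γ →* A).ker
  have hNmem : ∀ x : Γ, x ∈ N ↔ x.right = 1 := fun x => Iff.rfl
  let B : Subgroup Γ :=
    { carrier := {x | x.left ∈ M}
      one_mem' := M.one_mem
      mul_mem' := by
        intro a b ha hb
        change a.left * φ a.right b.left ∈ M
        exact M.mul_mem ha (hMinv _ _ hb)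
      inv_mem' := by
        intro a ha
        change φ a.right⁻¹ a.left⁻¹ ∈ M
        exact hMinv _ _ (M.inv_mem ha) }
  have hBmem : ∀ x : Γ, x ∈ B ↔ x.left ∈ M := fun x => Iff.rfl
  have hBN : B ⊓ N = M.map (SemidirectProduct.inl : G →* Γ) := by
    ext x
    rw [mem_inf, hBmem, hNmem]
    constructor
    · rintro ⟨h1, h3⟩
      refine ⟨x.left, h1, ?_⟩
      apply SemidirectProduct.ext
      · simp
      · simp [h3]
    · rintro ⟨m, hm, rfl⟩
      simp only [SemidirectProduct.left_inl, SemidirectProduct.right_inl, and_true]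
      exact hm
  have hB : IsCoatom B := by
    constructor
    · intro htop
      apply hMtop
      rw [eq_top_iff]
      intro g _
      have h1 : (SemidirectProduct.inl g : Γ) ∈ B := by rw [htop]; trivial
      rw [hBmem, SemidirectProduct.left_inl] at h1
      exact h1
    · intro C hC
      have hinr : ∀ a : A, (SemidirectProduct.inr a : Γ) ∈ C := by
        intro a
        apply hC.le
        rw [hBmem, SemidirectProduct.left_inr]
        exact M.one_mem
      have hMH : M ≤ C.comap (SemidirectProduct.inl : G →* Γ) := by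
        intro m hm
        apply hC.le
        rw [hBmem, SemidirectProduct.left_inl]
        exact hm
      have hinv : ∀ a : A, ∀ h : G, h ∈ C.comap (SemidirectProduct.inl : G →* Γ) →
          φ a h ∈ C.comap (SemidirectProduct.inl : G →* Γ) := by
        intro a h hh
        rw [mem_comap] at hh ⊢
        rw [SemidirectProduct.inl_aut]
        exact C.mul_mem (C.mul_mem (hinr a) hh) (by rw [map_inv]; exact C.inv_mem (hinr a))
      have hdec : ∀ x : Γ, x = SemidirectProduct.inl x.left * SemidirectProduct.inr x.right :=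
        fun x => (SemidirectProduct.inl_left_mul_inr_right x).symm
      by_cases hH : C.comap (SemidirectProduct.inl : G →* Γ) = ⊤
      · rw [eq_top_iff]
        intro x _
        rw [hdec x]
        apply C.mul_mem _ (hinr _)
        have : x.left ∈ C.comap (SemidirectProduct.inl : G →* Γ) := by rw [hH]; trivial
        exact this
      · exfalso
        have h1 := hMmax _ hMH hH hinv
        apply hC.not_ge
        intro x hx
        rw [hBmem, ← h1, mem_comap]
        have h3 : (SemidirectProduct.inl x.left : Γ) = x * (SemidirectProduct.inr x.right)⁻¹ := by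
          rw [eq_mul_inv_iff_mul_eq]; exact (hdec x).symm
        rw [h3]
        exact C.mul_mem hx (C.inv_mem (hinr _))
  have hsol : Group.IsSolvable Γ := by
    refine isSolvable_of_coatom _ rfl N B hB ?_ ?_ ?_ ?_ ?_
    · intro hle
      apply hMtop
      rw [eq_top_iff]
      intro g _
      have h1 : (SemidirectProduct.inl g : Γ) ∈ N := by rw [hNmem, SemidirectProduct.right_inl]
      have h3 := hle h1
      rw [hBmem, SemidirectProduct.left_inl] at h3
      exact h3
    · rw [hBN]
      exact Group.nilpotent_of_surjective ((SemidirectProduct.inl : G →* Γ).subgroupMap M)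
        (MonoidHom.subgroupMap_surjective _ _)
    · rw [hBN]
      rintro _ ⟨x, hx, rfl⟩ _ ⟨y, hy, rfl⟩ _ ⟨z, hz, rfl⟩ ⟨k, hk⟩ ⟨l, hl⟩ ⟨m, hm⟩
      have hinj : Function.Injective (SemidirectProduct.inl : G →* Γ) := SemidirectProduct.inl_injective
      rw [← map_pow, ← map_one (SemidirectProduct.inl : G →* Γ)] at hk hl hm
      have h3 := cl_of_sylow hnil h2 (x := ⟨x, hx⟩) (y := ⟨y, hy⟩) (z := ⟨z, hz⟩)
        ⟨k, Subtype.ext (hinj hk)⟩ ⟨l, Subtype.ext (hinj hl)⟩ ⟨m, Subtype.ext (hinj hm)⟩
      have h4 : x * y * x⁻¹ * y⁻¹ * z = z * (x * y * x⁻¹ * y⁻¹) := congrArg Subtype.val h3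
      have h5 := congrArg (SemidirectProduct.inl : G →* Γ) h4
      simpa only [map_mul, map_inv] using h5
    · have h1 : Nat.card N = Nat.card G := by
        have h3 : N = (SemidirectProduct.inl : G →* Γ).range := (SemidirectProduct.range_inl_eq_ker_rightHom).symm
        rw [h3]
        exact (Nat.card_congr (MonoidHom.ofInjective (SemidirectProduct.inl_injective)).toEquiv).symm
      have h3 : N.index = Nat.card A := by
        have h4 : N.index = Nat.card (SemidirectProduct.rightHom : Γ →* A).range := index_ker _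
        rw [h4, MonoidHom.range_eq_top.2 SemidirectProduct.rightHom_surjective, card_top]
      rw [h1, h3]
      exact hcop.symm
    · have e := QuotientGroup.quotientKerEquivOfSurjective (SemidirectProduct.rightHom : Γ →* A)
        SemidirectProduct.rightHom_surjective
      exact Group.isSolvable_of_surjective (f := e.symm.toMonoidHom) e.symm.surjective
  exact Group.isSolvable_of_isSolvable_injective (f := (SemidirectProduct.inl : G →* Γ))
    SemidirectProduct.inl_injective

end Cfsg.Agent.H67.NilTwo
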