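import Cfsg.Agent.H67.NilHalf

/-!
Transvection arguments for bad subgroups of index two.
-/

set_option autoImplicit false
open Cfsg Subgroup

namespace Cfsg.Agent.H67.NilTwo

universe u

variable {G : Type u} [Group G]

theorem four_step {V : Subgroup G} (hcomm : ∀ x ∈ V, ∀ y ∈ V, x * y = y * x) {t s a b : G}
    (ha : a ∈ V) (hb : b ∈ V) (ha2 : a * a = 1) (hb2 : b * b = 1)
    (ht : ∀ x ∈ V, t * x * t⁻¹ = x ∨ t * x * t⁻¹ = a * x)
    (hs : ∀ x ∈ V, s * x * s⁻¹ = x ∨ s * x * s⁻¹ = b * x)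
    (hta : t * a * t⁻¹ = a) (hsb : s * b * s⁻¹ = b) (htb : t * b * t⁻¹ = b) :
    ∀ x ∈ V, (t * s) ^ 4 * x = x * (t * s) ^ 4 := by
  obtain ⟨c, hc⟩ : ∃ c : G →* G, ∀ x, c x = (t * s) * x * (t * s)⁻¹ :=
    ⟨(MulAut.conj (t * s)).toMonoidHom, fun x => rfl⟩
  have hcx : ∀ x, c x = t * (s * x * s⁻¹) * t⁻¹ := by intro x; rw [hc]; group
  have hab := hcomm a ha b hb
  have key : ∀ x ∈ V, c x = x ∨ c x = b * x ∨ c x = a * x ∨ c x = b * (a * x) := by
    intro x hx
    rw [hcx]
    rcases hs x hx with h1 | h1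
    · rw [h1]
      rcases ht x hx with h2 | h2
      · left; exact h2
      · right; right; left; exact h2
    · rw [h1]
      have h3 : t * (b * x) * t⁻¹ = b * (t * x * t⁻¹) := by
        calc t * (b * x) * t⁻¹ = (t * b * t⁻¹) * (t * x * t⁻¹) := by group
          _ = _ := by rw [htb]
      rw [h3]
      rcases ht x hx with h2 | h2
      · right; left; rw [h2]
      · right; right; right; rw [h2]
  have hcb : c b = b := by rw [hcx, hsb, htb]
  obtain ⟨e, heV, he2, hce, hca⟩ : ∃ e ∈ V, e * e = 1 ∧ c e = e ∧ c a = e * a := by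
    rw [hcx a]
    rcases hs a ha with h1 | h1
    · refine ⟨1, V.one_mem, one_mul 1, map_one c, ?_⟩
      rw [h1, hta, one_mul]
    · refine ⟨b, hb, hb2, hcb, ?_⟩
      rw [h1]
      calc t * (b * a) * t⁻¹ = (t * b * t⁻¹) * (t * a * t⁻¹) := by group
        _ = _ := by rw [htb, hta]
  have hsq : ∀ x ∈ V, c (c x) = x ∨ c (c x) = e * x := by
    intro x hx
    rcases key x hx with h1 | h1 | h1 | h1
    · left; rw [h1, h1]
    · left; rw [h1, map_mul, hcb, h1, ← mul_assoc, hb2, one_mul]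
    · right; rw [h1, map_mul, hca, h1, mul_assoc, ← mul_assoc a a, ha2, one_mul]
    · right
      rw [h1, map_mul, map_mul, hcb, hca, h1]
      have h2 : b * (e * a * (b * (a * x))) = e * ((a * a) * (b * b)) * x := by
        calc b * (e * a * (b * (a * x))) = (b * e) * a * b * a * x := by group
          _ = (e * b) * a * b * a * x := by rw [hcomm b hb e heV]
          _ = e * (b * a) * (b * a) * x := by group
          _ = e * (a * b) * (b * a) * x := by rw [hab]
          _ = e * (a * (b * b) * a) * x := by group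
          _ = e * ((a * a) * (b * b)) * x := by rw [hb2]; group
      rw [h2, ha2, hb2]; group
  have hq : ∀ x ∈ V, c (c (c (c x))) = x := by
    intro x hx
    rcases hsq x hx with h1 | h1
    · rw [h1, h1]
    · rw [h1, map_mul, map_mul, hce, hce, h1, ← mul_assoc, he2, one_mul]
  intro x hx
  have h1 := hq x hx
  simp only [hc] at h1
  generalize t * s = u at h1 ⊢
  have h2 : u ^ 4 * x * (u ^ 4)⁻¹ = x := by
    refine Eq.trans ?_ h1
    simp only [pow_succ, pow_zero, one_mul, mul_inv_rev, mul_assoc]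
  rw [mul_inv_eq_iff_eq_mul] at h2
  exact h2

section

variable {N B P : Subgroup G} (h : Setup N B P)
include h

variable [Finite G]

theorem Setup.Half.exists_g {Q : Subgroup G} (hQ : Half N B P Q) {t z : G} (ht : t ∈ P) (htQ : t ∉ Q)
    (ht2 : t * t = 1) (hz : z ∈ omZ P)
    (hcomm : ∀ x ∈ V N P Q, t * x * t⁻¹ = x ∨ t * x * t⁻¹ = z * x) :
    ∃ g ∈ L N Q, g * z * g⁻¹ * t ≠ t * (g * z * g⁻¹) ∧ z * (g * t * g⁻¹) ≠ g * t * g⁻¹ * z := by
  have hg := hQ.1.1
  obtain ⟨g, hgL, hgB⟩ := Set.not_subset.1 hQ.1.2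
  refine ⟨g, hgL, ?_⟩
  by_contra hcon
  apply hgB
  have hVc : ∀ x ∈ V N P Q, ∀ y ∈ V N P Q, x * y = y * x := by
    intro x hx y hy
    exact (h.V_spec hg hx).2.1 y (h.V_le hg hy)
  have hzV : z ∈ V N P Q := h.omZ_le_V hz
  obtain ⟨z', hz'⟩ : ∃ z', z' = g * z * g⁻¹ := ⟨_, rfl⟩
  obtain ⟨t', ht'⟩ : ∃ t', t' = g * t * g⁻¹ := ⟨_, rfl⟩
  have hz'V : z' ∈ V N P Q := hz' ▸ h.conj_V hgL hzV
  have hz2 : z * z = 1 := hz.2.2
  have hz'2 : z' * z' = 1 := (h.V_spec hg hz'V).2.2
  have ht'2 : t' * t' = 1 := by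
    rw [ht']
    calc g * t * g⁻¹ * (g * t * g⁻¹) = g * (t * t) * g⁻¹ := by group
      _ = 1 := by rw [ht2]; group
  have htz : t * z * t⁻¹ = z := by
    rw [mul_inv_eq_iff_eq_mul]
    exact (hz.2.1 t ht).symm
  have ht'z' : t' * z' * t'⁻¹ = z' := by
    rw [ht', hz']
    calc g * t * g⁻¹ * (g * z * g⁻¹) * (g * t * g⁻¹)⁻¹ = g * (t * z * t⁻¹) * g⁻¹ := by group
      _ = _ := by rw [htz]
  have hcomm' : ∀ x ∈ V N P Q, t' * x * t'⁻¹ = x ∨ t' * x * t'⁻¹ = z' * x := by
    intro x hx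
    have h1 : g⁻¹ * x * g ∈ V N P Q := by
      have := h.conj_V (inv_mem hgL) hx
      rwa [inv_inv] at this
    have h2 : t' * x * t'⁻¹ = g * (t * (g⁻¹ * x * g) * t⁻¹) * g⁻¹ := by rw [ht']; group
    rcases hcomm _ h1 with h3 | h3
    · left; rw [h2, h3]; group
    · right; rw [h2, h3, hz']; group
  -- (t t')^4 centralises V
  have h4 : ∀ x ∈ V N P Q, (t * t') ^ 4 * x = x * (t * t') ^ 4 := by
    by_cases h5 : z' * t = t * z'
    · exact four_step hVc hzV hz'V hz2 hz'2 hcomm hcomm' htz ht'z'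
        (by rw [mul_inv_eq_iff_eq_mul]; exact h5.symm)
    · have h6 : z * t' = t' * z := by
        by_contra h6
        apply hcon
        rw [← hz', ← ht']
        exact ⟨h5, h6⟩
      have h7 := four_step hVc hz'V hzV hz'2 hz2 hcomm' hcomm ht'z' htz
        (by rw [mul_inv_eq_iff_eq_mul]; exact h6.symm)
      intro x hx
      have h8 := h7 x hx
      have h9 : (t' * t) = (t * t')⁻¹ := by
        rw [mul_inv_rev, inv_eq_of_mul_eq_one_left ht2, inv_eq_of_mul_eq_one_left ht'2]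
      rw [h9, inv_pow] at h8
      have h10 : Commute ((t * t') ^ 4)⁻¹ x := h8
      exact (h10.inv_left).eq |> fun h11 => by rwa [inv_inv] at h11
  -- an odd power of `t t'` lies in Q
  obtain ⟨n, hn, hnQ⟩ : ∃ n, Odd n ∧ (t * t') ^ n ∈ Q := by
    obtain ⟨X, _, _, π, hπ, hker, O, hO, hOodd, hprod⟩ := h.exists_quot hg
    refine ⟨Nat.card O, hOodd, ?_⟩
    let tL : L N Q := ⟨t, h.P_le_L hg ht⟩
    let gL : L N Q := ⟨g, hgL⟩
    have h5 : π tL * π tL = 1 := by rw [← map_mul, hker]; exact (show t * t ∈ Q by rw [ht2]; exact Q.one_mem)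
    obtain ⟨o, ho, y, hy, hoy⟩ := hprod gL
    have h6 : π y * π tL * (π y)⁻¹ = π tL := by
      have h7 : π (y * tL * y⁻¹ * tL⁻¹) = 1 := by
        rw [hker]; exact h.comm_mem hg hy ht
      rw [map_mul, map_mul, map_mul, map_inv, map_inv, mul_inv_eq_one] at h7
      exact h7
    have h8 : π (tL * (gL * tL * gL⁻¹)) ∈ O := by
      have h9 : π (tL * (gL * tL * gL⁻¹)) = π tL * o * (π tL)⁻¹ * o⁻¹ := by
        rw [map_mul, map_mul, map_mul, map_inv, hoy]
        calc π tL * (o * π y * π tL * (o * π y)⁻¹) = π tL * o * (π y * π tL * (π y)⁻¹) * o⁻¹ := by group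
          _ = π tL * o * π tL * o⁻¹ := by rw [h6]
          _ = π tL * o * (π tL)⁻¹ * o⁻¹ := by rw [inv_eq_of_mul_eq_one_left h5]
      rw [h9]
      exact O.mul_mem (hO.conj_mem o ho _) (O.inv_mem ho)
    have h10 : π ((tL * (gL * tL * gL⁻¹)) ^ Nat.card O) = 1 := by
      rw [map_pow]
      have := pow_card_eq_one' (x := (⟨_, h8⟩ : O))
      exact congrArg Subtype.val this
    rw [hker] at h10
    have h11 : (((tL * (gL * tL * gL⁻¹)) ^ Nat.card O : L N Q) : G) = (t * t') ^ Nat.card O := by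
      rw [coe_pow, coe_mul, coe_mul, coe_mul, coe_inv, ht']
    rwa [h11] at h10
  -- so `t t'` centralises V
  have hu : t * t' ∈ centralizer (V N P Q : Set G) := by
    obtain ⟨k, hk⟩ := hn
    have h5 : (t * t') ^ n ∈ centralizer (V N P Q : Set G) := by
      rw [mem_centralizer_iff]
      intro x hx
      exact (h.V_spec hg hx).2.1 _ hnQ
    have h6 : (t * t') ^ 4 ∈ centralizer (V N P Q : Set G) := by
      rw [mem_centralizer_iff]
      intro x hx
      exact (h4 x hx).symm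
    have h7 : ((t * t') ^ n) ^ n = ((t * t') ^ 4) ^ (k * k + k) * (t * t') := by
      rw [← pow_mul, ← pow_mul, ← pow_succ, hk]
      congr 1; ring
    have h8 : t * t' = (((t * t') ^ 4) ^ (k * k + k))⁻¹ * ((t * t') ^ n) ^ n := by
      rw [h7]; group
    rw [h8]
    exact mul_mem (inv_mem (pow_mem h6 _)) (pow_mem h5 _)
  have hucomm : ∀ x ∈ V N P Q, t * t' * x = x * (t * t') := fun x hx =>
    (mem_centralizer_iff.1 hu x hx).symm
  -- for x in V: t' commutes with x iff t does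
  have hiff : ∀ x ∈ V N P Q, (t * x = x * t ↔ t' * x = x * t') := by
    intro x hx
    have h5 := hucomm x hx
    constructor
    · intro h6
      have h7 : t * (t' * x) = t * (x * t') := by
        rw [← mul_assoc, h5, ← mul_assoc, ← mul_assoc, h6]
      exact mul_left_cancel h7
    · intro h6
      have h7 : t * x * t' = x * t * t' := by
        rw [mul_assoc, ← h6, ← mul_assoc, h5, mul_assoc]
      exact mul_right_cancel h7
  have homZ : ∀ x ∈ V N P Q, (x ∈ omZ P ↔ t * x = x * t) := by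
    intro x hx
    constructor
    · intro hx'
      exact (hx'.2.1 t ht).symm
    · intro h5
      by_contra h6
      exact htQ (Setup.Half.out h hQ hx h6 ht h5)
  rw [SetLike.mem_coe, ← h.n_omZ, mem_normalizer_iff]
  have hconj : ∀ x, (t' * (g * x * g⁻¹) = g * x * g⁻¹ * t' ↔ t * x = x * t) := by
    intro x
    rw [ht']
    constructor
    · intro h5
      have h6 : g * (t * x) * g⁻¹ = g * (x * t) * g⁻¹ := by
        calc g * (t * x) * g⁻¹ = g * t * g⁻¹ * (g * x * g⁻¹) := by group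
          _ = _ := h5
          _ = g * (x * t) * g⁻¹ := by group
      exact mul_left_cancel (mul_right_cancel h6)
    · intro h5
      calc g * t * g⁻¹ * (g * x * g⁻¹) = g * (t * x) * g⁻¹ := by group
        _ = g * (x * t) * g⁻¹ := by rw [h5]
        _ = _ := by group
  intro x
  constructor
  · intro hx
    have hxV := h.omZ_le_V (Q := Q) hx
    have hgxV := h.conj_V hgL hxV
    rw [homZ _ hgxV, hiff _ hgxV, hconj]
    exact (homZ x hxV).1 hx
  · intro hx
    have hgxV := h.omZ_le_V (Q := Q) hx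
    have hxV : x ∈ V N P Q := by
      have := h.conj_V (inv_mem hgL) hgxV
      have h5 : g⁻¹ * (g * x * g⁻¹) * g⁻¹⁻¹ = x := by group
      rwa [h5] at this
    rw [homZ _ hgxV, hiff _ hgxV, hconj] at hx
    exact (homZ x hxV).2 hx

end

end Cfsg.Agent.H67.NilTwo
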