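import Cfsg.Agent.H47.Syl
import Cfsg.Agent.H65.Enlarge
import Cfsg.Agent.H52.Four
import Cfsg.Agent.Transfer.Frobenius

/-!
The 2-part of the theorem on nilpotent maximal (invariant) subgroups whose Sylow 2-subgroups have
class at most two.
-/

set_option autoImplicit false
open Cfsg Subgroup

namespace Cfsg.Agent.H67.NilTwo

universe u

variable {G : Type u} [Group G]

/-- involutions and 1 in the centre of `P` -/
def omZ (P : Subgroup G) : Subgroup G where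
  carrier := {z | z ∈ P ∧ (∀ x ∈ P, z * x = x * z) ∧ z * z = 1}
  one_mem' := ⟨P.one_mem, by simp, by simp⟩
  mul_mem' := by
    rintro a b ⟨ha, ha1, ha2⟩ ⟨hb, hb1, hb2⟩
    refine ⟨P.mul_mem ha hb, ?_, ?_⟩
    · intro x hx
      rw [mul_assoc, hb1 x hx, ← mul_assoc, ha1 x hx, mul_assoc]
    · rw [mul_assoc, ← mul_assoc b a b, hb1 a ha, mul_assoc a b b, hb2, mul_one, ha2]
  inv_mem' := by
    rintro a ⟨ha, ha1, ha2⟩
    refine ⟨P.inv_mem ha, ?_, ?_⟩
    · intro x hx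
      have := ha1 x hx
      rw [inv_mul_eq_iff_eq_mul, ← mul_assoc, this, mul_assoc, mul_inv_cancel, mul_one]
    · rw [← mul_inv_rev, ha2, inv_one]

theorem mem_omZ {P : Subgroup G} {z : G} : z ∈ omZ P ↔ z ∈ P ∧ (∀ x ∈ P, z * x = x * z) ∧ z * z = 1 :=
  Iff.rfl

/-- the hypotheses -/
structure Setup (N B P : Subgroup G) : Prop where
  normal : N.Normal
  odd : ∀ b ∈ B, ∃ k, Odd k ∧ b ^ k ∈ N
  F : ∀ H ≤ P, H ≠ ⊥ → B ≤ normalizer (H : Set G) → normalizer (H : Set G) = B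
  P_le : P ≤ B ⊓ N
  P_two : IsPGroup 2 P
  P_ne : P ≠ ⊥
  dec : ∀ x ∈ B ⊓ N, ∃ y ∈ P, ∃ c : G, (∀ z ∈ P, c * z = z * c) ∧ x = y * c
  cent : ∀ x ∈ B ⊓ N, Odd (orderOf x) → ∀ z ∈ P, x * z = z * x
  syl : H47.SylIn 2 P N
  B_le : B ≤ normalizer (P : Set G)
  cl : ∀ x ∈ P, ∀ y ∈ P, ∀ z ∈ P, x * y * x⁻¹ * y⁻¹ * z = z * (x * y * x⁻¹ * y⁻¹)

/-- subgroups of `P` containing the centre of `P` -/
def Good (P Q : Subgroup G) : Prop := Q ≤ P ∧ ∀ z ∈ P, (∀ x ∈ P, z * x = x * z) → z ∈ Q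

/-- the local subgroup `N_N(Q)` -/
def L (N Q : Subgroup G) : Subgroup G := normalizer (Q : Set G) ⊓ N

/-- the conjugates of `Ω₁(Z(P))` under `N_N(Q)` generate -/
def V (N P Q : Subgroup G) : Subgroup G :=
  closure {w | ∃ g ∈ L N Q, ∃ z ∈ omZ P, w = g * z * g⁻¹}

def Bad (N B P Q : Subgroup G) : Prop := Good P Q ∧ ¬ L N Q ≤ B

section

variable {N B P : Subgroup G} (h : Setup N B P)
include h

theorem Setup.nP : normalizer (P : Set G) = B := h.F P le_rfl h.P_ne h.B_le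

/-- commutators lie in good subgroups -/
theorem Setup.comm_mem {Q : Subgroup G} (hQ : Good P Q) {x y : G} (hx : x ∈ P) (hy : y ∈ P) :
    x * y * x⁻¹ * y⁻¹ ∈ Q :=
  hQ.2 _ (P.mul_mem (P.mul_mem (P.mul_mem hx hy) (P.inv_mem hx)) (P.inv_mem hy)) (h.cl x hx y hy)

theorem Setup.conj_mem {Q : Subgroup G} (hQ : Good P Q) {x y : G} (hx : x ∈ P) (hy : y ∈ Q) :
    x * y * x⁻¹ ∈ Q := by
  have h1 := Q.mul_mem (h.comm_mem hQ hx (hQ.1 hy)) hy
  rwa [inv_mul_cancel_right] at h1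

theorem Setup.P_le_norm {Q : Subgroup G} (hQ : Good P Q) : P ≤ normalizer (Q : Set G) := by
  intro x hx
  rw [mem_normalizer_iff]
  intro y
  constructor
  · exact h.conj_mem hQ hx
  · intro hy
    have h1 := h.conj_mem hQ (P.inv_mem hx) hy
    have h2 : x⁻¹ * (x * y * x⁻¹) * x⁻¹⁻¹ = y := by group
    rwa [h2] at h1

theorem Setup.M_le_norm {Q : Subgroup G} (hQ : Good P Q) : B ⊓ N ≤ normalizer (Q : Set G) := by
  intro x hx
  obtain ⟨y, hy, c, hc, rfl⟩ := h.dec x hx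
  apply mul_mem (h.P_le_norm hQ hy)
  rw [mem_normalizer_iff]
  have hcc : ∀ q ∈ Q, c * q * c⁻¹ = q := by
    intro q hq
    rw [hc q (hQ.1 hq), mul_inv_cancel_right]
  intro q
  constructor
  · intro hq
    rw [hcc q hq]; exact hq
  · intro hq
    have h1 : c * (c * q * c⁻¹) * c⁻¹ = c * q * c⁻¹ := hcc _ hq
    have h2 : c * q * c⁻¹ = q := mul_left_cancel (mul_right_cancel h1)
    rwa [h2] at hq

theorem Setup.P_le_L {Q : Subgroup G} (hQ : Good P Q) : P ≤ L N Q :=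
  le_inf (h.P_le_norm hQ) (h.P_le.trans inf_le_right)

theorem Setup.good_P : Good P P := ⟨le_rfl, fun _ hz _ => hz⟩

theorem Setup.not_bad_P : ¬ Bad N B P P := by
  rintro ⟨-, h1⟩
  apply h1
  unfold L
  rw [h.nP]
  exact inf_le_left

theorem Setup.omZ_le {Q : Subgroup G} (hQ : Good P Q) : omZ P ≤ Q :=
  fun z hz => hQ.2 z hz.1 hz.2.1

theorem Setup.conj_L {Q : Subgroup G} {g x : G} (hg : g ∈ L N Q) (hx : x ∈ Q) : g * x * g⁻¹ ∈ Q :=
  (mem_normalizer_iff.1 hg.1 x).1 hx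

theorem Setup.V_spec {Q : Subgroup G} (hQ : Good P Q) {w : G} (hw : w ∈ V N P Q) :
    w ∈ Q ∧ (∀ q ∈ Q, w * q = q * w) ∧ w * w = 1 := by
  refine closure_induction (p := fun w _ => w ∈ Q ∧ (∀ q ∈ Q, w * q = q * w) ∧ w * w = 1) ?_ ?_ ?_ ?_ hw
  · rintro _ ⟨g, hg, z, hz, rfl⟩
    refine ⟨h.conj_L hg (h.omZ_le hQ hz), ?_, ?_⟩
    · intro q hq
      have h1 : g⁻¹ * q * g ∈ Q := by
        have := h.conj_L (inv_mem hg) hq
        rwa [inv_inv] at this
      have h2 := hz.2.1 _ (hQ.1 h1)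
      calc g * z * g⁻¹ * q = g * (z * (g⁻¹ * q * g)) * g⁻¹ := by group
        _ = g * (g⁻¹ * q * g * z) * g⁻¹ := by rw [h2]
        _ = q * (g * z * g⁻¹) := by group
    · calc g * z * g⁻¹ * (g * z * g⁻¹) = g * (z * z) * g⁻¹ := by group
        _ = 1 := by rw [hz.2.2]; group
  · exact ⟨Q.one_mem, by simp, by simp⟩
  · rintro a b _ _ ⟨ha, ha1, ha2⟩ ⟨hb, hb1, hb2⟩
    refine ⟨Q.mul_mem ha hb, ?_, ?_⟩
    · intro x hx
      rw [mul_assoc, hb1 x hx, ← mul_assoc, ha1 x hx, mul_assoc]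
    · rw [mul_assoc, ← mul_assoc b a b, hb1 a ha, mul_assoc a b b, hb2, mul_one, ha2]
  · rintro a _ ⟨ha, ha1, ha2⟩
    refine ⟨Q.inv_mem ha, ?_, ?_⟩
    · intro x hx
      have := ha1 x hx
      rw [inv_mul_eq_iff_eq_mul, ← mul_assoc, this, mul_assoc, mul_inv_cancel, mul_one]
    · rw [← mul_inv_rev, ha2, inv_one]

theorem Setup.V_le {Q : Subgroup G} (hQ : Good P Q) : V N P Q ≤ Q := fun _ hw => (h.V_spec hQ hw).1

theorem Setup.omZ_le_V {Q : Subgroup G} : omZ P ≤ V N P Q := by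
  intro z hz
  apply Subgroup.subset_closure
  exact ⟨1, one_mem _, z, hz, by simp⟩

theorem Setup.conj_V {Q : Subgroup G} {g w : G} (hg : g ∈ L N Q) (hw : w ∈ V N P Q) :
    g * w * g⁻¹ ∈ V N P Q := by
  refine closure_induction (p := fun w _ => g * w * g⁻¹ ∈ V N P Q) ?_ ?_ ?_ ?_ hw
  · rintro _ ⟨k, hk, z, hz, rfl⟩
    apply Subgroup.subset_closure
    exact ⟨g * k, mul_mem hg hk, z, hz, by group⟩
  · simp [one_mem]
  · intro a b _ _ ha hb
    have h1 := mul_mem ha hb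
    have h2 : g * a * g⁻¹ * (g * b * g⁻¹) = g * (a * b) * g⁻¹ := by group
    rwa [h2] at h1
  · intro a _ ha
    have h1 := inv_mem ha
    have h2 : (g * a * g⁻¹)⁻¹ = g * a⁻¹ * g⁻¹ := by group
    rwa [h2] at h1

theorem Setup.L_le_norm_V {Q : Subgroup G} : L N Q ≤ normalizer (V N P Q : Set G) := by
  intro g hg
  rw [mem_normalizer_iff]
  intro x
  constructor
  · exact h.conj_V hg
  · intro hx
    have h1 := h.conj_V (inv_mem hg) hx
    have h2 : g⁻¹ * (g * x * g⁻¹) * g⁻¹⁻¹ = x := by group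
    rwa [h2] at h1

/-- `B` normalises `omZ P`. -/
theorem Setup.B_norm_omZ : B ≤ normalizer (omZ P : Set G) := by
  have key : ∀ b ∈ B, ∀ z ∈ omZ P, b * z * b⁻¹ ∈ omZ P := by
    intro b hb z hz
    have hb' := mem_normalizer_iff.1 (h.B_le hb)
    refine ⟨(hb' z).1 hz.1, ?_, ?_⟩
    · intro x hx
      have h1 : b⁻¹ * x * b ∈ P := by
        have := (mem_normalizer_iff.1 (h.B_le (inv_mem hb)) x).1 hx
        rwa [inv_inv] at this
      have h2 := hz.2.1 _ h1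
      calc b * z * b⁻¹ * x = b * (z * (b⁻¹ * x * b)) * b⁻¹ := by group
        _ = b * (b⁻¹ * x * b * z) * b⁻¹ := by rw [h2]
        _ = x * (b * z * b⁻¹) := by group
    · calc b * z * b⁻¹ * (b * z * b⁻¹) = b * (z * z) * b⁻¹ := by group
        _ = 1 := by rw [hz.2.2]; group
  intro b hb
  rw [mem_normalizer_iff]
  intro z
  constructor
  · exact key b hb z
  · intro hz
    have h1 := key _ (inv_mem hb) _ hz
    have h2 : b⁻¹ * (b * z * b⁻¹) * b⁻¹⁻¹ = z := by group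
    rwa [h2] at h1

variable [Finite G]

theorem Setup.omZ_ne : omZ P ≠ ⊥ := by
  have : Fact (Nat.Prime 2) := ⟨Nat.prime_two⟩
  have hne : Nontrivial P := (Subgroup.nontrivial_iff_ne_bot P).2 h.P_ne
  have h1 : Nontrivial (Subgroup.center P) := h.P_two.center_nontrivial
  have h2 : IsPGroup 2 (Subgroup.center P) := h.P_two.to_subgroup _
  obtain ⟨n, hn, hcard⟩ := (IsPGroup.nontrivial_iff_card h2).1 h1
  obtain ⟨z, hz⟩ := exists_prime_orderOf_dvd_card' (G := Subgroup.center P) 2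
    (by rw [hcard]; exact dvd_pow_self 2 (by omega))
  intro h3
  have h4 : ((z : P) : G) ∈ omZ P := by
    refine ⟨(z : P).2, ?_, ?_⟩
    · intro x hx
      exact (congrArg Subtype.val (Subgroup.mem_center_iff.1 z.2 ⟨x, hx⟩)).symm
    · have h5 : z ^ 2 = 1 := by rw [← hz]; exact pow_orderOf_eq_one z
      rw [pow_two] at h5
      exact congrArg (fun t : Subgroup.center P => ((t : P) : G)) h5
  rw [h3, mem_bot] at h4
  have h5 : z = 1 := Subtype.ext (Subtype.ext h4)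
  rw [h5, orderOf_one] at hz
  omega

theorem Setup.n_omZ : normalizer (omZ P : Set G) = B :=
  h.F _ (fun _ hz => hz.1) h.omZ_ne h.B_norm_omZ

theorem Setup.sylL {Q : Subgroup G} (hQ : Good P Q) : H47.SylIn 2 P (L N Q) :=
  h.syl.of_le (h.P_le_L hQ) inf_le_right

/-- the centraliser of `V` in `P` is bad if `Q` is bad -/
theorem Setup.bad_cent {Q : Subgroup G} (hQ : Bad N B P Q) :
    Bad N B P (P ⊓ centralizer (V N P Q : Set G)) := by
  have : Fact (Nat.Prime 2) := ⟨Nat.prime_two⟩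
  obtain ⟨hQg, hQb⟩ := hQ
  refine ⟨⟨inf_le_left, ?_⟩, ?_⟩
  · intro z hz hz1
    refine mem_inf.2 ⟨hz, ?_⟩
    rw [mem_centralizer_iff]
    intro w hw
    exact (hz1 w (hQg.1 (h.V_le hQg hw))).symm
  · intro hle
    apply hQb
    have hC1 : L N Q ⊓ centralizer (V N P Q : Set G) ≤ L N Q := inf_le_left
    have hCn : L N Q ≤ normalizer ((L N Q ⊓ centralizer (V N P Q : Set G) : Subgroup G) : Set G) := by
      intro g hg
      have h1 := h.L_le_norm_V hg
      have key : ∀ g ∈ L N Q, ∀ c ∈ L N Q ⊓ centralizer (V N P Q : Set G),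
          g * c * g⁻¹ ∈ L N Q ⊓ centralizer (V N P Q : Set G) := by
        intro g hg c hc
        refine mem_inf.2 ⟨mul_mem (mul_mem hg (mem_inf.1 hc).1) (inv_mem hg), ?_⟩
        rw [mem_centralizer_iff]
        intro w hw
        have h2 : g⁻¹ * w * g ∈ V N P Q := by
          have := h.conj_V (inv_mem hg) hw
          rwa [inv_inv] at this
        have h3 := mem_centralizer_iff.1 (mem_inf.1 hc).2 _ h2
        calc w * (g * c * g⁻¹) = g * (g⁻¹ * w * g * c) * g⁻¹ := by group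
          _ = g * (c * (g⁻¹ * w * g)) * g⁻¹ := by rw [h3]
          _ = g * c * g⁻¹ * w := by group
      rw [mem_normalizer_iff]
      intro x
      constructor
      · exact key g hg x
      · intro hx
        have h3 := key _ (inv_mem hg) _ hx
        have h2 : g⁻¹ * (g * x * g⁻¹) * g⁻¹⁻¹ = x := by group
        rwa [h2] at h3
    have hS := (h.sylL hQg).inf_normal hC1 hCn
    have hSeq : P ⊓ (L N Q ⊓ centralizer (V N P Q : Set G)) = P ⊓ centralizer (V N P Q : Set G) := by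
      rw [← inf_assoc, inf_eq_left.2 (h.P_le_L hQg)]
    rw [hSeq] at hS
    rw [← h.n_omZ]
    intro g hg
    obtain ⟨m, hm, hm', n, hn, rfl⟩ := hS.frattini hC1 hCn hg
    apply mul_mem
    · have h1 : n ∈ centralizer (omZ P : Set G) :=
        centralizer_le (h.omZ_le_V (Q := Q)) (mem_inf.1 hn).2
      exact centralizer_le_normalizer _ h1
    · rw [h.n_omZ]
      exact hle (mem_inf.2 ⟨hm', (mem_inf.1 hm).2⟩)


/-- the quotient `L/Q` has a normal 2-complement -/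
theorem Setup.exists_quot {Q : Subgroup G} (hQ : Good P Q) :
    ∃ (X : Type u) (_ : Group X) (_ : Finite X) (π : L N Q →* X), Function.Surjective π ∧
      (∀ x, π x = 1 ↔ (x : G) ∈ Q) ∧ ∃ O : Subgroup X, O.Normal ∧ Odd (Nat.card O) ∧
        ∀ x : L N Q, ∃ o ∈ O, ∃ y : L N Q, (y : G) ∈ P ∧ π x = o * π y := by
  have : Fact (Nat.Prime 2) := ⟨Nat.prime_two⟩
  have hn : (Q.subgroupOf (L N Q)).Normal := Subgroup.normal_subgroupOf_of_le_normalizer inf_le_left
  have hker : ∀ x : L N Q, QuotientGroup.mk' (Q.subgroupOf (L N Q)) x = 1 ↔ (x : G) ∈ Q := by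
    intro x
    rw [QuotientGroup.mk'_apply, QuotientGroup.eq_one_iff, mem_subgroupOf]
  obtain ⟨S, hS⟩ := (h.sylL hQ).subgroupOf
  let T : Sylow 2 (↥(L N Q) ⧸ (Q.subgroupOf (L N Q))) := S.mapSurjective
    (QuotientGroup.mk'_surjective (Q.subgroupOf (L N Q)))
  have hT : (T : Subgroup (↥(L N Q) ⧸ (Q.subgroupOf (L N Q)))) =
      (P.subgroupOf (L N Q)).map (QuotientGroup.mk' _) := by rw [← hS]; rfl
  have hnpc : Cfsg.HasNormalPComplement 2 (↥(L N Q) ⧸ (Q.subgroupOf (L N Q))) := by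
    apply Transfer.hasNPC_of_normalizer_le_centralizer T
    intro x hx
    obtain ⟨x, rfl⟩ := QuotientGroup.mk'_surjective _ x
    -- x normalises P
    have hxP : ∀ x : L N Q, QuotientGroup.mk' (Q.subgroupOf (L N Q)) x ∈ normalizer (T : Set _) →
        ∀ p ∈ P, (x : G) * p * (x : G)⁻¹ ∈ P := by
      intro x hx p hp
      have hx1 := (mem_normalizer_iff.1 hx (QuotientGroup.mk' _ ⟨p, h.P_le_L hQ hp⟩)).1 (by
        change _ ∈ (T : Subgroup (↥(L N Q) ⧸ (Q.subgroupOf (L N Q))))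
        rw [hT]
        exact ⟨⟨p, h.P_le_L hQ hp⟩, hp, rfl⟩)
      change _ ∈ (T : Subgroup (↥(L N Q) ⧸ (Q.subgroupOf (L N Q)))) at hx1
      rw [hT] at hx1
      obtain ⟨y, hy, hyx⟩ := hx1
      have h1 : QuotientGroup.mk' (Q.subgroupOf (L N Q)) (y⁻¹ * (x * ⟨p, h.P_le_L hQ hp⟩ * x⁻¹)) = 1 := by
        rw [map_mul, map_inv, hyx, map_mul, map_mul, map_inv, inv_mul_cancel]
      rw [hker] at h1
      have h2 := P.mul_mem hy (hQ.1 h1)
      simpa using h2
    have hxN : (x : G) ∈ normalizer (P : Set G) := by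
      rw [mem_normalizer_iff]
      intro p
      constructor
      · exact hxP x hx p
      · intro hp
        have h1 := hxP x⁻¹ (by rw [map_inv]; exact inv_mem hx) _ hp
        have h2 : ((x⁻¹ : L N Q) : G) * ((x : G) * p * (x : G)⁻¹) * ((x⁻¹ : L N Q) : G)⁻¹ = p := by
          rw [coe_inv]; group
        rwa [h2] at h1
    rw [h.nP] at hxN
    obtain ⟨y, hy, c, hc, hxe⟩ := h.dec x (mem_inf.2 ⟨hxN, (mem_inf.1 x.2).2⟩)
    rw [mem_centralizer_iff]
    intro t ht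
    change t ∈ (T : Subgroup (↥(L N Q) ⧸ (Q.subgroupOf (L N Q)))) at ht
    rw [hT] at ht
    obtain ⟨p, hp, rfl⟩ := ht
    have h1 : QuotientGroup.mk' (Q.subgroupOf (L N Q)) (x * p * x⁻¹ * p⁻¹) = 1 := by
      rw [hker]
      have h2 := h.comm_mem hQ hy (show (p : G) ∈ P from hp)
      have h3 : ((x * p * x⁻¹ * p⁻¹ : L N Q) : G) = y * p * y⁻¹ * (p : G)⁻¹ := by
        rw [coe_mul, coe_mul, coe_mul, coe_inv, coe_inv, hxe]
        have h4 := hc p hp
        calc y * c * p * (y * c)⁻¹ * (p : G)⁻¹ = y * (c * p) * c⁻¹ * y⁻¹ * (p : G)⁻¹ := by group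
          _ = y * (p * c) * c⁻¹ * y⁻¹ * (p : G)⁻¹ := by rw [h4]
          _ = y * p * y⁻¹ * (p : G)⁻¹ := by group
      rw [h3]; exact h2
    rw [map_mul, map_mul, map_mul, map_inv, map_inv, mul_inv_eq_one, mul_inv_eq_iff_eq_mul] at h1
    exact h1.symm
  obtain ⟨O, hO, hcomp⟩ := (Transfer.hasNPC_iff_sylow T).1 hnpc
  refine ⟨_, inferInstance, inferInstance, QuotientGroup.mk' _, QuotientGroup.mk'_surjective _, hker, O, hO, ?_, ?_⟩
  · have h1 := (Transfer.card_index_of_isComplement' hcomp).1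
    exact Nat.coprime_two_right.1 h1
  · intro x
    obtain ⟨⟨⟨o, ho⟩, ⟨t, ht⟩⟩, hot⟩ := (hcomp : Subgroup.IsComplement _ _).2
      (QuotientGroup.mk' (Q.subgroupOf (L N Q)) x)
    change t ∈ (T : Subgroup (↥(L N Q) ⧸ (Q.subgroupOf (L N Q)))) at ht
    rw [hT] at ht
    obtain ⟨y, hy, rfl⟩ := ht
    exact ⟨o, ho, y, hy, hot.symm⟩

/-- squares of `P` lie in a maximal bad subgroup -/
theorem Setup.sq_mem {Q : Subgroup G} (hQ : Good P Q) (hmax : P ⊓ centralizer (V N P Q : Set G) = Q)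
    {x : G} (hx : x ∈ P) : x * x ∈ Q := by
  rw [← hmax]
  refine mem_inf.2 ⟨P.mul_mem hx hx, ?_⟩
  rw [mem_centralizer_iff]
  intro v hv
  obtain ⟨hv1, -, hv3⟩ := h.V_spec hQ hv
  have hvP := hQ.1 hv1
  obtain ⟨c, hc⟩ : ∃ c, c = x * v * x⁻¹ * v⁻¹ := ⟨_, rfl⟩
  have hcc : ∀ z ∈ P, c * z = z * c := by rw [hc]; exact h.cl x hx v hvP
  have h1 : x * v * x⁻¹ = c * v := by rw [hc]; group
  have h2 : c * c = 1 := by
    have h3 : (c * v) * (c * v) = 1 := by
      rw [← h1]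
      calc x * v * x⁻¹ * (x * v * x⁻¹) = x * (v * v) * x⁻¹ := by group
        _ = 1 := by rw [hv3]; group
    calc c * c = c * (c * (v * v)) := by rw [hv3, mul_one]
      _ = c * ((c * v) * v) := by group
      _ = c * ((v * c) * v) := by rw [hcc v hvP]
      _ = (c * v) * (c * v) := by group
      _ = 1 := h3
  have h4 : x * x * v * (x * x)⁻¹ = v := by
    calc x * x * v * (x * x)⁻¹ = x * (x * v * x⁻¹) * x⁻¹ := by group
      _ = x * (c * v) * x⁻¹ := by rw [h1]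
      _ = (x * c) * v * x⁻¹ := by group
      _ = (c * x) * v * x⁻¹ := by rw [hcc x hx]
      _ = c * (x * v * x⁻¹) := by group
      _ = c * (c * v) := by rw [h1]
      _ = v := by rw [← mul_assoc, h2, one_mul]
  rw [mul_inv_eq_iff_eq_mul] at h4
  exact h4.symm

/-- a maximal bad subgroup has index two -/
theorem Setup.index_two {Q : Subgroup G} (hQ : Bad N B P Q) (hmax : ∀ T, Bad N B P T → Q ≤ T → T = Q) :
    ∃ x ∈ P, x ∉ Q ∧ ∀ y ∈ P, y ∉ Q → y * x ∈ Q := by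
  have : Fact (Nat.Prime 2) := ⟨Nat.prime_two⟩
  have hQg := hQ.1
  have hVc : Q ≤ P ⊓ centralizer (V N P Q : Set G) := by
    intro q hq
    refine mem_inf.2 ⟨hQg.1 hq, ?_⟩
    rw [mem_centralizer_iff]
    intro w hw
    exact (h.V_spec hQg hw).2.1 q hq
  have hcent := hmax _ (h.bad_cent hQ) hVc
  have hsq : ∀ x ∈ P, x * x ∈ Q := fun x hx => h.sq_mem hQg hcent hx
  have hPQ : ¬ P ≤ Q := by
    intro hle
    have : Q = P := le_antisymm hQg.1 hle
    rw [this] at hQ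
    exact h.not_bad_P hQ
  obtain ⟨x, hx, hxQ⟩ := Set.not_subset.1 hPQ
  refine ⟨x, hx, hxQ, ?_⟩
  by_contra hcon
  push Not at hcon
  obtain ⟨y, hy, hyQ, hyx⟩ := hcon
  obtain ⟨X, _, _, π, hπ, hker, O, hO, hOodd, hprod⟩ := h.exists_quot hQg
  -- centralisers of images of elements of P outside Q
  have key : ∀ a : L N Q, (a : G) ∈ P → (a : G) ∉ Q → ∀ c : L N Q, π a * π c = π c * π a →
      (c : G) ∈ B := by
    intro a ha haQ c hac
    obtain ⟨T, hT⟩ : ∃ T : Subgroup G, T = Q ⊔ zpowers (a : G) := ⟨_, rfl⟩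
    have hQT : Q ≤ T := hT ▸ le_sup_left
    have haT : (a : G) ∈ T := by rw [hT]; exact mem_sup_right (mem_zpowers _)
    have hTP : T ≤ P := by rw [hT]; exact sup_le hQg.1 (by rwa [zpowers_le])
    have hTg : Good P T := ⟨hTP, fun z hz hz' => hQT (hQg.2 z hz hz')⟩
    have hTL : ¬ Bad N B P T := by
      intro hb
      have := hmax T hb hQT
      rw [this] at haT
      exact haQ haT
    have hTB : L N T ≤ B := by
      by_contra hc
      exact hTL ⟨hTg, hc⟩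
    apply hTB
    refine mem_inf.2 ⟨?_, (mem_inf.1 c.2).2⟩
    -- c normalises T
    have key2 : ∀ c : L N Q, π a * π c = π c * π a → ∀ t ∈ T, (c : G) * t * (c : G)⁻¹ ∈ T := by
      intro c hac t ht
      have h3 : T ≤ T.comap (MulAut.conj (c : G)).toMonoidHom := by
        conv_lhs => rw [hT]
        rw [sup_le_iff, zpowers_le]
        constructor
        · intro q hq
          exact hQT (h.conj_L c.2 hq)
        · change (c : G) * a * (c : G)⁻¹ ∈ T
          have h4 : π (c * a * c⁻¹ * a⁻¹) = 1 := by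
            rw [map_mul, map_mul, map_mul, map_inv, map_inv, ← hac]; group
          rw [hker] at h4
          have h5 := T.mul_mem (hQT h4) haT
          have h6 : ((c * a * c⁻¹ * a⁻¹ : L N Q) : G) * a = c * a * (c : G)⁻¹ := by
            rw [coe_mul, coe_mul, coe_mul, coe_inv, coe_inv]; group
          rwa [h6] at h5
      exact h3 ht
    rw [mem_normalizer_iff]
    intro t
    constructor
    · exact key2 c hac t
    · intro ht
      have h1 := key2 c⁻¹ (by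
        rw [map_inv, mul_inv_eq_iff_eq_mul, mul_assoc, hac]; group) _ ht
      have h2 : ((c⁻¹ : L N Q) : G) * ((c : G) * t * (c : G)⁻¹) * ((c⁻¹ : L N Q) : G)⁻¹ = t := by
        rw [coe_inv]; group
      rwa [h2] at h1
  let x' : L N Q := ⟨x, h.P_le_L hQg hx⟩
  let y' : L N Q := ⟨y, h.P_le_L hQg hy⟩
  have hxx : π x' * π x' = 1 := by rw [← map_mul, hker]; exact hsq x hx
  have hyy : π y' * π y' = 1 := by rw [← map_mul, hker]; exact hsq y hy
  have hxy : π x' * π y' = π y' * π x' := by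
    have h1 : π (x' * y' * x'⁻¹ * y'⁻¹) = 1 := by
      rw [hker]; exact h.comm_mem hQg hx hy
    rw [map_mul, map_mul, map_mul, map_inv, map_inv, mul_inv_eq_one, mul_inv_eq_iff_eq_mul] at h1
    exact h1
  have hOle : O ≤ (B.subgroupOf (L N Q)).map π := by
    apply H52.four_group_le O hOodd (π x') (π y') hxx hyy hxy
      (fun z hz => hO.conj_mem z hz _) (fun z hz => hO.conj_mem z hz _)
    · intro z _ hz
      obtain ⟨c, rfl⟩ := hπ z
      exact ⟨c, key x' hx hxQ c hz, rfl⟩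
    · intro z _ hz
      obtain ⟨c, rfl⟩ := hπ z
      exact ⟨c, key y' hy hyQ c hz, rfl⟩
    · intro z _ hz
      obtain ⟨c, rfl⟩ := hπ z
      rw [← map_mul] at hz
      refine ⟨c, key (x' * y') (P.mul_mem hx hy) ?_ c hz, rfl⟩
      intro hc
      apply hyx
      have h1 : π (x' * y') = 1 := by rw [hker]; exact hc
      have h2 : π (y' * x') = 1 := by rw [map_mul, ← hxy, ← map_mul, h1]
      rw [hker] at h2
      exact h2
  apply hQ.2
  intro g hg
  obtain ⟨o, ho, p, hp, hgo⟩ := hprod ⟨g, hg⟩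
  obtain ⟨c, hc, rfl⟩ := hOle ho
  rw [← map_mul, eq_comm, ← mul_inv_eq_one, ← map_inv, ← map_mul, hker] at hgo
  have h1 : (c : G) ∈ B := hc
  have h2 : (p : G) ∈ B := (mem_inf.1 (h.P_le hp)).1
  have h3 : ((c * p * (⟨g, hg⟩ : L N Q)⁻¹ : L N Q) : G) ∈ B := (mem_inf.1 (h.P_le (hQg.1 hgo))).1
  rw [coe_mul, coe_mul, coe_inv] at h3
  have h4 := B.mul_mem (B.inv_mem h3) (B.mul_mem h1 h2)
  have h5 : ((c : G) * p * g⁻¹)⁻¹ * (c * p) = g := by group
  rwa [h5] at h4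

/-- existence of a bad subgroup -/
theorem Setup.exists_bad (hnpc : ¬ Cfsg.HasNormalPComplement 2 N) : ∃ Q, Bad N B P Q := by
  have : Fact (Nat.Prime 2) := ⟨Nat.prime_two⟩
  obtain ⟨S, Q, A, r, hr, hr2, -, hQS, hAQ, hAr, hAC, hSC⟩ := H65.exists_frobenius_witness hnpc
  have hS1 : H47.SylIn 2 ((S : Subgroup N).map N.subtype) N := ⟨S, rfl⟩
  obtain ⟨g, hg, hgP⟩ := hS1.conj h.syl
  have hmemP : ∀ s : N, s ∈ (S : Subgroup N) → g * s * g⁻¹ ∈ P := by
    intro s hs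
    rw [← hgP]
    exact ⟨s, ⟨s, hs, rfl⟩, rfl⟩
  have hmemP' : ∀ z ∈ P, ∃ s : N, s ∈ (S : Subgroup N) ∧ g * s * g⁻¹ = z := by
    intro z hz
    rw [← hgP] at hz
    obtain ⟨_, ⟨s, hs, rfl⟩, rfl⟩ := hz
    exact ⟨s, hs, rfl⟩
  obtain ⟨Q2, hQ2⟩ : ∃ Q2 : Subgroup G, Q2 = (Q.map N.subtype).map (MulAut.conj g).toMonoidHom := ⟨_, rfl⟩
  have hm : ∀ s : N, s ∈ Q → g * s * g⁻¹ ∈ Q2 := by
    intro s hs
    rw [hQ2]
    exact ⟨s, ⟨s, hs, rfl⟩, rfl⟩
  have hm' : ∀ z ∈ Q2, ∃ s : N, s ∈ Q ∧ g * s * g⁻¹ = z := by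
    intro z hz
    rw [hQ2] at hz
    obtain ⟨_, ⟨s, hs, rfl⟩, rfl⟩ := hz
    exact ⟨s, hs, rfl⟩
  refine ⟨Q2, ⟨?_, ?_⟩, ?_⟩
  · intro z hz
    obtain ⟨s, hs, rfl⟩ := hm' z hz
    exact hmemP s (hQS hs)
  · intro z hz hz'
    obtain ⟨s, hs, rfl⟩ := hmemP' z hz
    apply hm
    apply hSC
    refine mem_inf.2 ⟨hs, ?_⟩
    rw [mem_centralizer_iff]
    intro q hq
    have h1 := hz' _ (hmemP q (hQS hq))
    have h2 : g * ((s : G) * q) * g⁻¹ = g * (q * s) * g⁻¹ := by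
      calc g * ((s : G) * q) * g⁻¹ = g * s * g⁻¹ * (g * q * g⁻¹) := by group
        _ = _ := h1
        _ = g * (q * s) * g⁻¹ := by group
    have h3 := mul_left_cancel (mul_right_cancel h2)
    apply Subtype.ext
    exact h3.symm
  · intro hle
    apply hAC
    intro a ha
    rw [mem_centralizer_iff]
    intro q hq
    have haL : ∀ a ∈ A, ∀ z ∈ Q2, (g * a * g⁻¹) * z * (g * a * g⁻¹)⁻¹ ∈ Q2 := by
      intro a ha z hz
      obtain ⟨s, hs, rfl⟩ := hm' z hz
      have h1 := hm _ ((mem_normalizer_iff.1 (hAQ ha) s).1 hs)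
      have h2 : g * ((a * s * a⁻¹ : N) : G) * g⁻¹ = g * a * g⁻¹ * (g * s * g⁻¹) * (g * a * g⁻¹)⁻¹ := by
        rw [coe_mul, coe_mul, coe_inv]; group
      rwa [h2] at h1
    have haB : g * (a : G) * g⁻¹ ∈ L N Q2 := by
      refine mem_inf.2 ⟨?_, N.mul_mem (N.mul_mem hg a.2) (N.inv_mem hg)⟩
      rw [mem_normalizer_iff]
      intro z
      constructor
      · exact haL a ha z
      · intro hz
        have h1 := haL a⁻¹ (inv_mem ha) _ hz
        have h2 : g * ((a⁻¹ : N) : G) * g⁻¹ * (g * a * g⁻¹ * z * (g * a * g⁻¹)⁻¹) *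
            (g * ((a⁻¹ : N) : G) * g⁻¹)⁻¹ = z := by
          rw [coe_inv]; group
        rwa [h2] at h1
    have hodd : Odd (orderOf (g * (a : G) * g⁻¹)) := by
      have h1 : orderOf (g * (a : G) * g⁻¹) = orderOf (a : G) := by
        have := (MulAut.conj g).orderOf_eq (a : G)
        simpa using this
      obtain ⟨k, hk⟩ := hAr ⟨a, ha⟩
      have h2 : a ^ r ^ k = 1 := congrArg Subtype.val hk
      have h3 : orderOf (a : G) ∣ r ^ k := by
        apply orderOf_dvd_of_pow_eq_one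
        exact congrArg Subtype.val h2
      rw [h1]
      have h4 : Odd r := hr.odd_of_ne_two hr2
      exact Odd.of_dvd_nat (h4.pow) h3
    have h1 := h.cent _ (mem_inf.2 ⟨hle haB, (mem_inf.1 haB).2⟩) hodd _ (hmemP q (hQS hq))
    have h2 : g * ((q : G) * a) * g⁻¹ = g * (a * q) * g⁻¹ := by
      calc g * ((q : G) * a) * g⁻¹ = g * q * g⁻¹ * (g * a * g⁻¹) := by group
        _ = _ := h1.symm
        _ = g * (a * q) * g⁻¹ := by group
    have h3 := mul_left_cancel (mul_right_cancel h2)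
    exact Subtype.ext h3

end

end Cfsg.Agent.H67.NilTwo
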