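import Cfsg.Agent.H67.SZ
import Cfsg.Agent.H67.PRegular

set_option autoImplicit false

/-!
# `π`-closed groups and homogeneity (helper67)
-/

namespace Cfsg.Agent.H67

open Subgroup Pointwise

universe u

/-- `x` is a `π`-element. -/
def PiElem {G : Type u} [Group G] (π : Set ℕ) (x : G) : Prop :=
  ∀ p : ℕ, p.Prime → p ∣ orderOf x → p ∈ π

/-- the `π`-elements form a subgroup -/
def PiClosed (π : Set ℕ) (G : Type u) [Group G] : Prop :=
  ∃ K : Subgroup G, ∀ x : G, x ∈ K ↔ PiElem π x

theorem PiElem.pow {G : Type u} [Group G] {π : Set ℕ} {x : G} (h : PiElem π x) (n : ℕ) :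
    PiElem π (x ^ n) := fun p hp hd => h p hp (hd.trans (orderOf_pow_dvd n))

theorem PiElem.map {G G' : Type*} [Group G] [Group G'] {π : Set ℕ} {x : G} (h : PiElem π x)
    (f : G →* G') : PiElem π (f x) := fun p hp hd => h p hp (hd.trans (orderOf_map_dvd f x))

/-- `n` is a `π`-number -/
def PiNum (π : Set ℕ) (n : ℕ) : Prop := ∀ p : ℕ, p.Prime → p ∣ n → p ∈ π

theorem coprime_of_pi {π : Set ℕ} {m n : ℕ} (hm : PiNum π m) (hn : ∀ p : ℕ, p.Prime → p ∣ n → p ∉ π) :
    m.Coprime n := Nat.coprime_of_dvd fun p hp h1 h2 => hn p hp h2 (hm p hp h1)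

/-- A subgroup containing all `p`-parts (for `p ∈ π`) of the powers of a `π`-element contains it. -/
theorem piElem_mem_of_p_elem {G : Type u} [Group G] [Finite G] {π : Set ℕ} (C : Subgroup G)
    (hC : ∀ x : G, ∀ p : ℕ, p.Prime → p ∈ π → ∀ k : ℕ, orderOf x = p ^ k → x ∈ C) (n : ℕ) :
    ∀ x : G, orderOf x = n → PiElem π x → x ∈ C := by
  induction n using Nat.strong_induction_on with
  | _ n ih =>
  intro x hx hpi
  by_cases hn1 : n = 1
  · rw [hn1, orderOf_eq_one_iff] at hx
    rw [hx]; exact C.one_mem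
  obtain ⟨q, hq, hqn⟩ := Nat.exists_prime_and_dvd hn1
  obtain ⟨i, j, k, hxij, hi, hj⟩ := exists_p_decomp hq x
  have h1 : x ^ i ∈ C := hC _ q hq (hpi q hq (hx ▸ hqn)) k hi
  have h2 : x ^ j ∈ C := by
    refine ih _ ?_ (x ^ j) rfl (hpi.pow j)
    have h1 : orderOf (x ^ j) ∣ n := hx ▸ orderOf_pow_dvd j
    have hn0 : 0 < n := hx ▸ orderOf_pos x
    refine lt_of_le_of_ne (Nat.le_of_dvd hn0 h1) fun heq => ?_
    rw [heq] at hj
    exact hq.one_lt.ne' (Nat.eq_one_of_dvd_coprimes hj hqn dvd_rfl)
  rw [hxij]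
  exact C.mul_mem h1 h2

/-- A subgroup containing a Sylow `q`-subgroup for every `q` is everything. -/
theorem eq_top_of_sylow_le {G : Type u} [Group G] [Finite G] (C : Subgroup G)
    (h : ∀ q : ℕ, ∀ _ : Fact q.Prime, ∃ Q : Sylow q G, (Q : Subgroup G) ≤ C) : C = ⊤ := by
  rw [← index_eq_one]
  by_contra hne
  obtain ⟨q, hq, hd⟩ := Nat.exists_prime_and_dvd hne
  have : Fact q.Prime := ⟨hq⟩
  obtain ⟨Q, hQ⟩ := h q this
  exact Q.not_dvd_index (hd.trans (index_dvd_of_le hQ))

/-- Lemma A: a `p`-element acting on a normal `p'`-subgroup `K` and centralizing every `q`-subgroup of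
`K` that it normalizes centralizes `K`. -/
theorem centralizes_of_sylow {X : Type u} [Group X] [Finite X] {p : ℕ} (hp : p.Prime) (K : Subgroup X)
    [K.Normal] (hK : ¬ p ∣ Nat.card K) (x : X) (k : ℕ) (hx : orderOf x = p ^ k)
    (h : ∀ q : ℕ, q.Prime → ∀ Q : Subgroup X, Q ≤ K → IsPGroup q Q →
      x ∈ normalizer (Q : Set X) → x ∈ centralizer (Q : Set X)) : K ≤ centralizer ({x} : Set X) := by
  have hfp : Fact p.Prime := ⟨hp⟩
  have h1 : (centralizer ({x} : Set X)).subgroupOf K = ⊤ := by
    apply eq_top_of_sylow_le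
    intro q hq
    -- fixed Sylow `q`-subgroup
    have hpg : IsPGroup p (zpowers x) := IsPGroup.of_card (n := k) (by rw [Nat.card_zpowers, hx])
    let act : MulAction (zpowers x) (Sylow q K) :=
      MulAction.compHom (Sylow q K) ((MulAut.conjNormal : X →* MulAut K).comp (zpowers x).subtype)
    have hcard : ¬ p ∣ Nat.card (Sylow q K) := by
      intro hd
      apply hK
      have Q : Sylow q K := Classical.arbitrary _
      exact hd.trans ((Q.card_dvd_index).trans (index_dvd_card _))
    obtain ⟨Q, hQ⟩ := hpg.nonempty_fixed_point_of_prime_not_dvd_card (Sylow q K) hcard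
    refine ⟨Q, ?_⟩
    have hfix : (MulAut.conjNormal x : MulAut K) • Q = Q := hQ ⟨x, mem_zpowers _⟩
    have hnorm : x ∈ normalizer (((Q : Subgroup K).map K.subtype : Subgroup X) : Set X) := by
      rw [mem_normalizer_iff_map_conj_eq]
      have hfix' : (Q : Subgroup K).map ((MulAut.conjNormal x : MulAut K).toMonoidHom) =
          (Q : Subgroup K) := by
        rw [Sylow.ext_iff] at hfix
        exact hfix
      conv_rhs => rw [← hfix']
      rw [map_map, map_map]
      rfl
    have hc := h q hq.out _ (map_subtype_le _) (Q.2.map _) hnorm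
    intro y hy
    rw [mem_subgroupOf, mem_centralizer_singleton_iff]
    exact (mem_centralizer_iff.mp hc y ⟨y, hy, rfl⟩)
  intro y hy
  have : (⟨y, hy⟩ : K) ∈ (centralizer ({x} : Set X)).subgroupOf K := by rw [h1]; trivial
  exact this

/-- Lemma B. -/
theorem piClosed_of_centralizes {X : Type u} [Group X] [Finite X] {π : Set ℕ} (K : Subgroup X)
    [K.Normal] (hK : ∀ p : ℕ, p.Prime → p ∣ Nat.card K → p ∉ π)
    (hcent : ∀ x : X, PiElem π x → x ∈ centralizer (K : Set X)) (hQ : PiClosed π (X ⧸ K)) :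
    PiClosed π X := by
  obtain ⟨M, hM⟩ := hQ
  set D : Subgroup X := centralizer (K : Set X) ⊓ M.comap (QuotientGroup.mk' K) with hD
  have hZc : ∀ z : D, z ∈ K.subgroupOf D → ∀ d : D, z * d = d * z := by
    intro z hz d
    apply Subtype.ext
    exact (mem_centralizer_iff.mp d.2.1 z (mem_subgroupOf.mp hz))
  set Z : Subgroup D := K.subgroupOf D with hZ
  have hZn : Z.Normal := by
    constructor
    intro z hz d
    rw [← hZc z hz d, mul_inv_cancel_right]
    exact hz
  have hZcard : ∀ p : ℕ, p.Prime → p ∣ Nat.card Z → p ∉ π := by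
    intro p hp hd
    refine hK p hp (hd.trans ?_)
    have h1 : Nat.card Z = Nat.card (K ⊓ D : Subgroup X) := by
      rw [hZ, ← card_map_of_injective D.subtype_injective, subgroupOf_map_subtype]
    rw [h1]
    exact card_dvd_of_le inf_le_left
  -- index of Z is a π-number
  have hMpi : PiNum π (Nat.card M) := by
    intro p hp hd
    have : Fact p.Prime := ⟨hp⟩
    obtain ⟨y, hy⟩ := exists_prime_orderOf_dvd_card' (G := M) p hd
    have := (hM y).mp y.2
    exact this p hp (by rw [orderOf_coe, hy])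
  have hZidx : PiNum π Z.index := by
    intro p hp hd
    apply hMpi p hp
    refine hd.trans ?_
    have h1 : Z = ((QuotientGroup.mk' K).domRestrict D).ker := by
      ext z
      rw [hZ, mem_subgroupOf, MonoidHom.mem_ker, MonoidHom.domRestrict_apply, QuotientGroup.mk'_apply,
        QuotientGroup.eq_one_iff]
    rw [h1, index_ker]
    have h2 : ((QuotientGroup.mk' K).domRestrict D).range ≤ M := by
      rintro _ ⟨d, rfl⟩
      exact d.2.2
    exact card_dvd_of_le h2
  obtain ⟨E, hE⟩ := exists_right_complement'_of_coprime (N := Z) ((coprime_of_pi hZidx hZcard).symm)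
  have hEcard : Nat.card E = Z.index := hE.symm.index_eq_card.symm
  refine ⟨E.map D.subtype, fun x => ?_⟩
  constructor
  · rintro ⟨e, he, rfl⟩ p hp hd
    have h1 : orderOf (D.subtype e) = orderOf (⟨e, he⟩ : E) := by
      rw [← orderOf_coe (⟨e, he⟩ : E), ← orderOf_coe e]; rfl
    rw [h1] at hd
    exact hZidx p hp (hEcard ▸ hd.trans (orderOf_dvd_natCard _))
  · intro hx
    have hxD : x ∈ D := ⟨hcent x hx, (hM _).mpr (hx.map _)⟩
    obtain ⟨⟨z, e⟩, hze⟩ := (hE : IsComplement _ _).2 ⟨x, hxD⟩
    have hze' : (z : D) * (e : D) = ⟨x, hxD⟩ := hze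
    have hz1 : (z : D) = 1 := by
      have hcomm : (z : D) * (e : D) = (e : D) * (z : D) := hZc z z.2 e
      set n := orderOf (⟨x, hxD⟩ : D) * Nat.card E with hn
      have hx' : (⟨x, hxD⟩ : D) ^ n = 1 := by rw [hn, pow_mul, pow_orderOf_eq_one, one_pow]
      have he' : (e : D) ^ n = 1 := by
        rw [hn, mul_comm, pow_mul]
        have : (e : D) ^ Nat.card E = 1 := by
          have h0 : e ^ Nat.card E = 1 := pow_card_eq_one'
          exact congrArg Subtype.val h0
        rw [this, one_pow]
      have hzn : (z : D) ^ n = 1 := by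
        have h1 : (z : D) ^ n * (e : D) ^ n = 1 := by
          rw [← (show Commute (z : D) (e : D) from hcomm).mul_pow, hze', hx']
        rwa [he', mul_one] at h1
      have h1 : orderOf (z : D) ∣ n := orderOf_dvd_of_pow_eq_one hzn
      have h2 : orderOf (z : D) ∣ Nat.card Z := by
        rw [orderOf_coe]; exact orderOf_dvd_natCard _
      have h3 : PiNum π n := by
        intro p hp hd
        rcases (hp.dvd_mul).mp hd with h | h
        · exact hx p hp (by rwa [← orderOf_coe] at h)
        · exact hZidx p hp (hEcard ▸ h)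
      have h4 := Nat.eq_one_of_dvd_coprimes (coprime_of_pi h3 hZcard) h1 h2
      exact orderOf_eq_one_iff.mp h4
    refine ⟨e, e.2, ?_⟩
    rw [hz1, one_mul] at hze'
    exact congrArg Subtype.val hze'

/-- `π'`-homogeneity -/
def PiPrimeHomogeneous (π : Set ℕ) (G : Type u) [Group G] : Prop :=
  ∀ H : Subgroup G, H ≠ ⊥ → (∀ p : ℕ, p.Prime → p ∣ Nat.card ↥H → p ∉ π) →
    ∀ p : ℕ, p.Prime → p ∣ (centralizer (H : Set G)).relIndex (normalizer (H : Set G)) → p ∉ π

theorem piClosed_of_mulEquiv {X Y : Type*} [Group X] [Group Y] {π : Set ℕ} (e : X ≃* Y)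
    (h : PiClosed π X) : PiClosed π Y := by
  obtain ⟨M, hM⟩ := h
  refine ⟨M.map e.toMonoidHom, fun y => ?_⟩
  have hord : ∀ x : X, orderOf (e x) = orderOf x := fun x => orderOf_injective e.toMonoidHom e.injective x
  constructor
  · rintro ⟨x, hx, rfl⟩ p hp hd
    exact (hM x).mp hx p hp (by rwa [← hord x])
  · intro hy
    refine ⟨e.symm y, (hM _).mpr fun p hp hd => hy p hp ?_, by simp⟩
    have := hord (e.symm y)
    rw [MulEquiv.apply_symm_apply] at this
    rwa [this]

theorem piClosed_extension {G : Type u} [Group G] [Finite G] (π : Set ℕ)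
    (hhom : PiPrimeHomogeneous π G) (K : Subgroup G) [K.Normal]
    (hK : PiClosed π K) (hQ : PiClosed π (G ⧸ K)) : PiClosed π G := by
  obtain ⟨LK, hLK⟩ := hK
  set L : Subgroup G := LK.map K.subtype with hL
  have hLmem : ∀ x : G, x ∈ L ↔ x ∈ K ∧ PiElem π x := by
    intro x
    constructor
    · rintro ⟨y, hy, rfl⟩
      refine ⟨y.2, fun p hp hd => (hLK y).mp hy p hp ?_⟩
      rwa [← orderOf_coe]
    · rintro ⟨hx, hpi⟩
      exact ⟨⟨x, hx⟩, (hLK _).mpr (fun p hp hd => hpi p hp (by rwa [← orderOf_coe] at hd)), rfl⟩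
  have hLn : L.Normal := by
    constructor
    intro x hx g
    rw [hLmem] at hx ⊢
    refine ⟨Subgroup.Normal.conj_mem inferInstance x hx.1 g, fun p hp hd => hx.2 p hp ?_⟩
    rwa [orderOf_conj_eq] at hd
  have hLK' : L ≤ K := fun x hx => ((hLmem x).mp hx).1
  have hLpi : PiNum π (Nat.card L) := by
    intro p hp hd
    have : Fact p.Prime := ⟨hp⟩
    obtain ⟨y, hy⟩ := exists_prime_orderOf_dvd_card' (G := L) p hd
    exact ((hLmem y).mp y.2).2 p hp (by rw [orderOf_coe, hy])
  set f := QuotientGroup.mk' L with hf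
  have hfs : Function.Surjective f := QuotientGroup.mk'_surjective L
  -- π-elements of G vs G/L
  have hpow : ∀ x : G, x ^ orderOf (f x) ∈ L := by
    intro x
    have h1 : f (x ^ orderOf (f x)) = 1 := by rw [map_pow, pow_orderOf_eq_one]
    exact (QuotientGroup.eq_one_iff _).mp h1
  have hpi_iff : ∀ x : G, PiElem π x ↔ PiElem π (f x) := by
    intro x
    refine ⟨fun h => h.map f, fun h p hp hd => ?_⟩
    have h1 : orderOf x ∣ orderOf (f x) * orderOf (x ^ orderOf (f x)) := by
      apply orderOf_dvd_of_pow_eq_one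
      rw [pow_mul, pow_orderOf_eq_one]
    rcases (hp.dvd_mul).mp (hd.trans h1) with h2 | h2
    · exact h p hp h2
    · exact ((hLmem _).mp (hpow x)).2 p hp h2
  set Kb : Subgroup (G ⧸ L) := K.map f with hKb
  have hKbn : Kb.Normal := Subgroup.Normal.map inferInstance f hfs
  have hKbcard : ∀ p : ℕ, p.Prime → p ∣ Nat.card Kb → p ∉ π := by
    intro p hp hd hpπ
    have : Fact p.Prime := ⟨hp⟩
    obtain ⟨y, hy⟩ := exists_prime_orderOf_dvd_card' (G := Kb) p hd
    obtain ⟨k, hk, hky⟩ := y.2
    have hord : orderOf (f k) = p := by rw [hky, orderOf_coe, hy]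
    have h1 : PiElem π k := by
      rw [hpi_iff]
      intro q hq hqd
      rw [hord] at hqd
      rw [(Nat.prime_dvd_prime_iff_eq hq hp).mp hqd]
      exact hpπ
    have h2 : f k = 1 := (QuotientGroup.eq_one_iff k).mpr ((hLmem k).mpr ⟨hk, h1⟩)
    rw [h2, orderOf_one] at hord
    exact hp.one_lt.ne hord
  -- π-elements of G/L centralize Kb
  have hcent : ∀ x : G ⧸ L, PiElem π x → x ∈ centralizer (Kb : Set (G ⧸ L)) := by
    intro x hx
    refine piElem_mem_of_p_elem (π := π) (centralizer (Kb : Set (G ⧸ L))) ?_ _ x rfl hx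
    intro x p hp hpπ k hxk
    have hfp : Fact p.Prime := ⟨hp⟩
    by_cases hk0 : k = 0
    · rw [hk0, pow_zero, orderOf_eq_one_iff] at hxk
      rw [hxk]; exact one_mem _
    have h1 : Kb ≤ centralizer ({x} : Set (G ⧸ L)) := by
      refine centralizes_of_sylow hp Kb (fun hd => hKbcard p hp hd hpπ) x k hxk ?_
      intro q hq Q hQK hQq hxQ
      by_cases hQbot : Q = ⊥
      · rw [hQbot, mem_centralizer_iff]
        intro y hy
        rw [coe_bot, Set.mem_singleton_iff] at hy
        rw [hy, one_mul, mul_one]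
      have hfq : Fact q.Prime := ⟨hq⟩
      obtain ⟨a, ha⟩ := IsPGroup.iff_card.mp hQq
      have ha0 : a ≠ 0 := by
        rintro rfl
        rw [pow_zero] at ha
        exact hQbot (card_eq_one.mp ha)
      have hqπ : q ∉ π := hKbcard q hq (by
        refine dvd_trans ?_ (card_dvd_of_le hQK)
        rw [ha]; exact dvd_pow_self q ha0)
      have hcopLQ : (Nat.card L).Coprime (Nat.card Q) := by
        rw [ha]
        apply Nat.Coprime.pow_right
        rw [Nat.coprime_comm, Nat.Prime.coprime_iff_not_dvd hq]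
        exact fun hd => hqπ (hLpi q hq hd)
      -- lift Q
      set R : Subgroup G := Q.comap f with hR
      have hLR : L ≤ R := by
        intro y hy
        rw [hR, mem_comap, hf, QuotientGroup.mk'_apply, (QuotientGroup.eq_one_iff y).mpr hy]
        exact one_mem _
      have hRmap : R.map f = Q := map_comap_eq_self_of_surjective hfs Q
      have hrel : L.relIndex R = Nat.card Q := by
        have h1 := relIndex_ker (K := R) f
        rw [hf, QuotientGroup.ker_mk', ← hf, hRmap] at h1
        exact h1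
      have hcop : (Nat.card (L.subgroupOf R)).Coprime (L.subgroupOf R).index := by
        have h1 : Nat.card (L.subgroupOf R) = Nat.card L := Nat.card_congr (subgroupOfEquivOfLe hLR).toEquiv
        have h2 : (L.subgroupOf R).index = L.relIndex R := rfl
        rw [h1, h2, hrel]
        exact hcopLQ
      obtain ⟨Q₁, hQ₁⟩ := exists_right_complement'_of_coprime hcop
      set Q₀ : Subgroup G := Q₁.map R.subtype with hQ₀
      have hQ₀card : Nat.card Q₀ = Nat.card Q := by
        rw [hQ₀, card_map_of_injective R.subtype_injective, ← hQ₁.symm.index_eq_card]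
        exact hrel
      have hQ₀map : Q₀.map f = Q := by
        rw [← hRmap]
        have h1 : R = L ⊔ Q₀ := by
          have h2 := congrArg (Subgroup.map R.subtype) hQ₁.sup_eq_top
          rw [Subgroup.map_sup, subgroupOf_map_subtype, inf_eq_left.mpr hLR, ← MonoidHom.range_eq_map,
            range_subtype] at h2
          exact h2.symm
        rw [h1, Subgroup.map_sup]
        have h3 : L.map f = ⊥ := by
          rw [Subgroup.map_eq_bot_iff, hf, QuotientGroup.ker_mk']
        rw [h3, bot_sup_eq]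
      have hQ₀ne : Q₀ ≠ ⊥ := by
        intro h
        rw [h, Subgroup.map_bot] at hQ₀map
        exact hQbot hQ₀map.symm
      have hQ₀sol : Group.IsSolvable Q₀ := by
        have hpq : IsPGroup q Q₀ := IsPGroup.of_card (by rw [hQ₀card, ha])
        have := hpq.isNilpotent
        infer_instance
      have hc := hhom Q₀ hQ₀ne (by
        intro r hr hd
        rw [hQ₀card, ha] at hd
        rw [(Nat.prime_dvd_prime_iff_eq hr hq).mp (hr.dvd_of_dvd_pow hd)]
        exact hqπ)
      obtain ⟨g, hg⟩ := hfs x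
      obtain ⟨n, hn, hng⟩ := exists_lift_normalizer L Q₀ (by rw [hQ₀card]; exact hcopLQ) hQ₀sol g
        (by rw [← hf, hg, hQ₀map]; exact hxQ)
      set N := normalizer (Q₀ : Set G) with hN
      set C := centralizer (Q₀ : Set G) with hC
      have hpowC : (n * g) ^ (C.relIndex N) ∈ C := by
        have h1 := pow_index_mem (C.subgroupOf N) (⟨n * g, hng⟩ : N)
        exact h1
      have hfx : f (n * g) = x := by
        rw [map_mul, hg]
        have : f n = 1 := (QuotientGroup.eq_one_iff n).mpr hn
        rw [this, one_mul]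
      have hxc : x ^ (C.relIndex N) ∈ centralizer (Q : Set (G ⧸ L)) := by
        rw [← hfx, ← map_pow, mem_centralizer_iff]
        intro y hy
        have hy' : y ∈ Q₀.map f := by rw [hQ₀map]; exact hy
        obtain ⟨z, hz, rfl⟩ := hy'
        rw [← map_mul, ← map_mul, mem_centralizer_iff.mp hpowC z hz]
      have hcop2 : (orderOf x).Coprime (C.relIndex N) := by
        rw [hxk]
        apply Nat.Coprime.pow_left
        rw [Nat.Prime.coprime_iff_not_dvd hp]
        exact fun hd => hc p hp hd hpπ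
      exact (zpowers_le.mpr hxc) (mem_zpowers_pow_of_coprime hcop2)
    rw [mem_centralizer_iff]
    intro y hy
    exact (mem_centralizer_singleton_iff.mp (h1 hy))
  have hQ' : PiClosed π ((G ⧸ L) ⧸ Kb) :=
    piClosed_of_mulEquiv (QuotientGroup.quotientQuotientEquivQuotient L K hLK').symm hQ
  obtain ⟨M, hM⟩ := piClosed_of_centralizes Kb hKbcard hcent hQ'
  refine ⟨M.comap f, fun x => ?_⟩
  rw [mem_comap, hM, hpi_iff]

end Cfsg.Agent.H67
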